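import Mathlib

/-! Elementary facts about subgroups of `Sym(n)` containing `Alt(n)`. -/

set_option autoImplicit false

namespace Cfsg.Agent.H81.AltSub

open Equiv Equiv.Perm

variable {α : Type*} [Fintype α] [DecidableEq α]

theorem eq_one_of_centralizes (h5 : 5 ≤ Fintype.card α) {σ : Perm α}
    (h : ∀ τ ∈ alternatingGroup α, σ * τ = τ * σ) : σ = 1 := by
  by_contra hne
  obtain ⟨a, ha⟩ : ∃ a, σ a ≠ a := not_forall.1 fun h' => hne (Equiv.ext h')
  obtain ⟨c, -, hc⟩ := Finset.exists_mem_notMem_of_card_lt_card (t := Finset.univ)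
    (s := ({a, σ a} : Finset α)) (lt_of_le_of_lt Finset.card_le_two (by rw [Finset.card_univ]; omega))
  obtain ⟨e, -, he⟩ := Finset.exists_mem_notMem_of_card_lt_card (t := Finset.univ)
    (s := ({a, σ a, c} : Finset α)) (lt_of_le_of_lt Finset.card_le_three (by rw [Finset.card_univ]; omega))
  simp only [Finset.mem_insert, Finset.mem_singleton, not_or] at hc he
  have h3 : (swap a c * swap a e).IsThreeCycle :=
    isThreeCycle_swap_mul_swap_same (Ne.symm hc.1) (Ne.symm he.1) (Ne.symm he.2.2)
  have hcomm := DFunLike.congr_fun (h _ h3.mem_alternatingGroup) a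
  have h1 : swap a c (σ a) = σ a := swap_apply_of_ne_of_ne ha (Ne.symm hc.2)
  have h2 : swap a e (σ a) = σ a := swap_apply_of_ne_of_ne ha (Ne.symm he.2.1)
  simp only [Perm.mul_apply, h2, h1, swap_apply_left] at hcomm
  rw [swap_apply_of_ne_of_ne he.1 he.2.2] at hcomm
  exact he.1 (σ.injective hcomm)

theorem eq_bot_or_le {N : Subgroup (Perm α)} (h5 : 5 ≤ Fintype.card α)
    (hn : alternatingGroup α ≤ Subgroup.normalizer (N : Set (Perm α))) :
    N = ⊥ ∨ alternatingGroup α ≤ N := by
  haveI : IsSimpleGroup (alternatingGroup α) :=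
    alternatingGroup.isSimpleGroup (by rw [Nat.card_eq_fintype_card]; exact h5)
  have hnormal : (N.subgroupOf (alternatingGroup α)).Normal := ⟨fun y hy z => by
    rw [Subgroup.mem_subgroupOf] at hy ⊢
    simpa using (Subgroup.mem_normalizer_iff.1 (hn z.2) y).1 hy⟩
  rcases hnormal.eq_bot_or_eq_top with h | h
  · left
    rw [Subgroup.eq_bot_iff_forall]
    intro y hy
    refine eq_one_of_centralizes h5 fun τ hτ => ?_
    have hmem : y * τ * y⁻¹ * τ⁻¹ ∈ N := by
      have := N.mul_mem hy ((Subgroup.mem_normalizer_iff.1 (hn hτ) y⁻¹).1 (N.inv_mem hy))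
      simpa [mul_assoc] using this
    have hmem' : y * τ * y⁻¹ * τ⁻¹ ∈ alternatingGroup α :=
      mul_mem ((inferInstance : (alternatingGroup α).Normal).conj_mem τ hτ y) (inv_mem hτ)
    have : (⟨_, hmem'⟩ : alternatingGroup α) ∈ N.subgroupOf (alternatingGroup α) := hmem
    rw [h, Subgroup.mem_bot] at this
    have h1 : y * τ * y⁻¹ * τ⁻¹ = 1 := congrArg Subtype.val this
    calc y * τ = y * τ * y⁻¹ * τ⁻¹ * (τ * y) := by group
      _ = τ * y := by rw [h1, one_mul]
  · exact Or.inr (Subgroup.subgroupOf_eq_top.1 h)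

theorem nontrivial_of_five_le (h5 : 5 ≤ Fintype.card α) : Nontrivial α :=
  Fintype.one_lt_card_iff_nontrivial.1 (by omega)

theorem two_mul_card (h5 : 5 ≤ Fintype.card α) :
    2 * Nat.card (alternatingGroup α) = (Fintype.card α).factorial := by
  haveI := nontrivial_of_five_le h5
  rw [two_mul_nat_card_alternatingGroup, Nat.card_perm, Nat.card_eq_fintype_card]

theorem card_alt_ge (h5 : 5 ≤ Fintype.card α) : 60 ≤ Nat.card (alternatingGroup α) := by
  have h := two_mul_card h5
  have h2 := Nat.factorial_le h5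
  have : Nat.factorial 5 = 120 := rfl
  omega

theorem alt_le_of_card (h5 : 5 ≤ Fintype.card α) {V : Subgroup (Perm α)}
    (hV : (Fintype.card α).factorial ≤ 2 * Nat.card V) : alternatingGroup α ≤ V := by
  haveI := nontrivial_of_five_le h5
  have h := V.index_mul_card
  rw [Nat.card_perm, Nat.card_eq_fintype_card (α := α)] at h
  have hpos : 0 < Nat.card V := Nat.card_pos
  have hidx : V.index ≤ 2 := by
    by_contra hc
    have := Nat.mul_le_mul_right (Nat.card V) (show 3 ≤ V.index by omega)
    omega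
  rcases (show V.index = 1 ∨ V.index = 2 by have := Nat.pos_of_ne_zero V.index_ne_zero_of_finite; omega) with h1 | h1
  · rw [Subgroup.index_eq_one] at h1; rw [h1]; exact le_top
  · rw [eq_alternatingGroup_of_index_eq_two h1]

theorem eq_alt_of_card (h5 : 5 ≤ Fintype.card α) {V : Subgroup (Perm α)}
    (hV : 2 * Nat.card V = (Fintype.card α).factorial) : V = alternatingGroup α := by
  refine (Subgroup.eq_of_le_of_card_ge (alt_le_of_card h5 hV.ge) ?_).symm
  have := two_mul_card h5
  omega

theorem eq_top_or_eq_alt (h5 : 5 ≤ Fintype.card α) {V : Subgroup (Perm α)}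
    (hV : alternatingGroup α ≤ V) : V = ⊤ ∨ V = alternatingGroup α := by
  haveI := nontrivial_of_five_le h5
  have h := Subgroup.index_dvd_of_le hV
  rw [alternatingGroup.index_eq_two] at h
  rcases (Nat.dvd_prime Nat.prime_two).1 h with h | h
  · exact Or.inl (Subgroup.index_eq_one.1 h)
  · exact Or.inr (eq_alternatingGroup_of_index_eq_two h)

theorem commutator_alt (h5 : 5 ≤ Fintype.card α) :
    ⁅alternatingGroup α, alternatingGroup α⁆ = alternatingGroup α := by
  refine le_antisymm (Subgroup.commutator_le_self _) ?_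
  have hn : alternatingGroup α ≤ Subgroup.normalizer
      ((⁅alternatingGroup α, alternatingGroup α⁆ : Subgroup (Perm α)) : Set (Perm α)) := by
    rw [Subgroup.normalizer_eq_top]
    exact le_top
  refine (eq_bot_or_le h5 hn).resolve_left fun h => ?_
  have hle := Subgroup.commutator_eq_bot_iff_le_centralizer.1 h
  have hcard := card_alt_ge h5
  have : alternatingGroup α = ⊥ := (Subgroup.eq_bot_iff_forall _).2 fun y hy =>
    eq_one_of_centralizes h5 fun τ hτ => (Subgroup.mem_centralizer_iff.1 (hle hy) τ hτ).symm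
  rw [this, Subgroup.card_bot] at hcard
  omega

theorem not_isPGroup (h5 : 5 ≤ Fintype.card α) {N : Subgroup (Perm α)} (hN : alternatingGroup α ≤ N)
    {p : ℕ} (hp : p.Prime) : ¬ IsPGroup p N := by
  intro hP
  haveI := Fact.mk hp
  have hA : IsPGroup p (alternatingGroup α) := hP.to_le hN
  obtain ⟨k, hk⟩ := IsPGroup.iff_card.1 hA
  haveI := nontrivial_of_five_le h5
  have h2 := two_mul_card h5
  have hd : ∀ r : ℕ, r.Prime → 3 ≤ r → r ≤ 5 → r ∣ Nat.card (alternatingGroup α) := fun r hr h3 hr5 =>
    (Nat.Coprime.dvd_mul_left ((hr.coprime_iff_not_dvd).2 fun h => by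
      have := Nat.le_of_dvd two_pos h; omega)).1 (h2 ▸ Nat.dvd_factorial hr.pos (hr5.trans h5))
  have e3 := (Nat.prime_dvd_prime_iff_eq Nat.prime_three hp).1
    (Nat.prime_three.dvd_of_dvd_pow (hk ▸ hd 3 Nat.prime_three le_rfl (by norm_num)))
  have e5 := (Nat.prime_dvd_prime_iff_eq Nat.prime_five hp).1
    (Nat.prime_five.dvd_of_dvd_pow (hk ▸ hd 5 Nat.prime_five (by norm_num) le_rfl))
  omega

/-- A proper subgroup of `Alt(n)` has index at least `n`. -/
theorem le_index (h5 : 5 ≤ Fintype.card α) {V : Subgroup (Perm α)} (hV : ¬ alternatingGroup α ≤ V) :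
    Fintype.card α ≤ (V.subgroupOf (alternatingGroup α)).index := by
  classical
  haveI : IsSimpleGroup (alternatingGroup α) :=
    alternatingGroup.isSimpleGroup (by rw [Nat.card_eq_fintype_card]; exact h5)
  set H := V.subgroupOf (alternatingGroup α)
  have hH : H ≠ ⊤ := fun h => hV (Subgroup.subgroupOf_eq_top.1 h)
  have hker : (MulAction.toPermHom (alternatingGroup α) (alternatingGroup α ⧸ H)).ker = H.normalCore :=
    (Subgroup.normalCore_eq_ker H).symm
  have hinj : Function.Injective (MulAction.toPermHom (alternatingGroup α) (alternatingGroup α ⧸ H)) := by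
    rw [← MonoidHom.ker_eq_bot_iff, hker]
    exact (Subgroup.Normal.eq_bot_or_eq_top inferInstance).resolve_right fun e =>
      hH (top_le_iff.1 (e ▸ H.normalCore_le))
  have h1 := Nat.card_le_card_of_injective _ hinj
  rw [Nat.card_perm] at h1
  change Nat.card (alternatingGroup α) ≤ H.index.factorial at h1
  by_contra hlt
  have h2 : H.index.factorial ≤ (Fintype.card α - 1).factorial := Nat.factorial_le (by omega)
  have h3 := two_mul_card h5
  rw [← Nat.mul_factorial_pred (by omega : Fintype.card α ≠ 0)] at h3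
  have := Nat.mul_le_mul_right (Fintype.card α - 1).factorial h5
  have := (Fintype.card α - 1).factorial_pos
  omega

end Cfsg.Agent.H81.AltSub
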