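import Mathlib
import Cfsg.Agent.H81.AltSub
import Cfsg.Agent.H81.CubicChain
import Cfsg.Agent.H81.ThompsonWielandt

/-! Primitive groups with an unfaithful alternating or symmetric subconstituent. -/

set_option autoImplicit false

namespace Cfsg.Agent.H81.AltSC

open Equiv Equiv.Perm
open Cfsg.Agent.H81.TW (IsPair core1 core2 inCore opOf le_normalizer_inCore)
open Cfsg.Agent.H81.Cubic (cg mem_cg cg_mul cg_one card_cg cg_of_mem cg_mono cg_inf mem_normalizer_of_cg)

variable {G : Type*} [Group G]

theorem cg_eq_of_mem_normalizer {h : G} {X : Subgroup G} (hh : h ∈ Subgroup.normalizer (X : Set G)) :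
    cg h X = X := by
  ext y
  rw [mem_cg]
  constructor
  · intro hy
    have := (Subgroup.mem_normalizer_iff.1 hh _).1 hy
    simpa [mul_assoc] using this
  · intro hy
    refine (Subgroup.mem_normalizer_iff.1 hh _).2 ?_
    simpa [mul_assoc] using hy

theorem le_normalizer_cg {P X : Subgroup G} (t : G) (h : P ≤ Subgroup.normalizer (X : Set G)) :
    cg t P ≤ Subgroup.normalizer (cg t X : Set G) := by
  intro y hy
  refine mem_normalizer_of_cg ?_
  have hp := cg_eq_of_mem_normalizer (h (mem_cg.1 hy))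
  rw [← cg_mul, show y * t = t * (t⁻¹ * y * t) by group, cg_mul, hp]

theorem cg_eq_self_comm {g : G} (X : Subgroup G) : cg g⁻¹ (cg g X) = X := by
  rw [← cg_mul, inv_mul_cancel, cg_one]

theorem le_normalizer_commutator {P X : Subgroup G} (h : P ≤ Subgroup.normalizer (X : Set G)) :
    P ≤ Subgroup.normalizer ((⁅X, X⁆ : Subgroup G) : Set G) := by
  intro y hy
  refine mem_normalizer_of_cg ?_
  rw [cg, Subgroup.map_commutator, ← cg, cg_eq_of_mem_normalizer (h hy)]

theorem commutator_le_inf_of_normal {S A B : Subgroup G} (hA : A ≤ S) (hB : B ≤ S)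
    (hnA : S ≤ Subgroup.normalizer (A : Set G)) (hnB : S ≤ Subgroup.normalizer (B : Set G)) :
    ⁅A, B⁆ ≤ A ⊓ B := by
  refine Subgroup.commutator_le.2 fun a ha b hb => ⟨?_, ?_⟩
  · have := A.mul_mem ha ((Subgroup.mem_normalizer_iff.1 (hnA (hB hb)) a⁻¹).1 (A.inv_mem ha))
    rw [commutatorElement_def]
    simpa [mul_assoc] using this
  · have := B.mul_mem ((Subgroup.mem_normalizer_iff.1 (hnB (hA ha)) b).1 hb) (B.inv_mem hb)
    rw [commutatorElement_def]
    simpa [mul_assoc] using this

section Img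

variable {n : ℕ} {D : Subgroup G}

/-- The image of `X ⊓ D` under a homomorphism defined on `D`. -/
def img (f : D →* Perm (Fin n)) (X : Subgroup G) : Subgroup (Perm (Fin n)) := (X.subgroupOf D).map f

variable (f : D →* Perm (Fin n))

theorem mem_img {X : Subgroup G} {σ : Perm (Fin n)} :
    σ ∈ img f X ↔ ∃ y : D, (y : G) ∈ X ∧ f y = σ :=
  Iff.rfl

theorem img_mono {X Y : Subgroup G} (h : X ≤ Y) : img f X ≤ img f Y :=
  Subgroup.map_mono (Subgroup.comap_mono h)

theorem img_self : img f D = f.range := by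
  rw [img, Subgroup.subgroupOf_self, MonoidHom.range_eq_map]

theorem img_commutator {X Y : Subgroup G} (hX : X ≤ D) (hY : Y ≤ D) :
    ⁅img f X, img f Y⁆ ≤ img f ⁅X, Y⁆ := by
  rw [img, img, ← Subgroup.map_commutator]
  refine Subgroup.map_mono ?_
  refine Subgroup.map_le_iff_le_comap.1 ?_
  rw [Subgroup.map_commutator, Subgroup.map_subgroupOf_eq_of_le hX,
    Subgroup.map_subgroupOf_eq_of_le hY]

theorem img_commutator_le {X Y : Subgroup G} (hX : X ≤ D) (hY : Y ≤ D) :
    img f ⁅X, Y⁆ ≤ ⁅img f X, img f Y⁆ := by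
  unfold img
  rw [← Subgroup.map_commutator]
  refine Subgroup.map_mono ?_
  intro y hy
  have : (y : G) ∈ (⁅X.subgroupOf D, Y.subgroupOf D⁆ : Subgroup D).map D.subtype := by
    rw [Subgroup.map_commutator, Subgroup.map_subgroupOf_eq_of_le hX,
      Subgroup.map_subgroupOf_eq_of_le hY]
    exact hy
  obtain ⟨z, hz, hzy⟩ := this
  exact Subtype.ext (hzy) ▸ hz

theorem img_normalized {X Y : Subgroup G} (hY : Y ≤ Subgroup.normalizer (X : Set G)) :
    img f Y ≤ Subgroup.normalizer (img f X : Set (Perm (Fin n))) := by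
  refine le_trans (Subgroup.map_mono ?_) (Subgroup.le_normalizer_map f)
  intro y hy
  rw [Subgroup.mem_normalizer_iff]
  intro z
  exact Subgroup.mem_normalizer_iff.1 (hY hy) (z : G)

theorem img_eq_bot_iff {X : Subgroup G} :
    img f X = ⊥ ↔ ∀ y : D, (y : G) ∈ X → f y = 1 := by
  rw [img, Subgroup.map_eq_bot_iff]
  exact ⟨fun h y hy => h hy, fun h y hy => h y hy⟩

end Img

theorem le_normalizer_core1 (H H' : Subgroup G) :
    H ≤ Subgroup.normalizer (core1 H H' : Set G) :=
  le_normalizer_inCore H (H ⊓ H')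

theorem ker_comp_equiv {A B C : Type*} [Group A] [Group B] [Group C] (e : B ≃* C) (f : A →* B) :
    (e.toMonoidHom.comp f).ker = f.ker := by
  ext a
  show e (f a) = 1 ↔ f a = 1
  exact map_eq_one_iff e e.injective

theorem mem_finset_inf {ι A : Type*} [Group A] (N : ι → Subgroup A) (s : Finset ι) (y : A) :
    y ∈ s.inf N ↔ ∀ h ∈ s, y ∈ N h := by
  classical
  induction s using Finset.induction_on with
  | empty => simp
  | insert a s _ ih => simp [Finset.inf_insert, Subgroup.mem_inf, ih]

theorem commutator_of_alt_le {α : Type*} [Fintype α] [DecidableEq α] (h5 : 5 ≤ Fintype.card α)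
    {V : Subgroup (Perm α)} (hV : alternatingGroup α ≤ V) : ⁅V, V⁆ = alternatingGroup α := by
  refine le_antisymm ((Subgroup.commutator_mono le_top le_top).trans ?_)
    ((AltSub.commutator_alt h5).ge.trans (Subgroup.commutator_mono hV hV))
  refine Subgroup.commutator_le.2 fun a _ b _ => ?_
  rw [mem_alternatingGroup, map_commutatorElement]
  exact commutatorElement_eq_one_iff_mul_comm.2 (mul_comm _ _)

/-- The coset action of `H` on the cosets of `J`, in coordinates. -/
theorem exists_coset_hom [Finite G] {H J : Subgroup G} (hJ : J ≤ H) {d : ℕ} (hd : d * Nat.card J = Nat.card H) :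
    ∃ (π : H →* Perm (Fin d)) (z0 : Fin d), (∀ h : H, π h z0 = z0 ↔ (h : G) ∈ J) ∧
      (∀ z, ∃ h : H, π h z0 = z) ∧ π.ker = (inCore H J).subgroupOf H := by
  classical
  set J' := J.subgroupOf H
  have hidx : Nat.card (H ⧸ J') = d := by
    have h1 := J'.index_mul_card
    rw [Nat.card_congr (Subgroup.subgroupOfEquivOfLe hJ).toEquiv, ← hd] at h1
    exact Nat.eq_of_mul_eq_mul_right Nat.card_pos h1
  let e : (H ⧸ J') ≃ Fin d := Finite.equivFinOfCardEq hidx
  refine ⟨e.permCongrHom.toMonoidHom.comp (MulAction.toPermHom H (H ⧸ J')),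
    e ((1 : H) : H ⧸ J'), fun h => ?_, fun z => ?_, ?_⟩
  · show e (((h : H) • e.symm (e ((1 : H) : H ⧸ J')))) = _ ↔ _
    rw [e.apply_eq_iff_eq, e.symm_apply_apply]
    show ((h * 1 : H) : H ⧸ J') = _ ↔ _
    rw [QuotientGroup.eq, mul_one, mul_one, inv_mem_iff, Subgroup.mem_subgroupOf]
  · obtain ⟨h, hh⟩ := QuotientGroup.mk_surjective (e.symm z)
    refine ⟨h, ?_⟩
    show e (((h : H) • e.symm (e ((1 : H) : H ⧸ J')))) = z
    rw [e.symm_apply_apply]
    show e ((h * 1 : H) : H ⧸ J') = z
    rw [mul_one, hh, e.apply_symm_apply]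
  · rw [ker_comp_equiv, ← Subgroup.normalCore_eq_ker, inCore]
    exact (Subgroup.comap_map_eq_self_of_injective H.subtype_injective _).symm

/-- The action of the point stabiliser on the other cosets. -/
theorem exists_stab_hom [Finite G] {H J : Subgroup G} (hJ : J ≤ H) {d : ℕ} {π : H →* Perm (Fin d)} {z0 : Fin d}
    (hπ : ∀ h : H, π h z0 = z0 ↔ (h : G) ∈ J) :
    ∃ ρ : J →* Perm (Fin (d - 1)), ρ.ker = (π.comp (Subgroup.inclusion hJ)).ker := by
  classical
  let e : {z : Fin d // z ≠ z0} ≃ Fin (d - 1) := Fintype.equivFinOfCardEq (by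
    rw [Fintype.card_subtype_compl, Fintype.card_subtype_eq, Fintype.card_fin])
  have hpres : ∀ (j : J) (z : Fin d), π (Subgroup.inclusion hJ j) z ≠ z0 ↔ z ≠ z0 := fun j z => by
    have hfix := (hπ (Subgroup.inclusion hJ j)).2 j.2
    rw [not_iff_not]
    exact ⟨fun h => (π (Subgroup.inclusion hJ j)).injective (h.trans hfix.symm), fun h => h ▸ hfix⟩
  let r : J →* Perm {z : Fin d // z ≠ z0} :=
    { toFun := fun j => (π (Subgroup.inclusion hJ j)).subtypePerm (hpres j)
      map_one' := by ext z; simp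
      map_mul' := fun i j => by
        apply Equiv.ext; intro z; apply Subtype.ext
        simp only [map_mul]; rfl }
  refine ⟨e.permCongrHom.toMonoidHom.comp r, ?_⟩
  rw [ker_comp_equiv]
  ext j
  simp only [MonoidHom.mem_ker, MonoidHom.comp_apply]
  constructor
  · intro h
    apply Equiv.ext
    intro z
    by_cases hz : z = z0
    · rw [hz]; exact (hπ _).2 j.2
    · exact congrArg Subtype.val (DFunLike.congr_fun h ⟨z, hz⟩)
  · intro h
    apply Equiv.ext
    intro z
    apply Subtype.ext
    exact DFunLike.congr_fun h z.1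

/-- The numerical hypotheses. -/
structure Base (H H' : Subgroup G) (d : ℕ) : Prop where
  pair : IsPair H H'
  idx : d * Nat.card ↥(H ⊓ H') = Nat.card H
  idx' : d * Nat.card ↥(H ⊓ H') = Nat.card H'
  six : 6 ≤ d

variable [Finite G] {H H' : Subgroup G} {d : ℕ}

namespace Base

theorem symm (b : Base H H' d) : Base H' H d :=
  ⟨b.pair.symm, by rw [inf_comm]; exact b.idx', by rw [inf_comm]; exact b.idx, b.six⟩

theorem exists_homs (b : Base H H' d) :
    ∃ (π : H →* Perm (Fin d)) (z0 : Fin d) (ρ : ↥(H ⊓ H') →* Perm (Fin (d - 1))),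
      (∀ h : H, π h z0 = z0 ↔ (h : G) ∈ H ⊓ H') ∧ (∀ z, ∃ h : H, π h z0 = z) ∧
      π.ker = (core1 H H').subgroupOf H ∧ ρ.ker = (core1 H H').subgroupOf (H ⊓ H') := by
  obtain ⟨π, z0, h1, h2, h3⟩ := exists_coset_hom (inf_le_left : H ⊓ H' ≤ H) b.idx
  obtain ⟨ρ, hρ⟩ := exists_stab_hom (inf_le_left : H ⊓ H' ≤ H) h1
  refine ⟨π, z0, ρ, h1, h2, h3, ?_⟩
  rw [hρ, ← MonoidHom.comap_ker, h3]
  rfl

theorem exists_rho' (b : Base H H' d) :
    ∃ ρ : ↥(H ⊓ H') →* Perm (Fin (d - 1)), ρ.ker = (core1 H' H).subgroupOf (H ⊓ H') := by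
  obtain ⟨π, z0, ρ, -, -, -, hρ⟩ := b.symm.exists_homs
  refine ⟨ρ.comp (MulEquiv.subgroupCongr (inf_comm H H')).toMonoidHom, ?_⟩
  rw [← MonoidHom.comap_ker, hρ]
  rfl

/-- No subgroup of the two-point stabiliser maps onto an alternating group of degree `d`. -/
theorem no_alt_section_aux (b : Base H H' d) (hc : core2 H H' = ⊥) {U : Subgroup G} (hU : U ≤ H ⊓ H')
    (σ : U →* Perm (Fin d)) : ¬ alternatingGroup (Fin d) ≤ σ.range := by
  classical
  intro halt
  have hsix := b.six
  obtain ⟨π, z0, ρ, -, -, -, hρ⟩ := b.exists_homs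
  obtain ⟨ρ', hρ'⟩ := b.exists_rho'
  have h5 : 5 ≤ Fintype.card (Fin d) := by rw [Fintype.card_fin]; omega
  have hbig : Nat.card (Perm (Fin (d - 1))) < Nat.card (alternatingGroup (Fin d)) := by
    have h := AltSub.two_mul_card h5
    rw [Fintype.card_fin, ← Nat.mul_factorial_pred (by omega : d ≠ 0)] at h
    rw [Nat.card_perm, Nat.card_fin]
    have := Nat.mul_le_mul_right (d - 1).factorial hsix
    have := (d - 1).factorial_pos
    omega
  -- a normal subgroup of small index cannot have trivial image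
  have small : ∀ (N : Subgroup U) (τ : N →* Perm (Fin (d - 1))), alternatingGroup (Fin d) ≤ N.map σ →
      ∃ y : N, τ y = 1 ∧ σ y ≠ 1 := by
    intro N τ hN
    by_contra h
    push Not at h
    have hle : τ.ker ≤ (σ.comp N.subtype).ker := fun y hy => h y hy
    have h1 := Nat.le_of_dvd (Nat.pos_of_ne_zero Subgroup.index_ne_zero_of_finite) (Subgroup.index_dvd_of_le hle)
    rw [Subgroup.index_ker, Subgroup.index_ker, MonoidHom.range_comp, Subgroup.range_subtype] at h1
    have h2 := (Subgroup.card_le_of_le hN).trans h1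
    have h3 : Nat.card τ.range ≤ Nat.card (Perm (Fin (d - 1))) := Subgroup.card_le_card_group _
    omega
  let N0 : Subgroup U := ((core1 H H').subgroupOf U)
  haveI hN0n : N0.Normal := by
    refine ⟨fun y hy u => ?_⟩
    rw [Subgroup.mem_subgroupOf] at hy ⊢
    simpa using (Subgroup.mem_normalizer_iff.1 (le_normalizer_core1 H H' (hU u.2).1) _).1 hy
  have h0 : alternatingGroup (Fin d) ≤ N0.map σ := by
    refine (AltSub.eq_bot_or_le h5 ?_).resolve_left fun h => ?_
    · refine le_trans halt ?_
      rw [MonoidHom.range_eq_map, ← (Subgroup.normalizer_eq_top_iff.2 hN0n : Subgroup.normalizer (N0 : Set U) = ⊤)]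
      exact Subgroup.le_normalizer_map σ
    · obtain ⟨y, hy1, hy2⟩ := small ⊤ ((ρ.comp (Subgroup.inclusion hU)).comp (⊤ : Subgroup U).subtype)
        (by rwa [← MonoidHom.range_eq_map])
      have hy0 : (y : U) ∈ N0 := by
        have : Subgroup.inclusion hU (y : U) ∈ ρ.ker := hy1
        rw [hρ] at this
        exact this
      exact hy2 ((Subgroup.map_eq_bot_iff _).1 h hy0)
  let N : H → Subgroup U := fun h => (cg (h : G)⁻¹ (core1 H' H)).subgroupOf U
  have hall : ∀ s : Finset H, alternatingGroup (Fin d) ≤ (N0 ⊓ s.inf N).map σ := by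
    intro s
    induction s using Finset.induction_on with
    | empty => simpa using h0
    | insert h s _ ih =>
      refine (AltSub.eq_bot_or_le h5 ?_).resolve_left fun hb => ?_
      · refine le_trans h0 (le_trans (Subgroup.map_mono ?_) (Subgroup.le_normalizer_map σ))
        intro y hy
        have hnorm : ∀ h : H, (y : G) ∈ Subgroup.normalizer (cg (h : G)⁻¹ (core1 H' H) : Set G) := by
          intro h
          have hy' : (y : G) ∈ cg (h : G)⁻¹ (core1 H H') := by
            rw [cg_eq_of_mem_normalizer (le_normalizer_core1 H H' (H.inv_mem h.2))]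
            exact hy
          exact le_normalizer_cg _ ((TW.IsPair.core1_le H H').trans
            (inf_le_right.trans (le_normalizer_core1 H' H))) hy'
        rw [Subgroup.mem_normalizer_iff]
        intro z
        constructor
        · rintro ⟨hz0, hz⟩
          refine ⟨hN0n.conj_mem z hz0 y, ?_⟩
          replace hz := (mem_finset_inf _ _ _).1 hz
          refine (mem_finset_inf _ _ _).2 ?_
          exact fun h hh => by
            simpa [N, Subgroup.mem_subgroupOf] using (Subgroup.mem_normalizer_iff.1 (hnorm h) (z : G)).1 (hz h hh)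
        · rintro ⟨hz0, hz⟩
          refine ⟨by simpa [mul_assoc] using hN0n.conj_mem _ hz0 y⁻¹, ?_⟩
          replace hz := (mem_finset_inf _ _ _).1 hz
          refine (mem_finset_inf _ _ _).2 ?_
          exact fun h hh => by
            refine (Subgroup.mem_normalizer_iff.1 (hnorm h) (z : G)).2 ?_
            simpa [N, Subgroup.mem_subgroupOf] using hz h hh
      · let τ : ↥(N0 ⊓ s.inf N) →* Perm (Fin (d - 1)) :=
          { toFun := fun y => ρ' ⟨(h : G) * (y : U) * (h : G)⁻¹, TW.IsPair.core1_le H H'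
              ((Subgroup.mem_normalizer_iff.1 (le_normalizer_core1 H H' h.2) _).1 y.2.1)⟩
            map_one' := by
              rw [← map_one ρ']
              congr 1
              exact Subtype.ext (by simp)
            map_mul' := fun y z => by
              rw [← map_mul]
              congr 1
              exact Subtype.ext (by simp [mul_assoc]) }
        obtain ⟨y, hy1, hy2⟩ := small (N0 ⊓ s.inf N) τ ih
        have hk : (⟨(h : G) * (y : U) * (h : G)⁻¹, _⟩ : ↥(H ⊓ H')) ∈ ρ'.ker := hy1
        rw [hρ', Subgroup.mem_subgroupOf] at hk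
        refine hy2 ((Subgroup.map_eq_bot_iff _).1 hb ⟨y.2.1, ?_⟩)
        rw [Finset.inf_insert]
        refine ⟨?_, y.2.2⟩
        show ((y : U) : G) ∈ cg (h : G)⁻¹ (core1 H' H)
        rw [mem_cg]
        simpa [mul_assoc] using hk
  haveI := Fintype.ofFinite H
  have hfin := hall Finset.univ
  have hbot : (N0 ⊓ Finset.univ.inf N : Subgroup U) = ⊥ := by
    rw [Subgroup.eq_bot_iff_forall]
    rintro y ⟨hy0, hy⟩
    replace hy := (mem_finset_inf _ _ _).1 hy
    have hmem : (y : G) ∈ core2 H H' := by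
      refine ⟨⟨(y : G), (hU y.2).1⟩, ?_, rfl⟩
      intro h
      refine Subgroup.mem_subgroupOf.2 ⟨?_, ?_⟩
      · exact (Subgroup.mem_normalizer_iff.1 (le_normalizer_core1 H H' h.2) _).1 hy0
      · have := hy h (Finset.mem_univ h)
        rw [Subgroup.mem_subgroupOf, mem_cg] at this
        simpa [mul_assoc] using this
    rw [hc, Subgroup.mem_bot] at hmem
    exact Subtype.ext hmem
  rw [hbot, Subgroup.map_bot] at hfin
  have hge := AltSub.card_alt_ge h5
  rw [le_bot_iff.1 hfin, Subgroup.card_bot] at hge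
  omega

/-- `F*`-argument: one of the second cores is trivial. -/
theorem core2_bot (b : Base H H' d) (hK : d.factorial * Nat.card (core1 H H') ≤ 2 * Nat.card H) :
    core2 H H' = ⊥ ∨ core2 H' H = ⊥ := by
  classical
  by_contra hb
  obtain ⟨hb1, hb2⟩ := not_or.1 hb
  obtain ⟨p, hp, hP, -, -, -⟩ := b.pair.thompsonWielandt hb1 hb2
  haveI := Fact.mk hp
  obtain ⟨π, z0, ρ, -, -, -, hρ⟩ := b.exists_homs
  have hsix := b.six
  have h5 : 5 ≤ Fintype.card (Fin (d - 1)) := by rw [Fintype.card_fin]; omega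
  have hrange : alternatingGroup (Fin (d - 1)) ≤ ρ.range := by
    refine AltSub.alt_le_of_card h5 ?_
    rw [Fintype.card_fin]
    have hidx : Nat.card ρ.range * Nat.card (core1 H H') = Nat.card ↥(H ⊓ H') := by
      rw [← Subgroup.index_ker, hρ, ← Nat.card_congr (Subgroup.subgroupOfEquivOfLe (TW.IsPair.core1_le H H')).toEquiv,
        Subgroup.index_mul_card]
    rw [← b.idx, ← hidx, ← Nat.mul_factorial_pred (by omega : d ≠ 0)] at hK
    refine Nat.le_of_mul_le_mul_right (a := (d - 1).factorial) ?_ (Nat.card_pos (α := core1 H H'))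
    refine Nat.le_of_mul_le_mul_left ?_ (show 0 < d by omega)
    calc d * ((d - 1).factorial * Nat.card (core1 H H')) = d * (d - 1).factorial * Nat.card (core1 H H') := by ring
      _ ≤ 2 * (d * (Nat.card ρ.range * Nat.card (core1 H H'))) := hK
      _ = d * (2 * Nat.card ρ.range * Nat.card (core1 H H')) := by ring
  have hO : opOf p (H ⊓ H') = ⊥ := by
    refine b.pair.opOf_inf_eq_bot hp ?_
    set X := opOf p (H ⊓ H')
    have hbot : img ρ X = ⊥ := by
      refine (AltSub.eq_bot_or_le h5 ?_).resolve_right fun h => ?_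
      · exact hrange.trans ((img_self ρ).ge.trans (img_normalized ρ (TW.le_normalizer_opOf p (H ⊓ H'))))
      · exact AltSub.not_isPGroup h5 h hp
          (((TW.isPGroup_opOf p (H ⊓ H')).of_equiv (Subgroup.subgroupOfEquivOfLe (TW.opOf_le p (H ⊓ H'))).symm).map ρ)
    intro y hy
    have h1 : (⟨y, TW.opOf_le p (H ⊓ H') hy⟩ : ↥(H ⊓ H')) ∈ ρ.ker := (img_eq_bot_iff ρ).1 hbot _ hy
    rw [hρ] at h1
    exact h1
  refine hb1 (le_bot_iff.1 ((TW.le_opOf ?_ hP ?_).trans hO.le))
  · exact (TW.IsPair.core2_le H H').trans (inf_le_left.trans (TW.IsPair.core1_le H H'))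
  · exact inf_le_left.trans (le_normalizer_inCore _ _)

theorem no_alt_section (b : Base H H' d) (hK : d.factorial * Nat.card (core1 H H') ≤ 2 * Nat.card H)
    {U : Subgroup G} (hU : U ≤ H ⊓ H') (σ : U →* Perm (Fin d)) : ¬ alternatingGroup (Fin d) ≤ σ.range := by
  rcases b.core2_bot hK with h | h
  · exact b.no_alt_section_aux h hU σ
  · exact b.symm.no_alt_section_aux h (inf_comm H H' ▸ hU) σ

/-- The two kernels are conjugate. -/
theorem core1_conj (b : Base H H' d) (hK : d.factorial * Nat.card (core1 H H') ≤ 2 * Nat.card H)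
    {g : G} (hg : H' = cg g H) : core1 H' H = cg g (core1 H H') := by
  classical
  obtain ⟨π, z0, ρ, hπ, -, hπk, -⟩ := b.exists_homs
  have hsix := b.six
  have h5 : 5 ≤ Fintype.card (Fin d) := by rw [Fintype.card_fin]; omega
  set K := core1 H H' with hKdef
  set J := H ⊓ H' with hJdef
  have hcj : ∀ j : H', g⁻¹ * (j : G) * g ∈ H := fun j => mem_cg.1 (hg ▸ j.2)
  let ψ : H' →* H :=
    { toFun := fun j => ⟨g⁻¹ * (j : G) * g, hcj j⟩
      map_one' := Subtype.ext (by simp)
      map_mul' := fun i j => Subtype.ext (by simp [mul_assoc]) }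
  have hψs : Function.Surjective ψ := fun h => ⟨⟨g * (h : G) * g⁻¹, hg ▸ mem_cg.2 (by simp [mul_assoc])⟩,
    Subtype.ext (by simp [ψ, mul_assoc])⟩
  have hR : Nat.card π.range * Nat.card K = Nat.card H := by
    rw [← Subgroup.index_ker, hπk,
      ← Nat.card_congr (Subgroup.subgroupOfEquivOfLe ((TW.IsPair.core1_le H H').trans inf_le_left)).toEquiv,
      Subgroup.index_mul_card]
  have hRalt : alternatingGroup (Fin d) ≤ π.range := by
    refine AltSub.alt_le_of_card h5 ?_
    rw [Fintype.card_fin]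
    rw [← hR, ← mul_assoc] at hK
    exact Nat.le_of_mul_le_mul_right hK Nat.card_pos
  let σ : J →* Perm (Fin d) := (π.comp ψ).comp (Subgroup.inclusion inf_le_right)
  set V := σ.range with hV
  have hVR : V ≤ π.range := by
    rintro _ ⟨j, rfl⟩
    exact ⟨_, rfl⟩
  have hnalt : ¬ alternatingGroup (Fin d) ≤ V := b.no_alt_section hK le_rfl σ
  have hVd : d * Nat.card V ≤ Nat.card π.range := by
    have h1 := AltSub.le_index h5 hnalt
    rw [Fintype.card_fin] at h1
    have h2 := (V.subgroupOf (alternatingGroup (Fin d))).index_mul_card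
    have h3 : (alternatingGroup (Fin d)).relIndex V ≤ (alternatingGroup (Fin d)).relIndex π.range :=
      Subgroup.relIndex_le_of_le_right hVR Subgroup.index_ne_zero_of_finite
    have h4 := ((alternatingGroup (Fin d)).subgroupOf V).index_mul_card
    have h5' := ((alternatingGroup (Fin d)).subgroupOf π.range).index_mul_card
    rw [Nat.card_congr (Subgroup.subgroupOfEquivOfLe hRalt).toEquiv] at h5'
    have hinf : Nat.card (V.subgroupOf (alternatingGroup (Fin d))) =
        Nat.card ((alternatingGroup (Fin d)).subgroupOf V) := by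
      rw [← Subgroup.inf_subgroupOf_right, Nat.card_congr (Subgroup.subgroupOfEquivOfLe inf_le_right).toEquiv,
        ← Subgroup.inf_subgroupOf_right (alternatingGroup (Fin d)) V,
        Nat.card_congr (Subgroup.subgroupOfEquivOfLe inf_le_right).toEquiv, inf_comm]
    rw [hinf] at h2
    calc d * Nat.card V = d * (((alternatingGroup (Fin d)).subgroupOf V).index *
          Nat.card ((alternatingGroup (Fin d)).subgroupOf V)) := by rw [h4]
      _ ≤ (V.subgroupOf (alternatingGroup (Fin d))).index *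
          (((alternatingGroup (Fin d)).subgroupOf π.range).index *
          Nat.card ((alternatingGroup (Fin d)).subgroupOf V)) :=
        Nat.mul_le_mul h1 (Nat.mul_le_mul_right _ h3)
      _ = ((alternatingGroup (Fin d)).subgroupOf π.range).index * ((V.subgroupOf (alternatingGroup (Fin d))).index *
          Nat.card ((alternatingGroup (Fin d)).subgroupOf V)) := by ring
      _ = Nat.card π.range := by rw [h2, h5']
  have hkσ : σ.ker.map J.subtype = J ⊓ cg g K := by
    ext y
    constructor
    · rintro ⟨j, hj, rfl⟩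
      refine ⟨j.2, mem_cg.2 ?_⟩
      have : ψ (Subgroup.inclusion inf_le_right j) ∈ π.ker := hj
      rw [hπk] at this
      exact this
    · rintro ⟨hy, hy'⟩
      refine ⟨⟨y, hy⟩, ?_, rfl⟩
      show ψ (Subgroup.inclusion inf_le_right ⟨y, hy⟩) ∈ π.ker
      rw [hπk]
      exact mem_cg.1 hy'
  have hcardσ : Nat.card V * Nat.card ↥(J ⊓ cg g K) = Nat.card J := by
    rw [← hkσ, ← Nat.card_congr (Subgroup.equivMapOfInjective _ _ J.subtype_injective).toEquiv, hV,
      ← Subgroup.index_ker, Subgroup.index_mul_card]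
  have hVeq : Nat.card ↥(J ⊓ cg g K) = Nat.card K ∧ d * Nat.card V = Nat.card π.range := by
    have hle : Nat.card ↥(J ⊓ cg g K) ≤ Nat.card K :=
      (Subgroup.card_le_of_le inf_le_right).trans (card_cg g K).le
    have hJH : d * Nat.card J = Nat.card H := b.idx
    rw [← hcardσ, ← hR] at hJH
    have h1 := Nat.mul_le_mul hVd hle
    have hpos : 0 < Nat.card K := Nat.card_pos
    have hpos2 : 0 < Nat.card V := Nat.card_pos
    constructor
    · refine le_antisymm hle (Nat.le_of_mul_le_mul_left ?_ (show 0 < Nat.card π.range from Nat.card_pos))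
      rw [← hJH, ← mul_assoc]
      exact Nat.mul_le_mul_right _ hVd
    · refine le_antisymm hVd (Nat.le_of_mul_le_mul_right ?_ hpos)
      rw [← hJH, ← mul_assoc]
      exact Nat.mul_le_mul_left _ hle
  have hgK : cg g K ≤ J := by
    have := Subgroup.eq_of_le_of_card_ge (inf_le_right : J ⊓ cg g K ≤ cg g K) (by rw [card_cg, hVeq.1])
    exact inf_eq_right.1 this
  have hKH : K ≤ H := (TW.IsPair.core1_le H H').trans inf_le_left
  refine le_antisymm ?_ (TW.IsPair.le_core1 (hg ▸ cg_mono hKH) (hgK.trans inf_le_left)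
    (hg ▸ le_normalizer_cg g (le_normalizer_core1 H H')))
  -- the image of `core1 H' H` is a small normal subgroup
  set L := core1 H' H with hL
  have hLH' : L ≤ H' := (TW.IsPair.core1_le H' H).trans inf_le_left
  have hLJ : L ≤ J := (TW.IsPair.core1_le H' H).trans (inf_comm H' H).le
  have himgle : img (π.comp ψ) L ≤ V := by
    rintro _ ⟨y, hy, rfl⟩
    exact ⟨⟨(y : G), hLJ hy⟩, rfl⟩
  have hbot : img (π.comp ψ) L = ⊥ := by
    refine (AltSub.eq_bot_or_le h5 ?_).resolve_right fun h => hnalt (h.trans himgle)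
    refine hRalt.trans ?_
    have : π.range = (π.comp ψ).range := by
      rw [MonoidHom.range_comp, MonoidHom.range_eq_top.2 hψs, ← MonoidHom.range_eq_map]
    rw [this, ← img_self]
    exact img_normalized _ (le_normalizer_core1 H' H)
  intro y hy
  have h1 : ψ ⟨y, hLH' hy⟩ ∈ π.ker := (img_eq_bot_iff _).1 hbot ⟨y, hLH' hy⟩ hy
  rw [hπk] at h1
  exact mem_cg.2 h1

end Base

end Cfsg.Agent.H81.AltSC
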