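import Mathlib
import Cfsg.Agent.H81.AltSubconstituent

/-! The point stabiliser is a subdirect product of two symmetric or alternating groups. -/

set_option autoImplicit false

namespace Cfsg.Agent.H81.AltSC

open Equiv Equiv.Perm
open Cfsg.Agent.H81.TW (IsPair core1 core2 inCore le_inCore)
open Cfsg.Agent.H81.Cubic (cg mem_cg cg_mul cg_one card_cg cg_of_mem cg_mono cg_inf mem_normalizer_of_cg)

variable {G : Type*} [Group G]

/-- The hypotheses, now symmetric in `H` and `H'`. -/
structure Setup (H H' : Subgroup G) (d : ℕ) : Prop extends Base H H' d where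
  cardK : d.factorial * Nat.card (core1 H H') ≤ 2 * Nat.card H
  cardEq : Nat.card (core1 H' H) = Nat.card (core1 H H')
  neBot : core1 H H' ≠ ⊥

theorem exists_alt_moves {n : ℕ} (hn : 3 ≤ n) {u w : Fin n} (huw : u ≠ w) :
    ∃ τ ∈ alternatingGroup (Fin n), τ u = w := by
  obtain ⟨e, -, he⟩ := Finset.exists_mem_notMem_of_card_lt_card (t := Finset.univ)
    (s := ({u, w} : Finset (Fin n))) (lt_of_le_of_lt Finset.card_le_two (by rw [Finset.card_univ, Fintype.card_fin]; omega))
  simp only [Finset.mem_insert, Finset.mem_singleton, not_or] at he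
  refine ⟨swap u e * swap u w, (isThreeCycle_swap_mul_swap_same (Ne.symm he.1) huw he.2).mem_alternatingGroup, ?_⟩
  rw [Perm.mul_apply, swap_apply_left, swap_apply_of_ne_of_ne huw.symm (Ne.symm he.2)]

theorem exists_alt_moves_fix {n : ℕ} (hn : 4 ≤ n) {z u w : Fin n} (huw : u ≠ w) (hu : u ≠ z) (hw : w ≠ z) :
    ∃ τ ∈ alternatingGroup (Fin n), τ z = z ∧ τ u = w := by
  obtain ⟨e, -, he⟩ := Finset.exists_mem_notMem_of_card_lt_card (t := Finset.univ)
    (s := ({z, u, w} : Finset (Fin n))) (lt_of_le_of_lt Finset.card_le_three (by rw [Finset.card_univ, Fintype.card_fin]; omega))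
  simp only [Finset.mem_insert, Finset.mem_singleton, not_or] at he
  refine ⟨swap u e * swap u w, (isThreeCycle_swap_mul_swap_same (Ne.symm he.2.1) huw he.2.2).mem_alternatingGroup, ?_, ?_⟩
  · rw [Perm.mul_apply, swap_apply_of_ne_of_ne hu.symm hw.symm, swap_apply_of_ne_of_ne hu.symm (Ne.symm he.1)]
  · rw [Perm.mul_apply, swap_apply_left, swap_apply_of_ne_of_ne huw.symm (Ne.symm he.2.2)]

theorem core_facts {H H' : Subgroup G} :
    core1 H H' ≤ H ∧ core1 H H' ≤ H ⊓ H' ∧ H ⊓ H' ≤ Subgroup.normalizer (core1 H H' : Set G) :=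
  ⟨(IsPair.core1_le H H').trans inf_le_left, IsPair.core1_le H H',
    inf_le_left.trans (le_normalizer_core1 H H')⟩

variable [Finite G] {H H' : Subgroup G} {d : ℕ}

namespace Setup

theorem symm (s : Setup H H' d) : Setup H' H d := by
  refine ⟨s.toBase.symm, ?_, s.cardEq.symm, fun h => s.neBot ?_⟩
  · rw [s.cardEq, ← s.idx', s.idx]
    exact s.cardK
  · have := s.cardEq
    rw [h, Subgroup.card_bot] at this
    exact Subgroup.card_eq_one.1 this.symm

theorem rho_range (s : Setup H H' d) {ρ : ↥(H ⊓ H') →* Perm (Fin (d - 1))}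
    (hρ : ρ.ker = (core1 H H').subgroupOf (H ⊓ H')) :
    Nat.card ρ.range * Nat.card (core1 H H') = Nat.card ↥(H ⊓ H') ∧
      alternatingGroup (Fin (d - 1)) ≤ ρ.range := by
  have hsix := s.six
  have hidx : Nat.card ρ.range * Nat.card (core1 H H') = Nat.card ↥(H ⊓ H') := by
    rw [← Subgroup.index_ker, hρ, ← Nat.card_congr (Subgroup.subgroupOfEquivOfLe (IsPair.core1_le H H')).toEquiv,
      Subgroup.index_mul_card]
  refine ⟨hidx, AltSub.alt_le_of_card (by rw [Fintype.card_fin]; omega) ?_⟩
  have hK := s.cardK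
  rw [← s.idx, ← hidx, ← Nat.mul_factorial_pred (by omega : d ≠ 0)] at hK
  rw [Fintype.card_fin]
  refine Nat.le_of_mul_le_mul_right (a := (d - 1).factorial) ?_ (Nat.card_pos (α := core1 H H'))
  refine Nat.le_of_mul_le_mul_left ?_ (show 0 < d by omega)
  calc d * ((d - 1).factorial * Nat.card (core1 H H'))
        = d * (d - 1).factorial * Nat.card (core1 H H') := by ring
    _ ≤ 2 * (d * (Nat.card ρ.range * Nat.card (core1 H H'))) := hK
    _ = d * (2 * Nat.card ρ.range * Nat.card (core1 H H')) := by ring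

theorem not_le (s : Setup H H' d) : ¬ core1 H H' ≤ core1 H' H := by
  intro h
  have heq := Subgroup.eq_of_le_of_card_ge h s.cardEq.le
  refine s.neBot (s.pair.eq_bot_of_common core_facts.1 (le_normalizer_core1 H H') ?_)
  rw [heq]
  exact le_normalizer_core1 H' H

/-- The image of the other kernel contains the alternating group. -/
theorem img_other (s : Setup H H' d) {ρ : ↥(H ⊓ H') →* Perm (Fin (d - 1))}
    (hρ : ρ.ker = (core1 H H').subgroupOf (H ⊓ H')) :
    alternatingGroup (Fin (d - 1)) ≤ img ρ (core1 H' H) := by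
  have hsix := s.six
  refine (AltSub.eq_bot_or_le (by rw [Fintype.card_fin]; omega) ?_).resolve_left fun h => ?_
  · refine (s.rho_range hρ).2.trans ((img_self ρ).ge.trans (img_normalized ρ ?_))
    exact inf_le_right.trans (le_normalizer_core1 H' H)
  · refine s.symm.not_le fun y hy => ?_
    have hyJ : y ∈ H ⊓ H' := by
      have := (IsPair.core1_le H' H) hy
      exact ⟨this.2, this.1⟩
    have h1 : (⟨y, hyJ⟩ : ↥(H ⊓ H')) ∈ ρ.ker := (img_eq_bot_iff ρ).1 h _ hy
    rw [hρ] at h1
    exact h1

/-- The two kernels meet trivially. -/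
theorem inf_eq_bot (s : Setup H H' d) (hc : core2 H H' = ⊥) {g : G}
    (hg : core1 H' H = cg g (core1 H H')) : core1 H H' ⊓ core1 H' H = ⊥ := by
  classical
  have hsix := s.six
  have hhoms := s.toBase.exists_homs
  have hrho := s.toBase.exists_rho'
  have h5 : 5 ≤ Fintype.card (Fin (d - 1)) := by rw [Fintype.card_fin]; omega
  have h5d : 5 ≤ Fintype.card (Fin d) := by rw [Fintype.card_fin]; omega
  set K := core1 H H' with hK
  set K' := core1 H' H with hK'
  set J := H ⊓ H' with hJ
  obtain ⟨π, z0, ρ, hπ, htr, hπk, hρk⟩ := hhoms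
  obtain ⟨ρ', hρ'k⟩ := hrho
  have hKH : K ≤ H := core_facts.1
  have hKJ : K ≤ J := IsPair.core1_le H H'
  have hHK : H ≤ Subgroup.normalizer (K : Set G) := le_normalizer_core1 H H'
  have hJK' : J ≤ Subgroup.normalizer (K' : Set G) := inf_le_right.trans (le_normalizer_core1 H' H)
  choose t ht using htr
  have hKK' : ∀ h : H, K ≤ Subgroup.normalizer (cg (h : G) K' : Set G) := fun h => by
    refine le_trans ?_ (le_normalizer_cg (h : G) (hKJ.trans hJK'))
    rw [cg_eq_of_mem_normalizer (hHK h.2)]
  -- the homomorphisms attached to the points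
  have hmem : ∀ (z : Fin d) (k : K), ((t z : G))⁻¹ * k * (t z) ∈ J := fun z k => by
    refine hKJ ?_
    have := (Subgroup.mem_normalizer_iff.1 (hHK (H.inv_mem (t z).2)) _).1 k.2
    simpa using this
  let f : Fin d → (K →* Perm (Fin (d - 1))) := fun z =>
    { toFun := fun k => ρ' ⟨_, hmem z k⟩
      map_one' := by
        rw [← map_one ρ']
        exact congrArg ρ' (Subtype.ext (by simp))
      map_mul' := fun a b => by
        rw [← map_mul]
        exact congrArg ρ' (Subtype.ext (by simp [mul_assoc])) }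
  have hfker : ∀ z (k : K), f z k = 1 ↔ (k : G) ∈ cg (t z : G) K' := fun z k => by
    show ρ' ⟨_, hmem z k⟩ = 1 ↔ _
    rw [← MonoidHom.mem_ker, hρ'k, Subgroup.mem_subgroupOf, mem_cg]
  have hfalt : ∀ z, alternatingGroup (Fin (d - 1)) ≤ img (f z) K := by
    intro z σ hσ
    have hsym : alternatingGroup (Fin (d - 1)) ≤ img ρ' K := by
      refine (AltSub.eq_bot_or_le h5 ?_).resolve_left fun h => ?_
      · refine le_trans ?_ ((img_self ρ').ge.trans (img_normalized ρ' (inf_le_left.trans hHK)))
        refine AltSub.alt_le_of_card h5 ?_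
        have hidx : Nat.card ρ'.range * Nat.card K' = Nat.card J := by
          rw [← Subgroup.index_ker, hρ'k, ← Nat.card_congr (Subgroup.subgroupOfEquivOfLe
            ((IsPair.core1_le H' H).trans (inf_comm H' H).le)).toEquiv, Subgroup.index_mul_card]
        obtain ⟨hi, hr⟩ := s.rho_range hρk
        rw [s.cardEq, ← hi] at hidx
        rw [Nat.eq_of_mul_eq_mul_right Nat.card_pos hidx, Fintype.card_fin]
        have h1 := Subgroup.card_le_of_le hr
        have h2 := AltSub.two_mul_card h5
        rw [Fintype.card_fin] at h2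
        omega
      · refine s.not_le fun y hy => ?_
        have h1 : (⟨y, hKJ hy⟩ : J) ∈ ρ'.ker := (img_eq_bot_iff ρ').1 h _ hy
        rw [hρ'k] at h1
        exact h1
    obtain ⟨j, hj, rfl⟩ := hsym hσ
    have hj' : (t z : G) * (j : G) * (t z : G)⁻¹ ∈ K := (Subgroup.mem_normalizer_iff.1 (hHK (t z).2) _).1 hj
    exact ⟨⟨_, hj'⟩, hj', congrArg ρ' (Subtype.ext (by simp [mul_assoc]))⟩
  -- second derived subgroup
  set S1 := ⁅K, K⁆ with hS1
  set S := ⁅S1, S1⁆ with hS
  have hS1K : S1 ≤ K := Subgroup.commutator_le_self K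
  have hSK : S ≤ K := (Subgroup.commutator_le_self S1).trans hS1K
  have hHS : H ≤ Subgroup.normalizer (S : Set G) := le_normalizer_commutator (le_normalizer_commutator hHK)
  have hfS : ∀ z, img (f z) S = alternatingGroup (Fin (d - 1)) := by
    intro z
    have h1 : img (f z) S1 = alternatingGroup (Fin (d - 1)) := le_antisymm
      ((img_commutator_le (f z) le_rfl le_rfl).trans (commutator_of_alt_le h5 (hfalt z)).le)
      ((commutator_of_alt_le h5 (hfalt z)).ge.trans (img_commutator (f z) le_rfl le_rfl))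
    exact le_antisymm
      ((img_commutator_le (f z) hS1K hS1K).trans (by rw [h1, AltSub.commutator_alt h5]))
      ((by rw [h1, AltSub.commutator_alt h5] : alternatingGroup (Fin (d - 1)) ≤ ⁅img (f z) S1, img (f z) S1⁆).trans
        (img_commutator (f z) hS1K hS1K))
  let N : Fin d → Subgroup G := fun z => S ⊓ cg (t z : G) K'
  have hNinj : ∀ y ∈ K, (∀ z, y ∈ cg (t z : G) K') → y = 1 := by
    intro y hy hall
    have : y ∈ core2 H H' := by
      refine ⟨⟨y, hKH hy⟩, fun h => Subgroup.mem_subgroupOf.2 ⟨?_, ?_⟩, rfl⟩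
      · exact (Subgroup.mem_normalizer_iff.1 (hHK h.2) _).1 hy
      · set z := π h⁻¹ z0 with hz
        have hj : ((t z)⁻¹ * h⁻¹ : H).1 ∈ J := by
          rw [← hπ, map_mul, Perm.mul_apply, ← hz, map_inv, Equiv.Perm.inv_def, Equiv.symm_apply_eq]
          exact (ht z).symm
        have h1 := mem_cg.1 (hall z)
        have h2 := (Subgroup.mem_normalizer_iff.1 (hJK' (J.inv_mem hj)) _).1 h1
        show (h : G) * y * (h : G)⁻¹ ∈ K'
        simpa [mul_assoc] using h2
    rw [hc] at this
    exact this
  have hNz : ∀ (h : H) (z : Fin d), cg (h : G) (N z) = N (π h z) := by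
    intro h z
    have hj : ((t (π h z))⁻¹ * h * t z : H).1 ∈ J := by
      rw [← hπ, map_mul, map_mul, Perm.mul_apply, Perm.mul_apply, ht z, map_inv, Equiv.Perm.inv_def,
        Equiv.symm_apply_eq]
      exact (ht (π h z)).symm
    show cg (h : G) (S ⊓ cg (t z : G) K') = S ⊓ cg (t (π h z) : G) K'
    rw [cg_inf, cg_eq_of_mem_normalizer (hHS h.2)]
    congr 1
    have e : (h : G) * (t z : G) = (t (π h z) : G) * ((t (π h z))⁻¹ * h * t z : H).1 := by
      simp [mul_assoc]
    rw [← cg_mul, e, cg_mul, cg_eq_of_mem_normalizer (hJK' hj)]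
  have hKN : ∀ z, K ≤ Subgroup.normalizer (N z : Set G) := fun z y hy => by
    refine mem_normalizer_of_cg ?_
    show cg y (S ⊓ cg (t z : G) K') = S ⊓ cg (t z : G) K'
    rw [cg_inf, cg_eq_of_mem_normalizer (hHS (hKH hy)), cg_eq_of_mem_normalizer (hKK' (t z) hy)]
  have hπalt : alternatingGroup (Fin d) ≤ π.range := by
    refine AltSub.alt_le_of_card h5d ?_
    rw [Fintype.card_fin]
    have hR : Nat.card π.range * Nat.card K = Nat.card H := by
      rw [← Subgroup.index_ker, hπk, ← Nat.card_congr (Subgroup.subgroupOfEquivOfLe hKH).toEquiv,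
        Subgroup.index_mul_card]
    have hb := s.cardK
    rw [← hR, ← mul_assoc] at hb
    exact Nat.le_of_mul_le_mul_right hb Nat.card_pos
  -- all `N z` coincide
  have hNall : ∀ z, N z = N z0 := by
    by_cases hpair : ∃ z w, z ≠ w ∧ N z = N w
    · obtain ⟨z, w, hzw, heq⟩ := hpair
      have hall : ∀ u, N u = N z := by
        intro u
        rcases eq_or_ne u z with rfl | huz
        · rfl
        rcases eq_or_ne u w with rfl | huw
        · exact heq.symm
        obtain ⟨τ, hτ, hτz, hτw⟩ := exists_alt_moves_fix (by omega) huw.symm hzw.symm huz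
        obtain ⟨h, rfl⟩ := hπalt hτ
        have h1 := congrArg (cg (h : G)) heq
        rw [hNz, hNz, hτz, hτw] at h1
        exact h1.symm
      intro v
      rw [hall v, hall z0]
    · push Not at hpair
      exfalso
      -- the simple direct factors
      have hnle : ∀ z w, z ≠ w → ¬ N z ≤ N w := by
        intro z w hzw hle
        refine hpair z w hzw (Subgroup.eq_of_le_of_card_ge hle (le_of_eq ?_))
        obtain ⟨τ, hτ, hτz⟩ := exists_alt_moves (by omega) hzw
        obtain ⟨h, rfl⟩ := hπalt hτ
        rw [← hτz, ← hNz, card_cg]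
      have hfN : ∀ c z, z ≠ c → img (f c) (N z) = alternatingGroup (Fin (d - 1)) := by
        intro c z hzc
        refine le_antisymm ((img_mono (f c) inf_le_left).trans (hfS c).le) ?_
        refine (AltSub.eq_bot_or_le h5 ?_).resolve_left fun h => hnle z c hzc ?_
        · rw [← hfS c]
          exact img_normalized (f c) (hSK.trans (hKN z))
        · intro y hy
          exact ⟨hy.1, (hfker c ⟨y, hSK hy.1⟩).1 ((img_eq_bot_iff (f c)).1 h ⟨y, hSK hy.1⟩ hy)⟩
      let T : Finset (Fin d) → Subgroup G := fun u => S ⊓ u.inf N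
      have hT : ∀ (c : Fin d) (u : Finset (Fin d)), c ∉ u → img (f c) (T u) = alternatingGroup (Fin (d - 1)) := by
        intro c u
        induction u using Finset.induction_on with
        | empty => intro _; simpa [T] using hfS c
        | insert a u _ ih =>
          intro hc'
          simp only [Finset.mem_insert, not_or] at hc'
          refine le_antisymm ((img_mono (f c) inf_le_left).trans (hfS c).le) ?_
          have hnT : S ≤ Subgroup.normalizer (T u : Set G) := fun y hy => by
            rw [Subgroup.mem_normalizer_iff]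
            intro x
            simp only [T, SetLike.mem_coe, Subgroup.mem_inf, mem_finset_inf]
            exact and_congr (Subgroup.mem_normalizer_iff.1 (Subgroup.le_normalizer hy) x)
              (forall₂_congr fun z _ => Subgroup.mem_normalizer_iff.1 (hKN z (hSK hy)) x)
          have hle : ⁅T u, N a⁆ ≤ T (insert a u) := by
            refine (commutator_le_inf_of_normal inf_le_left inf_le_left hnT (hSK.trans (hKN a))).trans ?_
            simp only [T, Finset.inf_insert]
            exact le_inf (inf_le_left.trans inf_le_left) (le_inf inf_le_right (inf_le_left.trans inf_le_right))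
          refine le_trans ?_ (img_mono (f c) hle)
          refine le_trans ?_ (img_commutator (f c) (inf_le_left.trans hSK) (inf_le_left.trans hSK))
          rw [ih hc'.2, hfN c a (Ne.symm hc'.1), AltSub.commutator_alt h5]
      let Tc : Fin d → Subgroup G := fun c => T (Finset.univ.erase c)
      have hTimg : ∀ c, img (f c) (Tc c) = alternatingGroup (Fin (d - 1)) := fun c => hT c _ (Finset.notMem_erase c _)
      have hTN : ∀ c z, z ≠ c → Tc c ≤ N z := fun c z hzc y hy =>
        (mem_finset_inf _ _ _).1 hy.2 z (Finset.mem_erase.2 ⟨hzc, Finset.mem_univ _⟩)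
      have hTS : ∀ c, Tc c ≤ S := fun c => inf_le_left
      have hTinj : ∀ (c : Fin d) (y : G) (hy : y ∈ Tc c), f c ⟨y, hSK (hTS c hy)⟩ = 1 → y = 1 := by
        intro c y hy h1
        refine hNinj y (hSK (hTS c hy)) fun z => ?_
        rcases eq_or_ne z c with rfl | hzc
        · exact (hfker z ⟨y, hSK (hTS z hy)⟩).1 h1
        · exact (hTN c z hzc hy).2
      have hTeq : ∀ (c : Fin d) (X : Subgroup G), X ≤ Tc c →
          alternatingGroup (Fin (d - 1)) ≤ img (f c) X → X = Tc c := by
        intro c X hX himg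
        refine le_antisymm hX fun y hy => ?_
        obtain ⟨x, hx, hxe⟩ := himg ((hTimg c).le ⟨⟨y, hSK (hTS c hy)⟩, hy, rfl⟩)
        have : y * (x : G)⁻¹ = 1 := by
          refine hTinj c _ (mul_mem hy (inv_mem (hX hx))) ?_
          rw [show (⟨y * (x : G)⁻¹, hSK (hTS c (mul_mem hy (inv_mem (hX hx))))⟩ : K) =
            ⟨y, hSK (hTS c hy)⟩ * x⁻¹ from rfl, map_mul, map_inv, hxe, mul_inv_cancel]
        rw [mul_inv_eq_one.1 this]
        exact hx
      have hperf : ∀ c, ⁅Tc c, Tc c⁆ = Tc c := fun c => by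
        refine hTeq c _ (Subgroup.commutator_le_self _) ?_
        refine le_trans ?_ (img_commutator (f c) ((hTS c).trans hSK) ((hTS c).trans hSK))
        rw [hTimg c, AltSub.commutator_alt h5]
      have hSTc : ∀ c, S ≤ Subgroup.normalizer (Tc c : Set G) := fun c y hy => by
        rw [Subgroup.mem_normalizer_iff]
        intro x
        simp only [Tc, T, SetLike.mem_coe, Subgroup.mem_inf, mem_finset_inf]
        exact and_congr (Subgroup.mem_normalizer_iff.1 (Subgroup.le_normalizer hy) x)
          (forall₂_congr fun z _ => Subgroup.mem_normalizer_iff.1 (hKN z (hSK hy)) x)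
      have hTne : ∀ c, Tc c ≠ ⊥ := fun c h => by
        have h2 := AltSub.card_alt_ge h5
        rw [← hTimg c, h, img, Subgroup.bot_subgroupOf, Subgroup.map_bot, Subgroup.card_bot] at h2
        omega
      have hTcard : ∀ c, Nat.card (Tc c) ≤ Nat.card (alternatingGroup (Fin (d - 1))) := fun c => by
        refine Nat.card_le_card_of_injective (fun y : Tc c => (⟨f c ⟨y, hSK (hTS c y.2)⟩,
          (hTimg c).le ⟨⟨y, hSK (hTS c y.2)⟩, y.2, rfl⟩⟩ : alternatingGroup (Fin (d - 1)))) ?_
        intro y y' e
        have e' : f c ⟨y, hSK (hTS c y.2)⟩ = f c ⟨y', hSK (hTS c y'.2)⟩ := congrArg Subtype.val e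
        apply Subtype.ext
        rw [← mul_inv_eq_one]
        refine hTinj c _ (mul_mem y.2 (inv_mem y'.2)) ?_
        rw [show (⟨(y : G) * (y' : G)⁻¹, hSK (hTS c (mul_mem y.2 (inv_mem y'.2)))⟩ : K) =
          ⟨y, hSK (hTS c y.2)⟩ * (⟨y', hSK (hTS c y'.2)⟩ : K)⁻¹ from rfl, map_mul, map_inv, e', mul_inv_cancel]
      have hTge : ∀ c, Nat.card (alternatingGroup (Fin (d - 1))) ≤ Nat.card (Tc c) := fun c => by
        rw [← hTimg c, img]
        refine (Nat.card_le_card_of_surjective _ (MonoidHom.subgroupMap_surjective _ _)).trans (le_of_eq ?_)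
        exact Nat.card_congr (Subgroup.subgroupOfEquivOfLe ((hTS c).trans hSK)).toEquiv
      -- a normal subgroup of a normal subgroup of `S` of this order is a factor
      have hfactor : ∀ X Y : Subgroup G, X ≤ Y → Y ≤ S → S ≤ Subgroup.normalizer (Y : Set G) →
          Y ≤ Subgroup.normalizer (X : Set G) → X ≠ ⊥ →
          Nat.card X ≤ Nat.card (alternatingGroup (Fin (d - 1))) → S ≤ Subgroup.normalizer (X : Set G) := by
        intro X Y hXY hYS hnY hnX hX hXc
        obtain ⟨e, he⟩ : ∃ e, img (f e) X ≠ ⊥ := by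
          by_contra h
          push Not at h
          refine hX ((Subgroup.eq_bot_iff_forall _).2 fun y hy => hNinj y (hSK (hYS (hXY hy))) fun z => ?_)
          exact (hfker z ⟨y, hSK (hYS (hXY hy))⟩).1 ((img_eq_bot_iff (f z)).1 (h z) ⟨y, hSK (hYS (hXY hy))⟩ hy)
        have hY : alternatingGroup (Fin (d - 1)) ≤ img (f e) Y := by
          refine (AltSub.eq_bot_or_le h5 ?_).resolve_left fun h => he (le_bot_iff.1 (h ▸ img_mono (f e) hXY))
          rw [← hfS e]; exact img_normalized (f e) hnY
        have hXalt : alternatingGroup (Fin (d - 1)) ≤ img (f e) X :=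
          (AltSub.eq_bot_or_le h5 (hY.trans (img_normalized (f e) hnX))).resolve_left he
        have hTY : Tc e ≤ Y := by
          have := hTeq e (Tc e ⊓ Y) inf_le_left ?_
          · exact this ▸ inf_le_right
          · refine le_trans ?_ (img_mono (f e) ((commutator_le_inf_of_normal (hTS e) hYS (hSTc e) hnY)))
            refine le_trans ?_ (img_commutator (f e) ((hTS e).trans hSK) (hYS.trans hSK))
            exact (AltSub.commutator_alt h5).ge.trans (Subgroup.commutator_mono (hTimg e).ge hY)
        have hTX : Tc e ≤ X := by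
          have := hTeq e (Tc e ⊓ X) inf_le_left ?_
          · exact this ▸ inf_le_right
          · refine le_trans ?_ (img_mono (f e) (commutator_le_inf_of_normal hTY hXY (hYS.trans (hSTc e)) hnX))
            refine le_trans ?_ (img_commutator (f e) ((hTS e).trans hSK) ((hXY.trans hYS).trans hSK))
            exact (AltSub.commutator_alt h5).ge.trans (Subgroup.commutator_mono (hTimg e).ge hXalt)
        rw [← Subgroup.eq_of_le_of_card_ge hTX (hXc.trans (hTge e))]
        exact hSTc e
      -- transport to the other kernel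
      set S' := cg g S with hS'
      have hS'eq : S' = ⁅⁅K', K'⁆, ⁅K', K'⁆⁆ := by
        rw [hS', hS, hS1, hg, cg, Subgroup.map_commutator, Subgroup.map_commutator]
        rfl
      have hS'K' : S' ≤ K' := by
        rw [hg]; exact cg_mono hSK
      obtain ⟨c, hcz⟩ : ∃ c : Fin d, c ≠ z0 := Fintype.exists_ne_of_one_lt_card (by rw [Fintype.card_fin]; omega) z0
      have hTK' : ∀ c, c ≠ z0 → Tc c ≤ S' := by
        intro c hc
        have h1 : Tc c ≤ K' := by
          intro y hy
          have hN0 : y ∈ N z0 := hTN c z0 (Ne.symm hc) hy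
          have h2 := hN0.2
          have ht0 : (t z0 : G) ∈ J := (hπ _).1 (ht z0)
          rwa [cg_eq_of_mem_normalizer (hJK' ht0)] at h2
        rw [hS'eq]
        calc Tc c = ⁅⁅Tc c, Tc c⁆, ⁅Tc c, Tc c⁆⁆ := by rw [hperf, hperf]
          _ ≤ _ := Subgroup.commutator_mono (Subgroup.commutator_mono h1 h1) (Subgroup.commutator_mono h1 h1)
      have hnormal : ∀ c, c ≠ z0 → S' ≤ Subgroup.normalizer (Tc c : Set G) := by
        intro c hc
        set X := cg g⁻¹ (Tc c)
        set Y := cg g⁻¹ (S' ⊓ K)
        have hS'J : S' ≤ J := hS'K'.trans ((IsPair.core1_le H' H).trans (inf_comm H' H).le)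
        have hXY : X ≤ Y := cg_mono (le_inf (hTK' c hc) ((hTS c).trans hSK))
        have hYS : Y ≤ S := (cg_mono inf_le_left).trans (cg_eq_self_comm S).le
        have hnY : S ≤ Subgroup.normalizer (Y : Set G) := by
          refine le_trans (cg_eq_self_comm S).ge (le_normalizer_cg g⁻¹ ?_)
          exact le_trans (le_inf Subgroup.le_normalizer ((hS'J.trans inf_le_left).trans hHK))
            Subgroup.inf_normalizer_le_normalizer_inf
        have hnX : Y ≤ Subgroup.normalizer (X : Set G) := by
          refine le_normalizer_cg g⁻¹ (inf_le_right.trans fun y hy => ?_)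
          rw [Subgroup.mem_normalizer_iff]
          intro x
          simp only [Tc, T, SetLike.mem_coe, Subgroup.mem_inf, mem_finset_inf]
          exact and_congr (Subgroup.mem_normalizer_iff.1 (hHS (hKH hy)) x)
            (forall₂_congr fun z _ => Subgroup.mem_normalizer_iff.1 (hKN z hy) x)
        have hX : X ≠ ⊥ := fun h => hTne c (by
          rw [← cg_one (Tc c), ← mul_inv_cancel g, cg_mul, show cg g⁻¹ (Tc c) = ⊥ from h, cg, Subgroup.map_bot])
        have h1 := hfactor X Y hXY hYS hnY hnX hX ((card_cg _ _).trans_le (hTcard c))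
        refine le_trans (le_normalizer_cg g h1) ?_
        rw [show cg g X = Tc c by rw [show X = cg g⁻¹ (Tc c) from rfl, ← cg_mul, mul_inv_cancel, cg_one]]
      -- an element of `S'` moving a point
      have hS'alt : alternatingGroup (Fin (d - 1)) ≤ img ρ S' := by
        have hK'J : K' ≤ J := (IsPair.core1_le H' H).trans (inf_comm H' H).le
        have h1 : alternatingGroup (Fin (d - 1)) ≤ img ρ ⁅K', K'⁆ :=
          (commutator_of_alt_le h5 (s.img_other hρk)).ge.trans (img_commutator ρ hK'J hK'J)
        rw [hS'eq]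
        exact (commutator_of_alt_le h5 h1).ge.trans (img_commutator ρ
          ((Subgroup.commutator_le_self K').trans hK'J) ((Subgroup.commutator_le_self K').trans hK'J))
      obtain ⟨y, hyS, hyK⟩ : ∃ y ∈ S', y ∉ K := by
        by_contra h
        push Not at h
        have hb : img ρ S' = ⊥ := (img_eq_bot_iff ρ).2 fun y hy => by
          rw [← MonoidHom.mem_ker, hρk]
          exact h _ hy
        have := AltSub.card_alt_ge h5
        rw [hb, le_bot_iff] at hS'alt
        rw [hS'alt, Subgroup.card_bot] at this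
        omega
      have hyH : y ∈ H := ((hS'K'.trans (IsPair.core1_le H' H)) hyS).2
      have hyz0 : π ⟨y, hyH⟩ z0 = z0 := (hπ _).2 ⟨hyH, ((hS'K'.trans (IsPair.core1_le H' H)) hyS).1⟩
      obtain ⟨u, hu⟩ : ∃ u, π ⟨y, hyH⟩ u ≠ u := by
        by_contra h
        push Not at h
        have : (⟨y, hyH⟩ : H) ∈ π.ker := Equiv.ext h
        rw [hπk] at this
        exact hyK this
      have hu0 : u ≠ z0 := fun e => hu (e ▸ hyz0)
      have heq : cg y (Tc u) = Tc u := cg_eq_of_mem_normalizer (hnormal u hu0 hyS)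
      -- but `y` moves this factor
      have hle : Tc u ≤ N u := by
        intro x hx
        rw [← heq] at hx
        have h1 : y⁻¹ * x * y ∈ N ((π ⟨y, hyH⟩)⁻¹ u) := hTN u _ (fun e => hu (by
          rw [Equiv.Perm.inv_def, Equiv.symm_apply_eq] at e; exact e.symm)) (mem_cg.1 hx)
        have h2 : x ∈ cg y (N ((π ⟨y, hyH⟩)⁻¹ u)) := mem_cg.2 h1
        rwa [hNz ⟨y, hyH⟩, Equiv.Perm.inv_def, Equiv.apply_symm_apply] at h2
      refine hTne u ((Subgroup.eq_bot_iff_forall _).2 fun x hx => hTinj u x hx ?_)
      exact (hfker u ⟨x, hSK (hTS u hx)⟩).2 (hle hx).2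
  -- hence `S` meets the other kernel trivially
  have hSbot : ∀ y ∈ S, ∀ z, y ∈ cg (t z : G) K' → y = 1 := fun y hy z hz =>
    hNinj y (hSK hy) fun w => (show y ∈ N w by rw [hNall w, ← hNall z]; exact ⟨hy, hz⟩).2
  rw [Subgroup.eq_bot_iff_forall]
  rintro y ⟨hyK, hyK'⟩
  refine hNinj y hyK fun z => ?_
  set M := K ⊓ K' with hM
  have hMK : M ≤ K := inf_le_left
  have hKM : K ≤ Subgroup.normalizer (M : Set G) :=
    le_trans (le_inf Subgroup.le_normalizer (hKJ.trans hJK')) Subgroup.inf_normalizer_le_normalizer_inf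
  have hb : img (f z) M = ⊥ := by
    refine (AltSub.eq_bot_or_le h5 ((hfalt z).trans (img_normalized (f z) hKM))).resolve_right fun h => ?_
    have h1 : alternatingGroup (Fin (d - 1)) ≤ img (f z) ⁅M, M⁆ :=
      (commutator_of_alt_le h5 h).ge.trans (img_commutator (f z) hMK hMK)
    have hMM : ⁅M, M⁆ ≤ K := (Subgroup.commutator_le_self M).trans hMK
    have h2 : alternatingGroup (Fin (d - 1)) ≤ img (f z) ⁅⁅M, M⁆, ⁅M, M⁆⁆ :=
      (commutator_of_alt_le h5 h1).ge.trans (img_commutator (f z) hMM hMM)
    have h3 : (⁅⁅M, M⁆, ⁅M, M⁆⁆ : Subgroup G) = ⊥ := by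
      rw [Subgroup.eq_bot_iff_forall]
      intro x hx
      refine hSbot x (Subgroup.commutator_mono (Subgroup.commutator_mono hMK hMK) (Subgroup.commutator_mono hMK hMK) hx) z0 ?_
      have ht0 : (t z0 : G) ∈ J := (hπ _).1 (ht z0)
      rw [cg_eq_of_mem_normalizer (hJK' ht0)]
      exact ((Subgroup.commutator_le_self _).trans ((Subgroup.commutator_le_self _).trans inf_le_right)) hx
    have := AltSub.card_alt_ge h5
    rw [h3, img, Subgroup.bot_subgroupOf, Subgroup.map_bot, le_bot_iff] at h2
    rw [h2, Subgroup.card_bot] at this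
    omega
  exact (hfker z ⟨y, hyK⟩).1 ((img_eq_bot_iff (f z)).1 hb ⟨y, hyK⟩ ⟨hyK, hyK'⟩)

end Setup

end Cfsg.Agent.H81.AltSC
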