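import Mathlib
import Cfsg.Agent.H81.AltStructure

/-! The embedding into `Sym(d) × Sym(d - 1)`. -/

set_option autoImplicit false

namespace Cfsg.Agent.H81.AltSC

open Equiv Equiv.Perm
open Cfsg.Agent.H81.TW (IsPair core1 core2 inCore le_inCore)
open Cfsg.Agent.H81.Cubic (cg mem_cg cg_mul cg_one card_cg cg_of_mem cg_mono cg_inf mem_normalizer_of_cg)

variable {G : Type*} [Group G] [Finite G] {H H' : Subgroup G} {d : ℕ}

theorem le_normalizer_inf_centralizer {G : Type*} [Group G] (H V : Subgroup G) (h : H ≤ Subgroup.normalizer (V : Set G)) :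
    H ≤ Subgroup.normalizer ((H ⊓ Subgroup.centralizer (V : Set G) : Subgroup G) : Set G) := by
  have key : ∀ y ∈ H, ∀ z ∈ H ⊓ Subgroup.centralizer (V : Set G), y * z * y⁻¹ ∈ H ⊓ Subgroup.centralizer (V : Set G) := by
    intro y hy z hz
    refine ⟨H.mul_mem (H.mul_mem hy hz.1) (H.inv_mem hy), Subgroup.mem_centralizer_iff.2 fun v hv => ?_⟩
    have hv' : y⁻¹ * v * y ∈ V := by
      have := (Subgroup.mem_normalizer_iff.1 (h (H.inv_mem hy)) v).1 hv
      simpa using this
    have := Subgroup.mem_centralizer_iff.1 hz.2 _ hv'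
    calc v * (y * z * y⁻¹) = y * ((y⁻¹ * v * y) * z) * y⁻¹ := by group
      _ = y * (z * (y⁻¹ * v * y)) * y⁻¹ := by rw [this]
      _ = y * z * y⁻¹ * v := by group
  intro y hy
  rw [Subgroup.mem_normalizer_iff]
  refine fun z => ⟨key y hy z, fun hz => ?_⟩
  have := key _ (H.inv_mem hy) _ hz
  simpa [mul_assoc] using this

/-- The three subdirect products. -/
def signsEqual (d : ℕ) : Subgroup (Perm (Fin d) × Perm (Fin (d - 1))) :=
  ((Equiv.Perm.sign.comp (MonoidHom.fst (Equiv.Perm (Fin d)) (Equiv.Perm (Fin (d - 1))))) *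
    (Equiv.Perm.sign.comp (MonoidHom.snd (Equiv.Perm (Fin d)) (Equiv.Perm (Fin (d - 1)))))).ker

namespace Setup

theorem products (s : Setup H H' d) (hbot : core1 H H' ⊓ core1 H' H = ⊥) :
    (2 * Nat.card H = d.factorial * Nat.card (core1 H H') ∧
      Nonempty (H ≃* alternatingGroup (Fin d) × alternatingGroup (Fin (d - 1)))) ∨
    (Nat.card H = d.factorial * Nat.card (core1 H H') ∧
      (Nonempty (H ≃* Perm (Fin d) × Perm (Fin (d - 1))) ∨
        Nonempty (H ≃* Perm (Fin d) × alternatingGroup (Fin (d - 1))) ∨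
        Nonempty (H ≃* signsEqual d))) := by
  classical
  have hsix := s.six
  have hhoms := s.toBase.exists_homs
  have hrho := s.toBase.exists_rho'
  have h5 : 5 ≤ Fintype.card (Fin (d - 1)) := by rw [Fintype.card_fin]; omega
  have h5d : 5 ≤ Fintype.card (Fin d) := by rw [Fintype.card_fin]; omega
  set K := core1 H H' with hK
  set K' := core1 H' H with hK'
  set J := H ⊓ H' with hJ
  obtain ⟨π, z0, ρ, hπ, htr, hπk, hρk⟩ := hhoms
  obtain ⟨ρ', hρ'k⟩ := hrho
  have hKH : K ≤ H := core_facts.1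
  have hKJ : K ≤ J := IsPair.core1_le H H'
  have hK'J : K' ≤ J := (IsPair.core1_le H' H).trans (inf_comm H' H).le
  have hHK : H ≤ Subgroup.normalizer (K : Set G) := le_normalizer_core1 H H'
  have hJK' : J ≤ Subgroup.normalizer (K' : Set G) := inf_le_right.trans (le_normalizer_core1 H' H)
  -- `ρ'` is injective on `K`
  let f : K →* Perm (Fin (d - 1)) := ρ'.comp (Subgroup.inclusion hKJ)
  have hf : Function.Injective f := by
    rw [injective_iff_map_eq_one]
    intro k hk
    have h1 : Subgroup.inclusion hKJ k ∈ ρ'.ker := hk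
    rw [hρ'k, Subgroup.mem_subgroupOf] at h1
    have h2 : (k : G) ∈ K ⊓ K' := ⟨k.2, h1⟩
    rw [hbot, Subgroup.mem_bot] at h2
    exact Subtype.ext h2
  obtain ⟨hcardρ, hρalt⟩ := s.rho_range hρk
  have hidx' : Nat.card ρ'.range * Nat.card K' = Nat.card J := by
    rw [← Subgroup.index_ker, hρ'k, ← Nat.card_congr (Subgroup.subgroupOfEquivOfLe hK'J).toEquiv,
      Subgroup.index_mul_card]
  have hrange' : Nat.card ρ'.range = Nat.card ρ.range := by
    rw [s.cardEq, ← hcardρ] at hidx'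
    exact Nat.eq_of_mul_eq_mul_right Nat.card_pos hidx'
  have hρ'alt : alternatingGroup (Fin (d - 1)) ≤ ρ'.range := by
    refine AltSub.alt_le_of_card h5 ?_
    have h1 := Subgroup.card_le_of_le hρalt
    have h2 := AltSub.two_mul_card h5
    omega
  have hfalt : alternatingGroup (Fin (d - 1)) ≤ f.range := by
    refine (AltSub.eq_bot_or_le h5 ?_).resolve_left fun h => ?_
    · have e : img ρ' K = f.range := by
        ext σ
        constructor
        · rintro ⟨j, hj, rfl⟩; exact ⟨⟨j, hj⟩, rfl⟩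
        · rintro ⟨k, rfl⟩; exact ⟨Subgroup.inclusion hKJ k, k.2, rfl⟩
      rw [← e]
      exact hρ'alt.trans ((img_self ρ').ge.trans (img_normalized ρ' (inf_le_left.trans hHK)))
    · refine s.neBot ((Subgroup.eq_bot_iff_forall _).2 fun y hy => ?_)
      have : f ⟨y, hy⟩ = 1 := by
        have h' : f ⟨y, hy⟩ ∈ f.range := ⟨_, rfl⟩
        rw [h] at h'
        exact h'
      exact congrArg Subtype.val (hf (this.trans (map_one f).symm))
  -- the centraliser of `K`
  set C := H ⊓ Subgroup.centralizer (K : Set G) with hC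
  have hK'C : K' ≤ C := by
    refine le_inf (hK'J.trans inf_le_left) (Subgroup.commutator_eq_bot_iff_le_centralizer.1 (le_bot_iff.1 ?_))
    rw [← hbot, inf_comm K]
    exact commutator_le_inf_of_normal hK'J hKJ hJK' (inf_le_left.trans hHK)
  have hHC : H ≤ Subgroup.normalizer (C : Set G) := le_normalizer_inf_centralizer H K hHK
  have hπalt : alternatingGroup (Fin d) ≤ π.range := by
    refine AltSub.alt_le_of_card h5d ?_
    rw [Fintype.card_fin]
    have hR : Nat.card π.range * Nat.card K = Nat.card H := by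
      rw [← Subgroup.index_ker, hπk, ← Nat.card_congr (Subgroup.subgroupOfEquivOfLe hKH).toEquiv,
        Subgroup.index_mul_card]
    have hb := s.cardK
    rw [← hR, ← mul_assoc] at hb
    exact Nat.le_of_mul_le_mul_right hb Nat.card_pos
  have hCalt : alternatingGroup (Fin d) ≤ img π C := by
    refine (AltSub.eq_bot_or_le h5d ?_).resolve_left fun h => ?_
    · exact hπalt.trans ((img_self π).ge.trans (img_normalized π hHC))
    · refine s.symm.not_le fun y hy => ?_
      have h1 : (⟨y, (hK'C hy).1⟩ : H) ∈ π.ker := (img_eq_bot_iff π).1 h _ (hK'C hy)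
      rw [hπk] at h1
      exact h1
  -- decomposition
  have hdec : ∀ h : H, ∃ c : H, (c : G) ∈ C ∧ ((c⁻¹ * h : H) : G) ∈ J := by
    intro h
    obtain ⟨τ, hτ, hτz⟩ : ∃ τ ∈ alternatingGroup (Fin d), τ z0 = π h z0 := by
      rcases eq_or_ne z0 (π h z0) with e | e
      · exact ⟨1, one_mem _, e⟩
      · exact exists_alt_moves (by omega) e
    obtain ⟨c, hc, rfl⟩ := hCalt hτ
    refine ⟨c, hc, (hπ _).1 ?_⟩
    rw [map_mul, Perm.mul_apply, ← hτz, map_inv, Equiv.Perm.inv_def, Equiv.symm_apply_apply]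
  -- the second coordinate
  have hconj : ∀ (h : H) (k : K), (h : G) * k * (h : G)⁻¹ ∈ K := fun h k =>
    (Subgroup.mem_normalizer_iff.1 (hHK h.2) _).1 k.2
  have huniq : ∀ σ τ : Perm (Fin (d - 1)), (∀ k : K, σ * f k * σ⁻¹ = τ * f k * τ⁻¹) → σ = τ := by
    intro σ τ h
    have h1 : τ⁻¹ * σ = 1 := by
      refine AltSub.eq_one_of_centralizes h5 fun a ha => ?_
      obtain ⟨k, rfl⟩ := hfalt ha
      calc τ⁻¹ * σ * f k = τ⁻¹ * (σ * f k * σ⁻¹) * σ := by group
        _ = f k * (τ⁻¹ * σ) := by rw [h k]; group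
    exact (inv_mul_eq_one.1 h1).symm
  have hρ'conj : ∀ (j : H) (hj : (j : G) ∈ J) (k : K),
      ρ' ⟨j, hj⟩ * f k * (ρ' ⟨j, hj⟩)⁻¹ = f ⟨_, hconj j k⟩ := by
    intro j hj k
    show ρ' _ * ρ' _ * (ρ' _)⁻¹ = ρ' _
    rw [← map_mul, ← map_inv, ← map_mul]
    exact congrArg ρ' (Subtype.ext rfl)
  have hexists : ∀ h : H, ∃ σ : Perm (Fin (d - 1)), ∀ k : K, σ * f k * σ⁻¹ = f ⟨_, hconj h k⟩ := by
    intro h
    obtain ⟨c, hc, hj⟩ := hdec h
    refine ⟨ρ' ⟨_, hj⟩, fun k => ?_⟩
    rw [hρ'conj (c⁻¹ * h) hj k]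
    refine congrArg f (Subtype.ext ?_)
    have hcm := Subgroup.mem_centralizer_iff.1 hc.2 _ (hconj h k)
    simp only [Subgroup.coe_mul, Subgroup.coe_inv, mul_inv_rev, inv_inv]
    calc (c : G)⁻¹ * h * k * ((h : G)⁻¹ * c) = (c : G)⁻¹ * (((h : G) * k * (h : G)⁻¹) * c) := by group
      _ = (c : G)⁻¹ * (c * ((h : G) * k * (h : G)⁻¹)) := by rw [hcm]
      _ = (h : G) * k * (h : G)⁻¹ := by group
  choose θf hθ using hexists
  let θ : H →* Perm (Fin (d - 1)) :=
    { toFun := θf
      map_one' := huniq _ _ fun k => by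
        rw [hθ 1 k, one_mul, inv_one, mul_one]
        exact congrArg f (Subtype.ext (by simp))
      map_mul' := fun a b => huniq _ _ fun k => by
        rw [hθ (a * b) k, mul_inv_rev, show θf a * θf b * f k * ((θf b)⁻¹ * (θf a)⁻¹) =
          θf a * (θf b * f k * (θf b)⁻¹) * (θf a)⁻¹ by group, hθ b k, hθ a]
        exact congrArg f (Subtype.ext (by simp [mul_assoc])) }
  have hθJ : ∀ (j : H) (hj : (j : G) ∈ J), θ j = ρ' ⟨j, hj⟩ := fun j hj =>
    huniq _ _ fun k => by
      show θf j * f k * (θf j)⁻¹ = _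
      rw [hθ, hρ'conj]
  have hθC : ∀ c : H, (c : G) ∈ C → θ c = 1 := fun c hc => huniq _ _ fun k => by
    show θf c * f k * (θf c)⁻¹ = _
    rw [hθ, one_mul, inv_one, mul_one]
    refine congrArg f (Subtype.ext ?_)
    show (c : G) * k * (c : G)⁻¹ = k
    rw [← Subgroup.mem_centralizer_iff.1 hc.2 _ k.2, mul_inv_cancel_right]
  have hθrange : θ.range = ρ'.range := by
    refine le_antisymm ?_ ?_
    · rintro _ ⟨h, rfl⟩
      obtain ⟨c, hc, hj⟩ := hdec h
      refine ⟨⟨_, hj⟩, ?_⟩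
      rw [← hθJ, map_mul, map_inv, hθC c hc, inv_one, one_mul]
    · rintro _ ⟨j, rfl⟩
      exact ⟨⟨j, j.2.1⟩, hθJ _ j.2⟩
  let Φ : H →* Perm (Fin d) × Perm (Fin (d - 1)) := π.prod θ
  have hΦ : Function.Injective Φ := by
    rw [injective_iff_map_eq_one]
    intro h hh
    obtain ⟨h1, h2⟩ : π h = 1 ∧ θ h = 1 := Prod.ext_iff.1 hh
    have hk : (h : G) ∈ K := by
      have : h ∈ π.ker := h1
      rw [hπk] at this
      exact this
    rw [hθJ h (hKJ hk)] at h2
    have e := hf (show f ⟨h, hk⟩ = f 1 by rw [map_one]; exact h2)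
    exact Subtype.ext (congrArg (fun x : K => (x : G)) e)
  have hleft : ∀ σ ∈ alternatingGroup (Fin d), (σ, 1) ∈ Φ.range := by
    intro σ hσ
    obtain ⟨c, hc, rfl⟩ := hCalt hσ
    exact ⟨c, Prod.ext rfl (hθC c hc)⟩
  have hright : ∀ k : K, ((1 : Perm (Fin d)), f k) ∈ Φ.range := fun k => by
    refine ⟨⟨k, hKH k.2⟩, Prod.ext ?_ (hθJ _ (hKJ k.2))⟩
    show (⟨(k : G), hKH k.2⟩ : H) ∈ π.ker
    rw [hπk]
    exact k.2
  have hU : Nonempty (H ≃* Φ.range) := ⟨MonoidHom.ofInjective hΦ⟩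
  obtain ⟨eU⟩ := hU
  have hR : Nat.card π.range * Nat.card K = Nat.card H := by
    rw [← Subgroup.index_ker, hπk, ← Nat.card_congr (Subgroup.subgroupOfEquivOfLe hKH).toEquiv,
      Subgroup.index_mul_card]
  have hRd : Nat.card π.range = d * Nat.card ρ.range := by
    have h1 := s.idx
    rw [← hR, ← hcardρ, ← mul_assoc] at h1
    exact (Nat.eq_of_mul_eq_mul_right Nat.card_pos h1).symm
  have hfac := Nat.mul_factorial_pred (by omega : d ≠ 0)
  rcases AltSub.eq_top_or_eq_alt h5d hπalt with htop | halt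
  · -- the symmetric group
    right
    have hcπ : Nat.card π.range = d.factorial := by
      rw [htop, Subgroup.card_top, Nat.card_perm, Nat.card_fin]
    refine ⟨by rw [← hR, hcπ], ?_⟩
    have hρ'top : θ.range = ⊤ := by
      rw [hθrange]
      refine Subgroup.eq_top_of_card_eq _ ?_
      rw [hrange', Nat.card_perm, Nat.card_fin]
      rw [hcπ, ← hfac] at hRd
      exact (Nat.eq_of_mul_eq_mul_left (by omega) hRd).symm
    rcases AltSub.eq_top_or_eq_alt h5 hfalt with hf1 | hf1
    · refine Or.inl ⟨eU.trans ((MulEquiv.subgroupCongr (show Φ.range = ⊤ from top_le_iff.1 ?_)).trans Subgroup.topEquiv)⟩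
      rintro ⟨σ, τ⟩ -
      obtain ⟨h, rfl⟩ : σ ∈ π.range := htop ▸ Subgroup.mem_top σ
      obtain ⟨k, hk⟩ : (θ h)⁻¹ * τ ∈ f.range := hf1 ▸ Subgroup.mem_top _
      have : (π h, τ) = Φ h * (1, f k) := by
        rw [hk]; exact Prod.ext (mul_one _).symm (by show τ = θ h * ((θ h)⁻¹ * τ); group)
      rw [this]
      exact mul_mem ⟨h, rfl⟩ (hright k)
    · refine Or.inr (Or.inr ⟨eU.trans (MulEquiv.subgroupCongr ?_)⟩)
      have hmem : ∀ p : Perm (Fin d) × Perm (Fin (d - 1)), p ∈ signsEqual d ↔ sign p.1 = sign p.2 := fun p => by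
        show sign p.1 * sign p.2 = 1 ↔ _
        rw [mul_eq_one_iff_eq_inv, Int.units_inv_eq_self]
      -- the kernel of `π` is even in the second coordinate
      have h1 : ∀ u ∈ Φ.range, u.1 = 1 → sign u.2 = 1 := by
        rintro u ⟨h, rfl⟩ hu
        have hk : (h : G) ∈ K := by
          have : h ∈ π.ker := hu
          rw [hπk] at this
          exact this
        show sign (θ h) = 1
        rw [hθJ h (hKJ hk), ← mem_alternatingGroup, ← hf1]
        exact ⟨⟨h, hk⟩, rfl⟩
      have h1' : ∀ u ∈ Φ.range, sign u.1 = 1 → sign u.2 = 1 := by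
        intro u hu hs
        have h2 := h1 (u * (u.1⁻¹, 1)) (mul_mem hu (hleft _ (inv_mem (mem_alternatingGroup.2 hs)))) (mul_inv_cancel u.1)
        simpa using h2
      obtain ⟨w, hw⟩ : ∃ w ∈ Φ.range, sign w.2 = -1 := by
        haveI := AltSub.nontrivial_of_five_le h5
        obtain ⟨a, b, hab⟩ := exists_pair_ne (Fin (d - 1))
        obtain ⟨h, hh⟩ : swap a b ∈ θ.range := hρ'top ▸ Subgroup.mem_top _
        exact ⟨Φ h, ⟨h, rfl⟩, by show sign (θ h) = -1; rw [hh, sign_swap hab]⟩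
      have hw1 : sign w.1 = -1 := by
        rcases Int.units_eq_one_or (sign w.1) with e | e
        · exact absurd (h1' w hw.1 e) (by rw [hw.2]; decide)
        · exact e
      refine le_antisymm (fun u hu => (hmem u).2 ?_) fun p hp => ?_
      · rcases Int.units_eq_one_or (sign u.1) with e | e
        · rw [e, h1' u hu e]
        · have h2 := h1' (u * w) (mul_mem hu hw.1) (by rw [Prod.fst_mul, map_mul, e, hw1]; rfl)
          rw [Prod.snd_mul, map_mul, hw.2, mul_eq_one_iff_eq_inv] at h2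
          rw [e, h2]; rfl
      · obtain ⟨h, hh⟩ : p.1 ∈ π.range := htop ▸ Subgroup.mem_top _
        have hs : sign ((θ h)⁻¹ * p.2) = 1 := by
          have h2 := (hmem p).1 hp
          rw [map_mul, map_inv, ← h2, ← hh]
          rcases Int.units_eq_one_or (sign (π h)) with e | e
          · have h3 : sign (θ h) = 1 := h1' (Φ h) ⟨h, rfl⟩ e
            rw [h3, e]; rfl
          · have h3 := h1' (Φ h * w) (mul_mem ⟨h, rfl⟩ hw.1) (by
              show sign (π h * w.1) = 1
              rw [map_mul, e, hw1]; rfl)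
            rw [Prod.snd_mul, map_mul, hw.2, mul_eq_one_iff_eq_inv] at h3
            have h4 : sign (θ h) = -1 := h3.trans rfl
            rw [h4, e]; rfl
        obtain ⟨k, hk⟩ : (θ h)⁻¹ * p.2 ∈ f.range := hf1.ge (mem_alternatingGroup.2 hs)
        have : p = Φ h * (1, f k) := by
          rw [hk]; exact Prod.ext (hh.symm.trans (mul_one _).symm) (by show p.2 = θ h * ((θ h)⁻¹ * p.2); group)
        rw [this]
        exact mul_mem ⟨h, rfl⟩ (hright k)
  · -- the alternating group
    left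
    have hcπ : 2 * Nat.card π.range = d.factorial := by
      rw [halt]
      simpa using AltSub.two_mul_card h5d
    refine ⟨by rw [← hR, ← mul_assoc, hcπ], ?_⟩
    have hρ'eq : θ.range = alternatingGroup (Fin (d - 1)) := by
      rw [hθrange]
      refine AltSub.eq_alt_of_card h5 ?_
      rw [hrange', Fintype.card_fin]
      rw [hRd, ← hfac, mul_left_comm] at hcπ
      exact Nat.eq_of_mul_eq_mul_left (by omega) hcπ
    refine ⟨eU.trans ((MulEquiv.subgroupCongr
      (show Φ.range = (alternatingGroup (Fin d)).prod (alternatingGroup (Fin (d - 1))) from ?_)).trans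
      (Subgroup.prodEquiv _ _))⟩
    refine le_antisymm ?_ ?_
    · rintro _ ⟨h, rfl⟩
      exact ⟨halt.le ⟨h, rfl⟩, hρ'eq.le ⟨h, rfl⟩⟩
    · rintro ⟨σ, τ⟩ ⟨hσ, hτ⟩
      obtain ⟨k, rfl⟩ := hfalt hτ
      have : (σ, f k) = (σ, (1 : Perm (Fin (d - 1)))) * ((1 : Perm (Fin d)), f k) := by simp
      rw [this]
      exact mul_mem (hleft σ hσ) (hright k)

end Setup

end Cfsg.Agent.H81.AltSC
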