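import Mathlib
import Cfsg.Agent.S3684
import Cfsg.Agent.H81.CubicSims

/-! The five stabilisers of a suborbit of length three. -/

set_option autoImplicit false

open scoped Pointwise

namespace Cfsg.Agent.H81.Cubic

variable {G : Type*} [Group G]

theorem le_normalizer_inf_centralizer (H V : Subgroup G) (h : H ≤ Subgroup.normalizer (V : Set G)) :
    H ≤ Subgroup.normalizer ((H ⊓ Subgroup.centralizer (V : Set G) : Subgroup G) : Set G) := by
  have key : ∀ y ∈ H, ∀ z ∈ H ⊓ Subgroup.centralizer (V : Set G), y * z * y⁻¹ ∈ H ⊓ Subgroup.centralizer (V : Set G) := by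
    intro y hy z hz
    refine ⟨H.mul_mem (H.mul_mem hy hz.1) (H.inv_mem hy), Subgroup.mem_centralizer_iff.2 fun v hv => ?_⟩
    have hv' : y⁻¹ * v * y ∈ V := by
      have := (Subgroup.mem_normalizer_iff.1 (h (H.inv_mem hy)) v).1 hv
      simpa using this
    have := Subgroup.mem_centralizer_iff.1 hz.2 _ hv'
    calc v * (y * z * y⁻¹) = y * ((y⁻¹ * v * y) * z) * y⁻¹ := by group
      _ = y * (z * (y⁻¹ * v * y)) * y⁻¹ := by rw [this]
      _ = y * z * y⁻¹ * v := by group
  intro y hy
  rw [Subgroup.mem_normalizer_iff]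
  refine fun z => ⟨key y hy z, fun hz => ?_⟩
  have := key _ (H.inv_mem hy) _ hz
  simpa [mul_assoc] using this

namespace Chain

variable [Finite G] (C : Chain G)

theorem normal_gen {V : Subgroup G} (h : ∀ l : ℤ, 0 ≤ l → l ≤ C.n → C.x l ∈ Subgroup.normalizer (V : Set G)) :
    blk C.x 0 (C.n + 1) ≤ Subgroup.normalizer (V : Set G) :=
  C.blk_le fun l h1 h2 => h l h1 (by push_cast at h2; omega)

theorem side_not_normal (hn : 1 ≤ C.n) {i : ℤ} (hi : i = 0 ∨ i = 1) :
    ¬ blk C.x 0 (C.n + 1) ≤ Subgroup.normalizer (blk C.x i C.n : Set G) := by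
  intro h
  obtain ⟨l, hl, hl', hout⟩ : ∃ l : ℤ, 0 ≤ l ∧ l ≤ C.n ∧ ¬ (i ≤ l ∧ l < i + C.n) :=
    ⟨if i = 0 then C.n else 0, by split_ifs <;> omega, by split_ifs <;> omega, by split_ifs <;> omega⟩
  have hle : blk C.x i C.n ≤ blk C.x 0 (C.n + 1) := C.blk_mono (by omega) (by push_cast; omega)
  have hm := mem_of_index_three hle (by rw [C.card_blk' _ le_rfl, C.card_top]) h
    (C.mem_blk hl (by push_cast; omega)) (C.sq l)
  have : blk C.x 0 (C.n + 1) ≤ blk C.x i C.n := C.blk_le fun j h1 h2 => by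
    push_cast at h2
    by_cases hj : i ≤ j ∧ j < i + C.n
    · exact C.mem_blk hj.1 hj.2
    · obtain rfl : j = l := by omega
      exact hm
  have := Subgroup.card_le_of_le this
  rw [C.card_blk' _ le_rfl, C.card_top] at this
  have : 0 < 2 ^ C.n := pow_pos two_pos _
  omega

theorem top_of_side (hn : 1 ≤ C.n) {i : ℤ} (hi : i = 0 ∨ i = 1) {N : Subgroup G}
    (hN : N ≤ blk C.x 0 (C.n + 1)) (hsub : blk C.x i C.n ≤ N)
    (hnorm : blk C.x 0 (C.n + 1) ≤ Subgroup.normalizer (N : Set G)) : N = blk C.x 0 (C.n + 1) := by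
  obtain ⟨t, ht⟩ := Subgroup.card_dvd_of_le hsub
  have h2 := Subgroup.card_dvd_of_le hN
  rw [C.card_top, ht, C.card_blk' _ le_rfl, mul_comm 3] at h2
  rcases (Nat.dvd_prime Nat.prime_three).1 (Nat.dvd_of_mul_dvd_mul_left (pow_pos two_pos _) h2) with rfl | rfl
  · exfalso
    apply C.side_not_normal hn hi
    rwa [Subgroup.eq_of_le_of_card_ge hsub (by rw [ht, mul_one])]
  · exact Subgroup.eq_of_le_of_card_ge hN (le_of_eq (by rw [ht, C.card_top, C.card_blk' _ le_rfl, mul_comm]))

theorem centralizer_inf_card (hn : 2 ≤ C.n) {V : Subgroup G}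
    (hVn : blk C.x 0 (C.n + 1) ≤ Subgroup.normalizer (V : Set G))
    (hD : blk C.x 1 (C.n - 1) ≤ Subgroup.centralizer (V : Set G))
    (h0 : C.x 0 ∉ Subgroup.centralizer (V : Set G)) (hnn : C.x C.n ∉ Subgroup.centralizer (V : Set G))
    (h0n : C.x 0 * C.x C.n ∉ Subgroup.centralizer (V : Set G)) :
    blk C.x 0 (C.n + 1) ⊓ Subgroup.centralizer (V : Set G) = blk C.x 1 (C.n - 1) := by
  set H := blk C.x 0 (C.n + 1) with hH
  set N := H ⊓ Subgroup.centralizer (V : Set G) with hN
  have hnorm : H ≤ Subgroup.normalizer (N : Set G) := le_normalizer_inf_centralizer H V hVn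
  have hDN : blk C.x 1 (C.n - 1) ≤ N := le_inf (C.blk_mono (by omega) (by push_cast; omega)) hD
  have hx0 : C.x 0 ∈ H := C.mem_blk le_rfl (by push_cast; omega)
  have hxn : C.x C.n ∈ H := C.mem_blk (by omega) (by push_cast; omega)
  obtain ⟨t, ht⟩ := Subgroup.card_dvd_of_le hDN
  have h2 := Subgroup.card_dvd_of_le (inf_le_left : N ≤ H)
  have hpow : 2 ^ C.n = 2 ^ (C.n - 1) * 2 := by rw [← pow_succ]; congr 1; omega
  rw [hH, C.card_top, ← hH, hpow, ← mul_assoc, mul_comm 3, mul_assoc, ht, C.card_blk' _ (by omega)] at h2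
  have ht6 : t ∣ 6 := Nat.dvd_of_mul_dvd_mul_left (pow_pos two_pos _) h2
  have htle := Nat.le_of_dvd (by norm_num) ht6
  rw [C.card_blk' _ (by omega)] at ht
  have hcH : Nat.card H = 2 ^ (C.n - 1) * 6 := by rw [hH, C.card_top, hpow]; ring
  interval_cases t
  · norm_num at ht6
  · exact (Subgroup.eq_of_le_of_card_ge hDN (by rw [ht, mul_one, C.card_blk' _ (by omega)])).symm
  · exact absurd (mem_of_index_three (inf_le_left : N ≤ H) (by rw [ht, hcH]; ring) hnorm hx0 (C.sq 0)).2 h0
  · exact absurd (mul_mem_of_card_two_mul (inf_le_left : N ≤ H) (by rw [ht, hcH]; ring) hx0 hxn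
      (fun h => h0 h.2) (fun h => hnn h.2)).2 h0n
  · norm_num at ht6
  · norm_num at ht6
  · exact absurd ((Subgroup.eq_of_le_of_card_ge (inf_le_left : N ≤ H) (by rw [ht, hcH])).ge hx0).2 h0

theorem iso_three (hn : C.n = 1) : Nonempty (blk C.x 0 (C.n + 1) ≃* Equiv.Perm (Fin 3)) := by
  classical
  set H := blk C.x 0 (C.n + 1) with hH
  set K := (blk C.x 0 C.n).subgroupOf H
  have hle : blk C.x 0 C.n ≤ H := C.blk_mono le_rfl (by push_cast; omega)
  have hK : Nat.card K = 2 := by
    rw [Nat.card_congr (Subgroup.subgroupOfEquivOfLe hle).toEquiv, C.card_blk' _ le_rfl, hn]; rfl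
  have hHc : Nat.card H = 6 := by rw [hH, C.card_top, hn]; rfl
  have hidx : Nat.card (H ⧸ K) = 3 := by
    have := K.index_mul_card
    rw [hK, hHc] at this
    show K.index = 3
    omega
  have hcore : K.normalCore = ⊥ := by
    have hd := Subgroup.card_dvd_of_le K.normalCore_le
    rw [hK] at hd
    rcases (Nat.dvd_prime Nat.prime_two).1 hd with h | h
    · exact Subgroup.card_eq_one.1 h
    · exfalso
      have heq := Subgroup.eq_of_le_of_card_ge K.normalCore_le (by rw [h, hK])
      apply C.side_not_normal (by omega) (Or.inl rfl)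
      exact (Subgroup.normal_subgroupOf_iff_le_normalizer hle).mp
        (show K.Normal from heq ▸ Subgroup.normalCore_normal K)
  have hinj : Function.Injective (MulAction.toPermHom H (H ⧸ K)) := by
    rw [← MonoidHom.ker_eq_bot_iff, ← Subgroup.normalCore_eq_ker, hcore]
  haveI := Fintype.ofFinite (H ⧸ K)
  have e : (H ⧸ K) ≃ Fin 3 := Finite.equivFinOfCardEq hidx
  let f : H →* Equiv.Perm (Fin 3) := e.permCongrHom.toMonoidHom.comp (MulAction.toPermHom H (H ⧸ K))
  exact ⟨MulEquiv.ofBijective f ((Nat.bijective_iff_injective_and_card f).2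
    ⟨e.permCongrHom.injective.comp hinj, by rw [hHc, Nat.card_perm, Nat.card_fin]; rfl⟩)⟩

/-- Two involutions with product of order six in a group of order twelve. -/
theorem dihedral_twelve {H : Type*} [Group H] [Finite H] (a b : H) (hH : Nat.card H = 12)
    (ha : a * a = 1) (hb : b * b = 1) (hab : orderOf (a * b) = 6) : Nonempty (H ≃* DihedralGroup 6) := by
  set u := a * b with hu
  haveI : NeZero (orderOf u) := ⟨by omega⟩
  have hai : a⁻¹ = a := inv_eq_of_mul_eq_one_right ha
  have hbi : b⁻¹ = b := inv_eq_of_mul_eq_one_right hb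
  have hinv : a * u * a = u⁻¹ := by rw [hu, mul_inv_rev, hai, hbi, ← mul_assoc, ha, one_mul]
  have hns : a ∉ Subgroup.zpowers u := by
    intro h
    have hc : Commute a u := by
      obtain ⟨j, hj⟩ := h
      rw [← hj]; exact Commute.zpow_self u j
    have h2 : u * u = 1 := by
      rw [hc.eq, mul_assoc, ha, mul_one] at hinv
      nth_rewrite 1 [hinv]
      exact inv_mul_cancel u
    have := orderOf_dvd_of_pow_eq_one (x := u) (n := 2) (by rw [pow_two, h2])
    rw [hab] at this
    norm_num at this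
  rw [← hab]
  refine Cfsg.Agent.S3684.dihedral_of_relations u a ha hinv hns fun g => ?_
  haveI := Fintype.ofFinite H
  let f : Fin 6 × Fin 2 → H := fun p => if p.2 = 0 then u ^ (p.1 : ℕ) else a * u ^ (p.1 : ℕ)
  have hinj : Function.Injective f := by
    rintro ⟨i, r⟩ ⟨j, r'⟩ h
    have hmem : ∀ i j : ℕ, u ^ i = a * u ^ j → False := fun i j h => hns (by
      rw [eq_mul_inv_of_mul_eq h.symm]
      exact mul_mem (Subgroup.pow_mem _ (Subgroup.mem_zpowers u) i)
        (inv_mem (Subgroup.pow_mem _ (Subgroup.mem_zpowers u) j)))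
    fin_cases r <;> fin_cases r' <;> simp [f] at h ⊢
    · exact Fin.ext (pow_injOn_Iio_orderOf (by simp [hab]) (by simp [hab]) h)
    · exact hmem _ _ h
    · exact hmem _ _ h.symm
    · exact Fin.ext (pow_injOn_Iio_orderOf (by simp [hab]) (by simp [hab]) h)
  have hsurj := ((Fintype.bijective_iff_injective_and_card f).2
    ⟨hinj, by rw [Fintype.card_prod, Fintype.card_fin, Fintype.card_fin, ← Nat.card_eq_fintype_card, hH]⟩).2
  obtain ⟨⟨i, r⟩, hi⟩ := hsurj g
  refine ⟨i, ?_⟩
  fin_cases r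
  · exact Or.inl (by simpa [f] using hi.symm)
  · exact Or.inr (by simpa [f] using hi.symm)

theorem iso_six (hn : C.n = 2) : Nonempty (blk C.x 0 (C.n + 1) ≃* DihedralGroup 6) := by
  set H := blk C.x 0 (C.n + 1) with hH
  have hHc : Nat.card H = 12 := by rw [hH, C.card_top, hn]; rfl
  have hcom : C.Com 2 := C.com_of 2 fun d hd => by
    rcases (show d = 0 ∨ d = 1 by omega) with rfl | rfl
    · simp
    · have := C.comm_mem (i := 0) (j := 1) (d := 0) (by omega) (by norm_num)
      rw [C.blk_zero, Subgroup.mem_bot, mul_eq_one_iff_eq_inv, C.inv_x] at this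
      show C.x 0 * C.x ((1 : ℕ) : ℤ) = C.x ((1 : ℕ) : ℤ) * C.x 0
      rw [Nat.cast_one]
      calc C.x 0 * C.x 1 = C.x 0 * C.x 1 * C.x 0 * C.x 0 := by rw [mul_assoc _ (C.x 0), C.sq, mul_one]
        _ = C.x 1 * C.x 0 := by rw [this]
  have hm : ∀ l : ℤ, 0 ≤ l → l ≤ 2 → C.x l ∈ H := fun l h1 h2 => C.mem_blk h1 (by push_cast; omega)
  let a : H := ⟨C.x 0, hm 0 le_rfl (by omega)⟩
  let b : H := ⟨C.x 2, hm 2 (by omega) le_rfl⟩
  let z : H := ⟨C.x 1, hm 1 (by omega) (by omega)⟩
  have ha : a * a = 1 := Subtype.ext (C.sq 0)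
  have hb : b * b = 1 := Subtype.ext (C.sq 2)
  have hz : z * z = 1 := Subtype.ext (C.sq 1)
  have hzb : Commute z b := Subtype.ext (hcom 1 2 (by omega) (by omega)).eq
  have hza : Commute z a := Subtype.ext (hcom 1 0 (by omega) (by omega)).eq
  set u := a * b with hu
  have hz1 : z ≠ 1 := fun h => C.x_ne_one (by omega) 1 (congrArg Subtype.val h)
  have hdvd : orderOf u ∣ 12 := hHc ▸ orderOf_dvd_natCard u
  -- the subgroup generated by `a`, `b` is dihedral
  have hai : a⁻¹ = a := inv_eq_of_mul_eq_one_right ha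
  have hbi : b⁻¹ = b := inv_eq_of_mul_eq_one_right hb
  have hu2 : u ^ 2 ≠ 1 := by
    intro h
    have hab : Commute a b := by
      rw [pow_two, hu, mul_eq_one_iff_eq_inv, mul_inv_rev, hai, hbi] at h
      exact h
    -- then `H` would be commutative and `x 0` would normalise everything
    apply C.side_not_normal (by omega) (Or.inl rfl)
    refine C.blk_le fun l h1 h2 => ?_
    refine invol_mem_normalizer rfl (C.sq l) ?_
    rintro _ ⟨l', ⟨h3, h4⟩, rfl⟩
    have : Commute (C.x l) (C.x l') := by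
      rcases (show (l - l' < 2 ∧ l' - l < 2) ∨ (l = 2 ∧ l' = 0) by push_cast at h2; omega) with h | ⟨rfl, rfl⟩
      · exact hcom _ _ h.1 h.2
      · exact (congrArg Subtype.val hab.eq).symm
    rw [this.eq, mul_assoc, C.sq, mul_one]
    exact C.mem_blk h3 h4
  have hns : ∀ (v : H), a * v * a = v⁻¹ → v ^ 2 ≠ 1 → a ∉ Subgroup.zpowers v := by
    intro v hv h2 hmem
    have hc : Commute a v := by
      obtain ⟨j, hj⟩ := hmem
      rw [← hj]; exact Commute.zpow_self v j
    rw [hc.eq, mul_assoc, ha, mul_one] at hv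
    apply h2
    rw [pow_two]; nth_rewrite 1 [hv]; exact inv_mul_cancel v
  have hinv : a * u * a = u⁻¹ := by rw [hu, mul_inv_rev, hai, hbi, ← mul_assoc, ha, one_mul]
  have ho : orderOf u = 3 ∨ orderOf u = 6 := by
    set r := orderOf u with hr
    have hr2 : ¬ r ∣ 2 := fun h => hu2 (orderOf_dvd_iff_pow_eq_one.1 h)
    haveI : NeZero r := ⟨(orderOf_pos u).ne'⟩
    -- the dihedral subgroup has order `2r`
    let K : Subgroup H :=
      { carrier := {g | g ∈ Subgroup.zpowers u ∨ a * g ∈ Subgroup.zpowers u}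
        one_mem' := Or.inl (one_mem _)
        mul_mem' := by
          have hswap : ∀ g ∈ Subgroup.zpowers u, a * g * a ∈ Subgroup.zpowers u := by
            rintro g ⟨j, rfl⟩
            refine ⟨-j, ?_⟩
            have := conj_zpow (i := j) (a := a) (b := u)
            rw [hai, hinv, inv_zpow] at this
            simpa using this
          rintro g h (hg | hg) (hh | hh)
          · exact Or.inl (mul_mem hg hh)
          · exact Or.inr (by simpa [mul_assoc, ← mul_assoc a a, ha] using mul_mem (hswap g hg) hh)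
          · exact Or.inr (by rw [← mul_assoc]; exact mul_mem hg hh)
          · exact Or.inl (by simpa [mul_assoc, ← mul_assoc a a, ha] using mul_mem (hswap _ hg) hh)
        inv_mem' := by
          rintro g (hg | hg)
          · exact Or.inl (inv_mem hg)
          · refine Or.inr ?_
            obtain ⟨j, hj⟩ := hg
            refine ⟨j, ?_⟩
            have hg' : g = a * u ^ j := by simp only at hj; rw [hj, ← mul_assoc, ha, one_mul]
            have := conj_zpow (i := j) (a := a) (b := u)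
            rw [hai, hinv, inv_zpow] at this
            show u ^ j = a * g⁻¹
            rw [hg', mul_inv_rev, hai, this, mul_assoc (a * u ^ j), ha, mul_one, ← mul_assoc, ha, one_mul] }
    have hKz : Subgroup.zpowers u ≤ K := fun g hg => Or.inl hg
    have hidx : 2 * Nat.card (Subgroup.zpowers u) = Nat.card K := by
      have h1 : ((Subgroup.zpowers u).subgroupOf K).index = 2 := by
        refine Subgroup.index_eq_two_iff'.2 ⟨⟨a, Or.inr (by rw [ha]; exact one_mem _)⟩, fun g => ?_⟩
        simp only [Subgroup.mem_subgroupOf, Subgroup.coe_mul]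
        rcases g.2 with h | h
        · refine Or.inr ⟨h, fun hc => hns u hinv hu2 ?_⟩
          simpa using mul_mem hc (inv_mem h)
        · refine Or.inl ⟨h, fun hc => hns u hinv hu2 ?_⟩
          simpa using mul_mem h (inv_mem hc)
      have h2 := ((Subgroup.zpowers u).subgroupOf K).index_mul_card
      rwa [h1, Nat.card_congr (Subgroup.subgroupOfEquivOfLe hKz).toEquiv] at h2
    rw [Nat.card_zpowers, ← hr] at hidx
    have h12 : 2 * r ∣ 12 := by rw [hidx, ← hHc]; exact Subgroup.card_subgroup_dvd_card K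
    have hle : r ≤ 6 := by have := Nat.le_of_dvd (by norm_num) h12; omega
    interval_cases r <;> omega
  rcases ho with h | h
  · refine dihedral_twelve a (b * z) hHc ha ?_ ?_
    · calc b * z * (b * z) = b * (z * b) * z := by group
        _ = b * (b * z) * z := by rw [hzb.eq]
        _ = b * b * (z * z) := by group
        _ = 1 := by rw [hb, hz, one_mul]
    · rw [← mul_assoc, ← hu]
      have hzu : Commute u z := (hza.mul_right hzb).symm
      have hzo : orderOf z = 2 := orderOf_eq_prime (by rw [pow_two, hz]) hz1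
      rw [hzu.orderOf_mul_eq_mul_orderOf_of_coprime (by rw [h, hzo]; norm_num), h, hzo]
  · exact dihedral_twelve a b hHc ha hb h

/-- A group with a normal four-group and four Sylow `3`-subgroups maps to `S₄`. -/
theorem toS4 {H : Type*} [Group H] [Finite H] (V : Subgroup H) [V.Normal] (hV : Nat.card V = 4)
    (m : ℕ) (hH : Nat.card H = 3 * 2 ^ m) (hD : ¬ 3 ∣ Nat.card (Subgroup.centralizer (V : Set H)))
    (hm : m ≤ 3 ∨ (m = 4 ∧ ∃ z : H, orderOf z = 2 ∧ ∀ y, z * y = y * z)) :
    ∃ f : H →* Equiv.Perm (Fin 4), f.ker ≤ Subgroup.centralizer (V : Set H) ∧ f.ker ⊓ V = ⊥ ∧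
      ∀ z : H, (∀ y, z * y = y * z) → z ∈ f.ker := by
  classical
  haveI : Fact (Nat.Prime 3) := ⟨Nat.prime_three⟩
  set T : Sylow 3 H := Classical.arbitrary _
  have hT : Nat.card T = 3 := by
    rw [T.card_eq_multiplicity, hH, Nat.factorization_mul (by norm_num) (by positivity)]
    simp only [Finsupp.add_apply, Nat.Prime.factorization_self Nat.prime_three]
    rw [Nat.Prime.factorization_pow Nat.prime_two]
    norm_num
  have hcentT : ∀ (P : Sylow 3 H) (v : H), v ∈ V → v ∈ Subgroup.normalizer ((P : Subgroup H) : Set H) →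
      v = 1 := by
    intro P v hv hvn
    by_contra hv1
    have hP : Nat.card P = 3 := by rw [P.card_eq_multiplicity, ← T.card_eq_multiplicity, hT]
    obtain ⟨t, ht⟩ := exists_prime_orderOf_dvd_card' (G := (P : Subgroup H)) 3 (dvd_of_eq hP.symm)
    rw [← Subgroup.orderOf_coe] at ht
    set y : H := v * t * v⁻¹ * (t : H)⁻¹ with hy
    have h1 : y ∈ (P : Subgroup H) := mul_mem ((Subgroup.mem_normalizer_iff.1 hvn t).1 t.2) (inv_mem t.2)
    have h2 : y ∈ V := by
      have : y = v * ((t : H) * v⁻¹ * (t : H)⁻¹) := by rw [hy]; group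
      rw [this]
      exact mul_mem hv (Subgroup.Normal.conj_mem inferInstance _ (inv_mem hv) _)
    have hy1 : y = 1 := by
      have hd := Nat.dvd_gcd (hP ▸ Subgroup.orderOf_dvd_natCard _ h1 : orderOf y ∣ 3)
        (hV ▸ Subgroup.orderOf_dvd_natCard _ h2 : orderOf y ∣ 4)
      exact orderOf_eq_one_iff.1 (Nat.eq_one_of_dvd_one hd)
    -- `t` fixes `1` and `v` in its action on `V`
    let φ : Equiv.Perm V := (MulAut.conjNormal (t : H)).toEquiv
    have hφpow : orderOf φ ∣ 3 := by
      rw [← ht]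
      let Φ : H →* Equiv.Perm V :=
        { toFun := fun g => (MulAut.conjNormal g).toEquiv
          map_one' := by ext; simp
          map_mul' := fun a b => by ext; simp }
      exact orderOf_map_dvd Φ (t : H)
    haveI := Fintype.ofFinite V
    have hfix1 : φ 1 = 1 := by simp [φ]
    have hfixv : φ ⟨v, hv⟩ = ⟨v, hv⟩ := by
      apply Subtype.ext
      simp only [φ, MulEquiv.toEquiv_eq_coe, MulEquiv.coe_toEquiv, MulAut.conjNormal_apply]
      have h' : v * t * v⁻¹ * (t : H)⁻¹ = 1 := hy1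
      calc (t : H) * v * (t : H)⁻¹ = (v * t * v⁻¹ * (t : H)⁻¹)⁻¹ * v := by group
        _ = v := by rw [h', inv_one, one_mul]
    have hφ1 : φ = 1 := by
      by_contra hne
      have hsub : φ.support ⊆ ({1, ⟨v, hv⟩} : Finset V)ᶜ := by
        intro w hw
        simp only [Finset.mem_compl, Finset.mem_insert, Finset.mem_singleton, not_or]
        exact ⟨fun e => Equiv.Perm.mem_support.1 hw (e ▸ hfix1), fun e => Equiv.Perm.mem_support.1 hw (e ▸ hfixv)⟩
      have hle := Finset.card_le_card hsub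
      rw [Finset.card_compl, Finset.card_pair (fun e => hv1 (congrArg Subtype.val e).symm),
        ← Nat.card_eq_fintype_card, hV] at hle
      have hge := Equiv.Perm.two_le_card_support_of_ne_one hne
      have hswap := Equiv.Perm.card_support_eq_two.1 (le_antisymm hle hge)
      rw [hswap.orderOf] at hφpow
      norm_num at hφpow
    apply hD
    rw [← ht]
    refine Subgroup.orderOf_dvd_natCard _ (Subgroup.mem_centralizer_iff.2 fun w hw => ?_)
    have := congrArg Subtype.val (DFunLike.congr_fun hφ1 ⟨w, hw⟩)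
    simp [φ] at this
    calc w * t = (t * w * (t : H)⁻¹) * t := by rw [this]
      _ = t * w := by group
  have hn : Nat.card (Sylow 3 H) = 4 := by
    have hmod : Nat.card (Sylow 3 H) % 3 = 1 := card_sylow_modEq_one 3 H
    have hidx : Nat.card (Sylow 3 H) ∣ 2 ^ m := by
      have h := (T : Subgroup H).index_mul_card
      have hT' : Nat.card (T : Subgroup H) = 3 := hT
      rw [hT', hH, mul_comm _ 3] at h
      exact Nat.eq_of_mul_eq_mul_left (by norm_num) h ▸ T.card_dvd_index
    have hne1 : Nat.card (Sylow 3 H) ≠ 1 := by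
      intro h1
      obtain ⟨hss, -⟩ := Nat.card_eq_one_iff_unique.1 h1
      have hnt : ∃ v ∈ V, v ≠ (1 : H) := by
        by_contra h
        push Not at h
        rw [(Subgroup.eq_bot_iff_forall V).2 h, Subgroup.card_bot] at hV
        omega
      obtain ⟨v, hv, hv1⟩ := hnt
      apply hv1
      exact hcentT T v hv (Sylow.smul_eq_iff_mem_normalizer.1 (Subsingleton.elim (v • T) T))
    have hle4 : Nat.card (Sylow 3 H) ≠ 16 := by
      intro h16
      rcases hm with hm | ⟨rfl, z, hzo, hzc⟩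
      · have := Nat.le_of_dvd (pow_pos two_pos m) hidx
        have := Nat.pow_le_pow_right two_pos hm
        omega
      · have hN : Nat.card (Sylow 3 H) = (Subgroup.normalizer ((T : Subgroup H) : Set H)).index :=
          T.card_eq_index_normalizer
        have h := (Subgroup.normalizer ((T : Subgroup H) : Set H)).index_mul_card
        rw [← hN, h16, hH] at h
        have hz : z ∈ Subgroup.normalizer ((T : Subgroup H) : Set H) := by
          rw [Subgroup.mem_normalizer_iff]
          intro y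
          rw [hzc, mul_inv_cancel_right]
        have h2 := Subgroup.orderOf_dvd_natCard _ hz
        rw [hzo] at h2
        omega
    obtain ⟨i, hi, hie⟩ := (Nat.dvd_prime_pow Nat.prime_two).1 hidx
    have hi4 : i ≤ 4 := by rcases hm with h | ⟨h, -⟩ <;> omega
    interval_cases i <;> omega
  let e : Sylow 3 H ≃ Fin 4 := Finite.equivFinOfCardEq hn
  refine ⟨e.permCongrHom.toMonoidHom.comp (MulAction.toPermHom H (Sylow 3 H)), ?_⟩
  have hker : ∀ y, y ∈ (e.permCongrHom.toMonoidHom.comp (MulAction.toPermHom H (Sylow 3 H))).ker →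
      ∀ P : Sylow 3 H, y • P = P := by
    intro y hy P
    rw [MonoidHom.mem_ker, MonoidHom.comp_apply] at hy
    have := e.permCongrHom.injective (hy.trans (map_one _).symm)
    exact DFunLike.congr_fun this P
  set f := e.permCongrHom.toMonoidHom.comp (MulAction.toPermHom H (Sylow 3 H))
  have hinter : f.ker ⊓ V = ⊥ := by
    rw [Subgroup.eq_bot_iff_forall]
    rintro y ⟨hy, hyV⟩
    exact hcentT T y hyV (Sylow.smul_eq_iff_mem_normalizer.1 (hker y hy T))
  refine ⟨fun y hy => Subgroup.mem_centralizer_iff.2 fun v hv => ?_, hinter, fun z hz => ?_⟩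
  swap
  · show e.permCongrHom (MulAction.toPermHom H (Sylow 3 H) z) = 1
    rw [show MulAction.toPermHom H (Sylow 3 H) z = 1 from Equiv.Perm.ext fun P =>
      Sylow.smul_eq_iff_mem_normalizer.2 (by
        show z ∈ Subgroup.normalizer ((P : Subgroup H) : Set H)
        rw [Subgroup.mem_normalizer_iff]
        intro y
        rw [hz, mul_inv_cancel_right]), map_one]
  have hmem : y * v * y⁻¹ * v⁻¹ ∈ f.ker ⊓ V := by
    refine ⟨?_, V.mul_mem (Subgroup.Normal.conj_mem inferInstance v hv y) (V.inv_mem hv)⟩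
    have : y * v * y⁻¹ * v⁻¹ = y * (v * y⁻¹ * v⁻¹) := by group
    rw [this]
    exact f.ker.mul_mem hy ((MonoidHom.normal_ker f).conj_mem _ (f.ker.inv_mem hy) v)
  rw [hinter, Subgroup.mem_bot] at hmem
  calc v * y = (y * v * y⁻¹ * v⁻¹) * (v * y) := by rw [hmem, one_mul]
    _ = y * v := by group

theorem gap_two (hn : C.n = 3) : C.IsGap 2 ∧ C.x 0 * C.x 2 * C.x 0 * C.x 2 = C.x 1 := by
  obtain ⟨k, hk⟩ := C.exists_gap (by omega)
  have := hk.lt
  have := hk.pos
  obtain rfl : k = 2 := by omega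
  refine ⟨hk, ?_⟩
  have hm := hk.c_mem
  rcases C.split_left (m := 0) (by omega) hm with h | h
  · rw [C.blk_zero, Subgroup.mem_bot] at h
    exact absurd h hk.c_ne_one
  · rw [C.blk_zero, Subgroup.mem_bot] at h
    have := eq_inv_of_mul_eq_one_right h
    rw [C.inv_x] at this
    exact this

theorem iso_four (hn : C.n = 3) : Nonempty (blk C.x 0 (C.n + 1) ≃* Equiv.Perm (Fin 4)) := by
  classical
  obtain ⟨hk, hc⟩ := C.gap_two hn
  have hcom := hk.com
  have r02 : C.x 0 * C.x 2 * C.x 0 = C.x 1 * C.x 2 := by rw [← hc, mul_assoc _ (C.x 2) (C.x 2), C.sq, mul_one]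
  have r13 : C.x 3 * C.x 1 * C.x 3 = C.x 1 * C.x 2 := by
    have h : C.x 1 * C.x 3 * C.x 1 * C.x 3 = C.x 2 := by
      have := congrArg (fun y => C.g ^ (1 : ℤ) * y * (C.g ^ (1 : ℤ))⁻¹) hc
      simp only [← MulAut.conj_apply, map_mul] at this
      simp only [MulAut.conj_apply, C.conj_zpow_x] at this
      simpa using this
    calc C.x 3 * C.x 1 * C.x 3 = C.x 1 * C.x 1 * (C.x 3 * C.x 1 * C.x 3) := by rw [C.sq, one_mul]
      _ = C.x 1 * (C.x 1 * C.x 3 * C.x 1 * C.x 3) := by group
      _ = C.x 1 * C.x 2 := by rw [h]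
  set V := blk C.x 1 2 with hVdef
  have hVn : blk C.x 0 (C.n + 1) ≤ Subgroup.normalizer (V : Set G) := C.normal_gen fun l h1 h2 => by
    refine invol_mem_normalizer rfl (C.sq l) ?_
    rintro _ ⟨j, ⟨hj1, hj2⟩, rfl⟩
    by_cases hd : l - j < 2 ∧ j - l < 2
    · rw [(hcom l j hd.1 hd.2).eq, mul_assoc, C.sq, mul_one]; exact C.mem_blk hj1 hj2
    · rcases (show (l = 0 ∧ j = 2) ∨ (l = 3 ∧ j = 1) by push_cast at hj2; omega) with ⟨rfl, rfl⟩ | ⟨rfl, rfl⟩
      · rw [r02]; exact mul_mem (C.mem_blk le_rfl (by norm_num)) (C.mem_blk (by omega) (by norm_num))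
      · rw [r13]; exact mul_mem (C.mem_blk le_rfl (by norm_num)) (C.mem_blk (by omega) (by norm_num))
  have hx1 : C.x 1 ∈ V := C.mem_blk le_rfl (by norm_num)
  have hx2 : C.x 2 ∈ V := C.mem_blk (by omega) (by norm_num)
  have hnc : ¬ Commute (C.x 0) (C.x 2) := hk.ncomm
  have hnc' : ¬ Commute (C.x 1) (C.x 3) := C.not_commute_shift hk.ncomm (by norm_num)
  have hD : blk C.x 1 (C.n - 1) ≤ Subgroup.centralizer (V : Set G) := fun y hy =>
    Subgroup.mem_centralizer_iff.2 fun v hv =>
      (C.blk_commute_blk hcom hv hy (by omega) (by omega)).eq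
  have hN := C.centralizer_inf_card (by omega) hVn hD
    (fun h => hnc (Subgroup.mem_centralizer_iff.1 h _ hx2).symm)
    (fun h => hnc' (by have := Subgroup.mem_centralizer_iff.1 h _ hx1; rwa [hn] at this))
    (fun h => by
      rw [hn] at h
      have h' := Subgroup.mem_centralizer_iff.1 h _ hx2
      apply hnc
      show C.x 0 * C.x 2 = C.x 2 * C.x 0
      have h32 : Commute (C.x 3) (C.x 2) := hcom _ _ (by omega) (by omega)
      have := congrArg (fun y => y * C.x ((3 : ℕ) : ℤ)) h'
      simp only [Nat.cast_ofNat] at this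
      rw [show C.x 0 * C.x 3 * C.x 2 * C.x 3 = C.x 0 * (C.x 3 * C.x 2) * C.x 3 by group, h32.eq,
        show C.x 0 * (C.x 2 * C.x 3) * C.x 3 = C.x 0 * C.x 2 * (C.x 3 * C.x 3) by group,
        show C.x 2 * (C.x 0 * C.x 3) * C.x 3 = C.x 2 * C.x 0 * (C.x 3 * C.x 3) by group, C.sq, mul_one,
        mul_one] at this
      exact this.symm)
  set H := blk C.x 0 (C.n + 1) with hH
  have hVH : V ≤ H := C.blk_mono (by omega) (by push_cast; omega)
  haveI : (V.subgroupOf H).Normal := (Subgroup.normal_subgroupOf_iff_le_normalizer hVH).mpr hVn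
  have hV4 : Nat.card (V.subgroupOf H) = 4 := by
    rw [Nat.card_congr (Subgroup.subgroupOfEquivOfLe hVH).toEquiv, hVdef, C.card_blk' _ (by omega)]; rfl
  have hcc : Subgroup.centralizer ((V.subgroupOf H : Subgroup H) : Set H) = V.subgroupOf H := by
    ext y
    rw [Subgroup.mem_subgroupOf]
    have e : V = H ⊓ Subgroup.centralizer (V : Set G) := by rw [hN, hn]
    constructor
    · intro hy
      rw [e]
      exact ⟨y.2, Subgroup.mem_centralizer_iff.2 fun v hv =>
        congrArg Subtype.val (Subgroup.mem_centralizer_iff.1 hy ⟨v, hVH hv⟩ hv)⟩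
    · intro hy
      rw [e] at hy
      exact Subgroup.mem_centralizer_iff.2 fun v hv =>
        Subtype.ext (Subgroup.mem_centralizer_iff.1 hy.2 v hv)
  have hcard : Nat.card H = 3 * 2 ^ 3 := by rw [hH, C.card_top, hn]
  obtain ⟨f, hf1, hf2, -⟩ := toS4 (V.subgroupOf H) hV4 3 hcard (by rw [hcc, hV4]; norm_num) (Or.inl le_rfl)
  have hinj : Function.Injective f := by
    rw [← MonoidHom.ker_eq_bot_iff, ← hf2, eq_comm, inf_eq_left, ← hcc]
    exact hf1
  exact ⟨MulEquiv.ofBijective f ((Nat.bijective_iff_injective_and_card f).2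
    ⟨hinj, by rw [hcard, Nat.card_perm, Nat.card_fin]; rfl⟩)⟩

theorem c_four (hn : C.n = 4) :
    C.IsGap 3 ∧ C.x 0 * C.x 3 * C.x 0 * C.x 3 = C.x 1 * C.x 2 := by
  obtain ⟨k, hk⟩ := C.exists_gap (by omega)
  have := hk.lt
  have := hk.bounds.1
  obtain rfl : k = 3 := by omega
  refine ⟨hk, ?_⟩
  have hcom := hk.com
  set c := C.x 0 * C.x 3 * C.x 0 * C.x 3 with hcdef
  have hm : c ∈ blk C.x 1 2 := hk.c_mem
  have hne : c ≠ 1 := hk.c_ne_one
  have h1 : ∀ y, y ∈ blk C.x 2 1 → y = 1 ∨ y = C.x 2 := by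
    intro y hy
    rcases C.split_left (m := 0) (by omega) hy with h | h <;> rw [C.blk_zero, Subgroup.mem_bot] at h
    · exact Or.inl h
    · refine Or.inr ?_
      have := eq_inv_of_mul_eq_one_right h
      rw [C.inv_x] at this
      exact this
  have hshift : C.x 1 * C.x 4 * C.x 1 * C.x 4 = C.g ^ (1 : ℤ) * c * (C.g ^ (1 : ℤ))⁻¹ := by
    rw [hcdef]
    simp only [← MulAut.conj_apply, map_mul]
    simp only [MulAut.conj_apply, C.conj_zpow_x]
    norm_num
  have hs41 : C.x 4 * C.x 1 * C.x 4 = C.x 1 * (C.x 1 * C.x 4 * C.x 1 * C.x 4) := by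
    rw [show C.x 1 * (C.x 1 * C.x 4 * C.x 1 * C.x 4) = (C.x 1 * C.x 1) * (C.x 4 * C.x 1 * C.x 4) by group,
      C.sq, one_mul]
  have hs03 : C.x 0 * C.x 3 * C.x 0 = c * C.x 3 := by rw [hcdef, mul_assoc (C.x 0 * C.x 3 * C.x 0), C.sq, mul_one]
  have hnc : ¬ Commute (C.x 0) (C.x 3) := hk.ncomm
  have hnc' : ¬ Commute (C.x 1) (C.x 4) := C.not_commute_shift hk.ncomm (by norm_num)
  -- the two excluded possibilities
  have bad : ∀ (i s l : ℤ), (i = 1 ∧ s = 0 ∧ l = 4) ∨ (i = 2 ∧ s = 1 ∧ l = 0) →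
      (∀ l', 0 ≤ l' → l' ≤ 4 → C.x l' ∈ Subgroup.normalizer (blk C.x i 2 : Set G)) →
      ∀ j, i ≤ j → j < i + 2 → ¬ Commute (C.x l) (C.x j) → False := by
    intro i s l hisl hnorm j hj1 hj2 hncom
    have hVn : blk C.x 0 (C.n + 1) ≤ Subgroup.normalizer (blk C.x i 2 : Set G) :=
      C.normal_gen fun l' h1 h2 => hnorm l' h1 (by omega)
    have heq := C.top_of_side (by omega) (i := s) (by omega)
      (N := blk C.x 0 (C.n + 1) ⊓ Subgroup.centralizer (blk C.x i 2 : Set G)) inf_le_left
      (le_inf (C.blk_mono (by omega) (by push_cast; omega)) (fun y hy => Subgroup.mem_centralizer_iff.2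
        fun v hv => (C.blk_commute_blk hcom hv hy (by omega) (by omega)).eq))
      (le_normalizer_inf_centralizer _ _ hVn)
    have hl : C.x l ∈ blk C.x 0 (C.n + 1) := C.mem_blk (by omega) (by push_cast; omega)
    rw [← heq] at hl
    exact hncom (Subgroup.mem_centralizer_iff.1 hl.2 _ (C.mem_blk hj1 (by push_cast; omega))).symm
  rcases C.split_left (m := 1) (by omega) hm with h | h
  · -- `c = x 2`
    exfalso
    have hc2 : c = C.x 2 := (h1 c h).resolve_left hne
    refine bad 2 1 0 (Or.inr ⟨rfl, rfl, rfl⟩) (fun l h0 h4 => ?_) 3 (by omega) (by omega) hnc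
    refine invol_mem_normalizer rfl (C.sq l) ?_
    rintro _ ⟨j, ⟨hj1, hj2⟩, rfl⟩
    by_cases hd : l - j < 3 ∧ j - l < 3
    · rw [(hcom l j hd.1 hd.2).eq, mul_assoc, C.sq, mul_one]; exact C.mem_blk hj1 hj2
    · obtain ⟨rfl, rfl⟩ : l = 0 ∧ j = 3 := by push_cast at hj2; omega
      rw [hs03, hc2]
      exact mul_mem (C.mem_blk le_rfl (by norm_num)) (C.mem_blk (by omega) (by norm_num))
  · rcases h1 _ h with hc1 | hc12
    · -- `c = x 1`
      exfalso
      have hc1' : c = C.x 1 := by
        have := eq_inv_of_mul_eq_one_right hc1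
        rw [C.inv_x] at this
        exact this
      refine bad 1 0 4 (Or.inl ⟨rfl, rfl, rfl⟩) (fun l h0 h4 => ?_) 1 le_rfl (by omega) (fun e => hnc' e.symm)
      refine invol_mem_normalizer rfl (C.sq l) ?_
      rintro _ ⟨j, ⟨hj1, hj2⟩, rfl⟩
      by_cases hd : l - j < 3 ∧ j - l < 3
      · rw [(hcom l j hd.1 hd.2).eq, mul_assoc, C.sq, mul_one]; exact C.mem_blk hj1 hj2
      · obtain ⟨rfl, rfl⟩ : l = 4 ∧ j = 1 := by push_cast at hj2; omega
        rw [hs41, hshift, hc1', C.conj_zpow_x]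
        exact mul_mem (C.mem_blk le_rfl (by norm_num)) (C.mem_blk (by norm_num) (by norm_num))
    · rw [← hc12, ← mul_assoc, C.sq, one_mul]

theorem iso_eight (hn : C.n = 4) :
    Nonempty (blk C.x 0 (C.n + 1) ≃* Equiv.Perm (Fin 4) × Multiplicative (ZMod 2)) := by
  classical
  obtain ⟨hk, hc⟩ := C.c_four hn
  have hcom := hk.com
  have c12 : Commute (C.x 1) (C.x 2) := hcom _ _ (by omega) (by omega)
  have c23 : Commute (C.x 2) (C.x 3) := hcom _ _ (by omega) (by omega)
  have c13 : Commute (C.x 1) (C.x 3) := hcom _ _ (by omega) (by omega)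
  have r03 : C.x 0 * C.x 3 * C.x 0 = C.x 1 * C.x 2 * C.x 3 := by
    rw [← hc, mul_assoc _ (C.x 3) (C.x 3), C.sq, mul_one]
  have c14 : C.x 1 * C.x 4 * C.x 1 * C.x 4 = C.x 2 * C.x 3 := by
    have := congrArg (fun y => C.g ^ (1 : ℤ) * y * (C.g ^ (1 : ℤ))⁻¹) hc
    simp only [← MulAut.conj_apply, map_mul] at this
    simp only [MulAut.conj_apply, C.conj_zpow_x] at this
    simpa using this
  have r14 : C.x 4 * C.x 1 * C.x 4 = C.x 1 * (C.x 2 * C.x 3) := by
    rw [← c14, show C.x 1 * (C.x 1 * C.x 4 * C.x 1 * C.x 4) = (C.x 1 * C.x 1) * (C.x 4 * C.x 1 * C.x 4) by group,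
      C.sq, one_mul]
  set v1 := C.x 1 * C.x 2 with hv1
  set v2 := C.x 2 * C.x 3 with hv2
  set H := blk C.x 0 (C.n + 1) with hH
  have hmH : ∀ l : ℤ, 0 ≤ l → l ≤ 4 → C.x l ∈ H := fun l h1 h2 => C.mem_blk h1 (by push_cast; omega)
  have hv1sq : v1 * v1 = 1 := C.blk_sq hcom (m := 2) (i := 1) (by omega)
    (mul_mem (C.mem_blk le_rfl (by norm_num)) (C.mem_blk (by omega) (by norm_num)))
  have hv2sq : v2 * v2 = 1 := C.blk_sq hcom (m := 2) (i := 2) (by omega)
    (mul_mem (C.mem_blk le_rfl (by norm_num)) (C.mem_blk (by omega) (by norm_num)))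
  have hv12 : Commute v1 v2 := ((c12.mul_right c13).mul_left ((Commute.refl (C.x 2)).mul_right c23))
  let V : Subgroup G :=
    { carrier := {1, v1, v2, v1 * v2}
      one_mem' := by simp
      mul_mem' := by
        have e1 : v1 * (v1 * v2) = v2 := by rw [← mul_assoc, hv1sq, one_mul]
        have e2 : v2 * (v1 * v2) = v1 := by rw [hv12.eq, ← mul_assoc, hv2sq, one_mul]
        have e3 : v1 * v2 * v1 = v2 := by rw [mul_assoc, ← hv12.eq, e1]
        have e4 : v1 * v2 * v2 = v1 := by rw [mul_assoc, hv2sq, mul_one]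
        have e5 : v1 * v2 * (v1 * v2) = 1 := by rw [← mul_assoc, e3, hv2sq]
        intro a b ha hb
        simp only [Set.mem_insert_iff, Set.mem_singleton_iff] at ha hb ⊢
        rcases ha with rfl | rfl | rfl | rfl <;> rcases hb with rfl | rfl | rfl | rfl <;>
          simp [hv1sq, hv2sq, e1, e2, e3, e4, e5, ← hv12.eq]
      inv_mem' := by
        intro a ha
        simp only [Set.mem_insert_iff, Set.mem_singleton_iff] at ha ⊢
        rcases ha with rfl | rfl | rfl | rfl
        · simp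
        · exact Or.inr (Or.inl (inv_eq_of_mul_eq_one_right hv1sq))
        · exact Or.inr (Or.inr (Or.inl (inv_eq_of_mul_eq_one_right hv2sq)))
        · refine Or.inr (Or.inr (Or.inr ?_))
          rw [mul_inv_rev, inv_eq_of_mul_eq_one_right hv1sq, inv_eq_of_mul_eq_one_right hv2sq, hv12.eq] }
  have hVclos : V = Subgroup.closure ({v1, v2} : Set G) := by
    refine le_antisymm ?_ ((Subgroup.closure_le _).2 ?_)
    · intro a ha
      have h1 : v1 ∈ Subgroup.closure ({v1, v2} : Set G) := Subgroup.subset_closure (by simp)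
      have h2 : v2 ∈ Subgroup.closure ({v1, v2} : Set G) := Subgroup.subset_closure (by simp)
      rcases ha with rfl | rfl | rfl | rfl
      · exact one_mem _
      · exact h1
      · exact h2
      · exact mul_mem h1 h2
    · rintro a (rfl | rfl) <;> simp [V]
  have hv1V : v1 ∈ V := by simp [V]
  have hv2V : v2 ∈ V := by simp [V]
  have hD3 : V ≤ blk C.x 1 3 := by
    rw [hVclos, Subgroup.closure_le]
    rintro a (rfl | rfl) <;>
      exact mul_mem (C.mem_blk (by omega) (by norm_num)) (C.mem_blk (by omega) (by norm_num))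
  have k0v1 : C.x 0 * v1 * C.x 0 = v1 := by
    have h : Commute (C.x 0) v1 := (hcom 0 1 (by omega) (by omega)).mul_right (hcom 0 2 (by omega) (by omega))
    rw [h.eq, mul_assoc, C.sq, mul_one]
  have k0v2 : C.x 0 * v2 * C.x 0 = v1 * v2 := by
    have h : Commute (C.x 0) (C.x 2) := hcom 0 2 (by omega) (by omega)
    calc C.x 0 * v2 * C.x 0 = (C.x 0 * C.x 2) * C.x 3 * C.x 0 := by rw [hv2]; group
      _ = C.x 2 * (C.x 0 * C.x 3 * C.x 0) := by rw [h.eq]; group
      _ = (C.x 2 * C.x 1) * C.x 2 * C.x 3 := by rw [r03, hv1]; group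
      _ = v1 * v2 := by rw [← c12.eq, hv1, hv2]; group
  have k4v2 : C.x 4 * v2 * C.x 4 = v2 := by
    have h : Commute (C.x 4) v2 := (hcom 4 2 (by omega) (by omega)).mul_right (hcom 4 3 (by omega) (by omega))
    rw [h.eq, mul_assoc, C.sq, mul_one]
  have k4v1 : C.x 4 * v1 * C.x 4 = v1 * v2 := by
    have h : Commute (C.x 4) (C.x 2) := hcom 4 2 (by omega) (by omega)
    calc C.x 4 * v1 * C.x 4 = C.x 4 * C.x 1 * (C.x 2 * C.x 4) := by rw [hv1]; group
      _ = (C.x 4 * C.x 1 * C.x 4) * C.x 2 := by rw [← h.eq]; group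
      _ = C.x 1 * C.x 2 * (C.x 3 * C.x 2) := by rw [r14, hv2]; group
      _ = v1 * v2 := by rw [← c23.eq]
  have hVn : H ≤ Subgroup.normalizer (V : Set G) := C.normal_gen fun l h1 h2 => by
    refine invol_mem_normalizer hVclos (C.sq l) ?_
    have hcases : l = 0 ∨ l = 4 ∨ (1 ≤ l ∧ l ≤ 3) := by omega
    rcases hcases with rfl | rfl | hl
    · rintro a (rfl | rfl)
      · rw [k0v1]; exact hv1V
      · rw [k0v2]; exact mul_mem hv1V hv2V
    · rintro a (rfl | rfl)
      · rw [k4v1]; exact mul_mem hv1V hv2V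
      · rw [k4v2]; exact hv2V
    · rintro a ha
      have ha' : a ∈ V := hVclos ▸ Subgroup.subset_closure ha
      have : Commute (C.x l) a := C.commute_blk (fun j a b => hcom _ _ (by omega) (by omega)) (hD3 ha')
      rw [this.eq, mul_assoc, C.sq, mul_one]
      exact ha'
  have hv1ne : v1 ≠ 1 := hc ▸ hk.c_ne_one
  have hv2ne : v2 ≠ 1 := c14 ▸ fun e => C.not_commute_shift hk.ncomm (i := 1) (j := 4) (by norm_num) (by
    rw [mul_eq_one_iff_eq_inv, C.inv_x] at e
    show C.x 1 * C.x 4 = C.x 4 * C.x 1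
    calc C.x 1 * C.x 4 = C.x 1 * C.x 4 * C.x 1 * C.x 1 := by rw [mul_assoc _ (C.x 1), C.sq, mul_one]
      _ = C.x 4 * C.x 1 := by rw [e])
  have hD : blk C.x 1 (C.n - 1) ≤ Subgroup.centralizer (V : Set G) := fun y hy =>
    Subgroup.mem_centralizer_iff.2 fun v hv =>
      (C.blk_commute_blk hcom (hD3 hv) hy (by omega) (by omega)).eq
  have hN := C.centralizer_inf_card (by omega) hVn hD
    (fun h => by
      have := Subgroup.mem_centralizer_iff.1 h _ hv2V
      rw [← this, mul_assoc, C.sq, mul_one] at k0v2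
      exact hv1ne (mul_eq_right.1 k0v2.symm))
    (fun h => by
      rw [hn] at h
      have := Subgroup.mem_centralizer_iff.1 h _ hv1V
      rw [Nat.cast_ofNat] at this
      rw [← this, mul_assoc, C.sq, mul_one] at k4v1
      exact hv2ne (mul_eq_left.1 k4v1.symm))
    (fun h => by
      rw [hn] at h
      have := Subgroup.mem_centralizer_iff.1 h _ hv2V
      rw [Nat.cast_ofNat] at this
      have h4 : C.x 4 * v2 = v2 * C.x 4 := by
        conv_rhs => rw [← k4v2, mul_assoc, mul_assoc, C.sq, mul_one]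
      rw [mul_assoc (C.x 0) (C.x 4) v2, h4, ← mul_assoc v2 (C.x 0) (C.x 4), ← mul_assoc (C.x 0) v2 (C.x 4)] at this
      have h0 : v2 * C.x 0 = C.x 0 * v2 := mul_right_cancel this
      rw [← h0, mul_assoc, C.sq, mul_one] at k0v2
      exact hv1ne (mul_eq_right.1 k0v2.symm))
  have hVH : V ≤ H := hD3.trans (C.blk_mono (by omega) (by push_cast; omega))
  haveI : (V.subgroupOf H).Normal := (Subgroup.normal_subgroupOf_iff_le_normalizer hVH).mpr hVn
  have hV4 : Nat.card (V.subgroupOf H) = 4 := by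
    rw [Nat.card_congr (Subgroup.subgroupOfEquivOfLe hVH).toEquiv, ← SetLike.coe_sort_coe, Nat.card_coe_set_eq]
    show ({1, v1, v2, v1 * v2} : Set G).ncard = 4
    have hne : v1 ≠ v2 := fun e => by
      rw [← e, k0v1, hv1sq] at k0v2
      exact hv1ne k0v2
    have hne3 : v1 * v2 ≠ 1 := fun e => hne (by
      rw [← inv_eq_of_mul_eq_one_right e, inv_eq_of_mul_eq_one_right hv1sq])
    rw [Set.ncard_insert_of_notMem (by simp [hv1ne.symm, hv2ne.symm, hne3.symm]) (Set.toFinite _),
      Set.ncard_insert_of_notMem (by simp [hne, hv2ne, fun e : v1 = v1 * v2 => hv2ne (mul_eq_left.1 e.symm)]) (Set.toFinite _),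
      Set.ncard_pair (fun e => hv1ne (mul_eq_right.1 e.symm))]
  set w : H := ⟨C.x 2, hmH 2 (by omega) (by omega)⟩ with hw
  have hwc : ∀ y : H, w * y = y * w := fun y => Subtype.ext
    (C.commute_blk (fun l h1 h2 => hcom 2 l (by push_cast at h2; omega) (by push_cast at h2; omega)) y.2).eq
  have hcD : ∀ y : H, y ∈ Subgroup.centralizer ((V.subgroupOf H : Subgroup H) : Set H) ↔
      (y : G) ∈ blk C.x 1 3 := by
    intro y
    rw [show blk C.x 1 3 = H ⊓ Subgroup.centralizer (V : Set G) by rw [hN, hn]]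
    constructor
    · exact fun hy => ⟨y.2, Subgroup.mem_centralizer_iff.2 fun v hv =>
        congrArg Subtype.val (Subgroup.mem_centralizer_iff.1 hy ⟨v, hVH hv⟩ hv)⟩
    · exact fun hy => Subgroup.mem_centralizer_iff.2 fun v hv =>
        Subtype.ext (Subgroup.mem_centralizer_iff.1 hy.2 v hv)
  have hcD' : Subgroup.centralizer ((V.subgroupOf H : Subgroup H) : Set H) = (blk C.x 1 3).subgroupOf H := by
    ext y; rw [hcD y, Subgroup.mem_subgroupOf]
  have hB3 : blk C.x 1 3 ≤ H := C.blk_mono (by omega) (by push_cast; omega)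
  have hcard : Nat.card H = 3 * 2 ^ 4 := by rw [hH, C.card_top, hn]
  obtain ⟨f, hf1, hf2, hf3⟩ := toS4 (V.subgroupOf H) hV4 4 hcard
    (by rw [hcD', Nat.card_congr (Subgroup.subgroupOfEquivOfLe hB3).toEquiv, C.card_blk' _ (by omega)]; norm_num)
    (Or.inr ⟨rfl, w, orderOf_eq_prime (Subtype.ext (by simpa [pow_two, hw] using C.sq 2))
      (fun e => C.x_ne_one (by omega) 2 (congrArg Subtype.val e)), hwc⟩)
  -- a homomorphism to a group of order two not killing `w`
  set P := (blk C.x 1 4).subgroupOf H with hPdef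
  have hPH : blk C.x 1 4 ≤ H := C.blk_mono (by omega) (by push_cast; omega)
  set M := (Subgroup.closure ({C.x 1, C.x 4} : Set G)) with hMdef
  have hMle : M ≤ blk C.x 1 4 := (Subgroup.closure_le _).2 (by
    rintro a (rfl | rfl) <;> exact C.mem_blk (by omega) (by norm_num))
  have hx1M : C.x 1 ∈ M := Subgroup.subset_closure (by simp)
  have hx4M : C.x 4 ∈ M := Subgroup.subset_closure (by simp)
  have hMcard : Nat.card M ≤ 8 := by
    let S : Set G := Set.range fun p : Fin 2 × Fin 2 × Fin 2 => C.x 1 ^ (p.1 : ℕ) * v2 ^ (p.2.1 : ℕ) * C.x 4 ^ (p.2.2 : ℕ)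
    have c1v : Commute (C.x 1) v2 := c12.mul_right c13
    have c4v : Commute (C.x 4) v2 := (hcom 4 2 (by omega) (by omega)).mul_right (hcom 4 3 (by omega) (by omega))
    have hr : C.x 4 * C.x 1 = C.x 1 * v2 * C.x 4 := by
      rw [hv2, ← r14, mul_assoc _ (C.x 4) (C.x 4), C.sq, mul_one]
    have hpow : ∀ (a : G), a * a = 1 → ∀ e : ℕ, a ^ e = a ^ (e % 2) := fun a ha e => by
      conv_lhs => rw [← Nat.mod_add_div e 2, pow_add, pow_mul, pow_two, ha, one_pow, mul_one]
    have hS : ∀ a b c : ℕ, C.x 1 ^ a * v2 ^ b * C.x 4 ^ c ∈ S := fun a b c =>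
      ⟨(⟨a % 2, Nat.mod_lt _ two_pos⟩, ⟨b % 2, Nat.mod_lt _ two_pos⟩, ⟨c % 2, Nat.mod_lt _ two_pos⟩), by
        simp only; rw [← hpow _ (C.sq 1), ← hpow _ hv2sq, ← hpow _ (C.sq 4)]⟩
    have hleft : ∀ s ∈ ({C.x 1, C.x 4} : Set G), ∀ y ∈ S, s * y ∈ S := by
      rintro s hs _ ⟨⟨a, b, c⟩, rfl⟩
      rcases hs with rfl | rfl
      · have := hS ((a : ℕ) + 1) b c
        rwa [pow_succ', mul_assoc (C.x 1), mul_assoc (C.x 1)] at this
      · fin_cases a
        · have := hS 0 b ((c : ℕ) + 1)
          rw [pow_zero, one_mul, pow_succ', ← mul_assoc, ← (c4v.pow_right _).eq] at this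
          simpa [mul_assoc] using this
        · have := hS 1 ((b : ℕ) + 1) ((c : ℕ) + 1)
          rw [pow_one, pow_succ', pow_succ'] at this
          simp only [pow_one]
          rw [show C.x 4 * (C.x 1 * v2 ^ (b : ℕ) * C.x 4 ^ (c : ℕ)) = (C.x 4 * C.x 1) * v2 ^ (b : ℕ) * C.x 4 ^ (c : ℕ) by group,
            hr, show C.x 1 * v2 * C.x 4 * v2 ^ (b : ℕ) * C.x 4 ^ (c : ℕ) = C.x 1 * v2 * (C.x 4 * v2 ^ (b : ℕ)) * C.x 4 ^ (c : ℕ) by group,
            (c4v.pow_right _).eq]
          simpa [mul_assoc] using this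
    have hMS : (M : Set G) ⊆ S := by
      intro y hy
      induction hy using Subgroup.closure_induction_left with
      | one => simpa using hS 0 0 0
      | mul_left s hs y _ ih => exact hleft s hs y ih
      | inv_mul_cancel s hs y _ ih =>
        have : s⁻¹ = s := by
          rcases hs with rfl | rfl <;> exact C.inv_x _
        rw [this]; exact hleft s hs y ih
    calc Nat.card M = (M : Set G).ncard := Nat.card_coe_set_eq _
      _ ≤ S.ncard := Set.ncard_le_ncard hMS (Set.toFinite _)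
      _ ≤ Nat.card (Fin 2 × Fin 2 × Fin 2) := by
        rw [← Nat.card_coe_set_eq]
        exact Finite.card_range_le _
      _ = 8 := by simp
  have hwM : C.x 2 ∉ M := by
    intro hw2
    have hm : v2 ∈ M := by
      rw [← c14]
      exact mul_mem (mul_mem (mul_mem hx1M hx4M) hx1M) hx4M
    have hx3 : C.x 3 ∈ M := by
      have := mul_mem hw2 hm
      rwa [hv2, ← mul_assoc, C.sq, one_mul] at this
    have hle : blk C.x 1 4 ≤ M := C.blk_le fun l h1 h2 => by
      rcases (show l = 1 ∨ l = 2 ∨ l = 3 ∨ l = 4 by push_cast at h2; omega) with rfl | rfl | rfl | rfl <;>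
        assumption
    have := Subgroup.card_le_of_le hle
    rw [C.card_blk' _ (by omega)] at this
    omega
  have hMidx : 2 * Nat.card M = Nat.card (blk C.x 1 4) := by
    have h16 : Nat.card (blk C.x 1 4) = 16 := by rw [C.card_blk' _ (by omega)]; norm_num
    obtain ⟨t, ht⟩ := Subgroup.card_dvd_of_le hMle
    rw [h16] at ht ⊢
    -- `M` together with `w` gives everything
    by_contra h2
    have hsup : blk C.x 1 4 ≤ M ⊔ Subgroup.zpowers (C.x 2) := C.blk_le fun l h1 h2 => by
      have hw' : C.x 2 ∈ M ⊔ Subgroup.zpowers (C.x 2) := Subgroup.mem_sup_right (Subgroup.mem_zpowers _)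
      rcases (show l = 1 ∨ l = 2 ∨ l = 3 ∨ l = 4 by push_cast at h2; omega) with rfl | rfl | rfl | rfl
      · exact Subgroup.mem_sup_left hx1M
      · exact hw'
      · have hm : v2 ∈ M ⊔ Subgroup.zpowers (C.x 2) := Subgroup.mem_sup_left (by
          rw [← c14]; exact mul_mem (mul_mem (mul_mem hx1M hx4M) hx1M) hx4M)
        have := mul_mem hw' hm
        rwa [hv2, ← mul_assoc, C.sq, one_mul] at this
      · exact Subgroup.mem_sup_left hx4M
    have hcent2 : M ≤ Subgroup.normalizer (Subgroup.zpowers (C.x 2) : Set G) := fun y hy => by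
      refine mem_normalizer_of_cg ?_
      rw [cg, MonoidHom.map_zpowers]
      congr 1
      show y * C.x 2 * y⁻¹ = C.x 2
      have := C.commute_blk (z := C.x 2) (i := 1) (m := 4) (fun l a b => hcom 2 l (by omega) (by omega)) (hMle hy)
      rw [← this.eq, mul_inv_cancel_right]
    have hprod : (blk C.x 1 4 : Set G) ⊆ (M : Set G) * (Subgroup.zpowers (C.x 2) : Set G) := by
      rw [← Subgroup.coe_mul_of_left_le_normalizer_right M _ hcent2]
      exact hsup
    have hz2 : Nat.card (Subgroup.zpowers (C.x 2)) = 2 := by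
      rw [Nat.card_zpowers]
      exact orderOf_eq_prime (by rw [pow_two, C.sq]) (C.x_ne_one (by omega) 2)
    have := (Set.ncard_le_ncard hprod (Set.toFinite _)).trans Set.natCard_mul_le
    rw [← Nat.card_coe_set_eq] at this
    simp only [SetLike.coe_sort_coe] at this
    rw [h16, hz2] at this
    omega
  let φ : P →* Multiplicative (ZMod 2) :=
    { toFun := fun y => if ((y : H) : G) ∈ M then 1 else Multiplicative.ofAdd 1
      map_one' := by simp [M.one_mem]
      map_mul' := fun y z => by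
        have hy : ((y : H) : G) ∈ blk C.x 1 4 := y.2
        have hz : ((z : H) : G) ∈ blk C.x 1 4 := z.2
        by_cases h1 : ((y : H) : G) ∈ M <;> by_cases h2 : ((z : H) : G) ∈ M
        · simp [h1, h2, mul_mem h1 h2]
        · have : ¬ ((y : H) : G) * (z : H) ∈ M := fun h => h2 (by simpa using mul_mem (inv_mem h1) h)
          simp [h1, h2, this]
        · have : ¬ ((y : H) : G) * (z : H) ∈ M := fun h => h1 (by simpa using mul_mem h (inv_mem h2))
          simp [h1, h2, this]
        · have : ((y : H) : G) * (z : H) ∈ M := mul_mem_of_card_two_mul hMle hMidx hy hz h1 h2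
          simp [h1, h2, this]
          decide }
  set χ := MonoidHom.transfer φ with hχ
  have hχw : χ w = Multiplicative.ofAdd 1 := by
    have hidx : P.index = 3 := by
      have := P.index_mul_card
      rw [Nat.card_congr (Subgroup.subgroupOfEquivOfLe hPH).toEquiv, C.card_blk' _ (by omega), hcard] at this
      omega
    rw [hχ, MonoidHom.transfer_eq_pow φ w (fun k g₀ _ => by
      rw [mul_assoc, ← (show Commute w g₀ from hwc g₀).pow_left k |>.symm.eq, inv_mul_cancel_left])]
    show (if ((w ^ P.index : H) : G) ∈ M then _ else _) = _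
    rw [hidx, SubmonoidClass.coe_pow, pow_succ, pow_two, hw, C.sq, one_mul, if_neg hwM]
  have hinj : Function.Injective (f.prod χ) := by
    rw [← MonoidHom.ker_eq_bot_iff, Subgroup.eq_bot_iff_forall]
    intro y hy
    obtain ⟨hyf, hyχ⟩ : f y = 1 ∧ χ y = 1 := Prod.ext_iff.1 hy
    -- the centraliser of `V` is `V × ⟨w⟩`
    have hyD := (hcD y).1 (hf1 hyf)
    have hv : y ∈ V.subgroupOf H ∨ w * y ∈ V.subgroupOf H := by
      rw [Subgroup.mem_subgroupOf, Subgroup.mem_subgroupOf]
      have hVD : 2 * Nat.card V = Nat.card (blk C.x 1 3) := by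
        rw [Nat.card_congr (Subgroup.subgroupOfEquivOfLe hVH).toEquiv] at hV4
        rw [hV4, C.card_blk' _ (by omega)]; norm_num
      have hwV : C.x 2 ∉ V := by
        intro h
        have hx : C.x 0 * C.x 2 * C.x 0 = C.x 2 := by
          rw [(hcom 0 2 (by omega) (by omega)).eq, mul_assoc, C.sq, mul_one]
        rcases h with h | h | h | h
        · exact C.x_ne_one (by omega) 2 h
        · exact C.x_ne_one (by omega) 1 (mul_eq_right.1 h.symm)
        · exact C.x_ne_one (by omega) 3 (mul_eq_left.1 h.symm)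
        · rw [h] at hx
          have e : C.x 0 * (v1 * v2) * C.x 0 = (C.x 0 * v1 * C.x 0) * (C.x 0 * v2 * C.x 0) := by
            rw [show C.x 0 * v1 * C.x 0 * (C.x 0 * v2 * C.x 0) = C.x 0 * v1 * (C.x 0 * C.x 0) * v2 * C.x 0 by group,
              C.sq]
            group
          rw [e, k0v1, k0v2] at hx
          exact hv1ne (mul_eq_right.1 (mul_left_cancel hx))
      by_cases hyV : (y : G) ∈ V
      · exact Or.inl hyV
      · exact Or.inr (mul_mem_of_card_two_mul (hD3) hVD (C.mem_blk (by omega) (by norm_num)) hyD hwV hyV)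
    rcases hv with hv | hv
    · exact Subgroup.mem_bot.1 (hf2 ▸ ⟨hyf, hv⟩)
    · exfalso
      have hfw : w * y ∈ f.ker := mul_mem (hf3 w hwc) hyf
      have : w * y = 1 := Subgroup.mem_bot.1 (hf2 ▸ ⟨hfw, hv⟩)
      rw [← inv_eq_of_mul_eq_one_right this, map_inv, hχw] at hyχ
      exact absurd hyχ (by decide)
  exact ⟨MulEquiv.ofBijective (f.prod χ) ((Nat.bijective_iff_injective_and_card _).2
    ⟨hinj, by rw [hcard, Nat.card_prod, Nat.card_perm, Nat.card_fin]; simp [Nat.factorial]⟩)⟩

end Chain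

end Cfsg.Agent.H81.Cubic
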