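import Mathlib

/-!
Extensions of a group by 2-modules on which the odd-order elements act freely
have the prime graph of the group.
-/

namespace Cfsg.Agent.H81

open SemidirectProduct

/-- `H` has the same prime divisors and prime graph as `L`. -/
def SamePrimeGraph (L H : Type*) [Group L] [Group H] : Prop :=
  (∀ p : ℕ, p.Prime → (p ∣ Nat.card L ↔ p ∣ Nat.card H)) ∧
  (∀ p q : ℕ, p.Prime → q.Prime → p ≠ q →
    ((∃ g : L, orderOf g = p * q) ↔ (∃ g : H, orderOf g = p * q)))

/-- A split extension by a 2-group on which odd-order elements act freely keeps the prime graph. -/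
theorem samePrimeGraph_semidirect {L M : Type*} [Group L] [Finite L] [CommGroup M] [Finite M]
    (φ : L →* MulAut M) (h2 : ∀ m : M, m * m = 1) (hL2 : 2 ∣ Nat.card L)
    (hfree : ∀ g : L, Odd (orderOf g) → g ≠ 1 → ∀ m : M, φ g m = m → m = 1) :
    SamePrimeGraph L (M ⋊[φ] L) := by
  have hM : IsPGroup 2 M := fun m => ⟨1, by rw [pow_one, pow_two]; exact h2 m⟩
  refine ⟨fun p hp => ?_, fun p q hp hq hpq => ?_⟩
  · rw [SemidirectProduct.card]
    refine ⟨fun h => dvd_mul_of_dvd_right h _, fun h => ?_⟩
    rcases (Nat.Prime.dvd_mul hp).mp h with h | h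
    · haveI : Fact (Nat.Prime 2) := ⟨Nat.prime_two⟩
      obtain ⟨n, hn⟩ := IsPGroup.iff_card.mp hM
      rw [hn] at h
      have := (Nat.prime_dvd_prime_iff_eq hp Nat.prime_two).mp (hp.dvd_of_dvd_pow h)
      exact this ▸ hL2
    · exact h
  constructor
  · rintro ⟨g, hg⟩
    exact ⟨inr g, by rw [orderOf_injective inr inr_injective]; exact hg⟩
  · rintro ⟨x, hx⟩
    have hdvd : orderOf x.right ∣ p * q := hx ▸ orderOf_map_dvd rightHom x
    set k := orderOf x.right with hk
    have hy : (x ^ k).right = 1 := by
      change rightHom (x ^ k) = 1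
      rw [map_pow]; exact pow_orderOf_eq_one x.right
    have hy2 : x ^ (2 * k) = 1 := by
      have he : x ^ k = inl (x ^ k).left := by
        conv_lhs => rw [← inl_left_mul_inr_right (x ^ k)]
        rw [hy, map_one, mul_one]
      rw [mul_comm, pow_mul, he, ← map_pow, pow_two, h2, map_one]
    have hdvd2 : p * q ∣ 2 * k := hx ▸ orderOf_dvd_of_pow_eq_one hy2
    by_cases hkk : k = p * q
    · exact ⟨x.right, hkk⟩
    exfalso
    obtain ⟨c, hc⟩ := hdvd
    have hc2 : c ∣ 2 := by
      have : k * c ∣ k * 2 := by rw [← hc, mul_comm k 2]; exact hdvd2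
      exact (Nat.mul_dvd_mul_iff_left (orderOf_pos _)).mp this
    rcases (Nat.dvd_prime Nat.prime_two).mp hc2 with rfl | rfl
    · exact hkk (by rw [hc, mul_one])
    have hkodd : Odd k ∧ k ≠ 1 := by
      have h' : p = 2 ∨ q = 2 := by
        have : 2 ∣ p * q := ⟨k, by rw [hc, mul_comm]⟩
        rcases (Nat.Prime.dvd_mul Nat.prime_two).mp this with h | h
        · exact Or.inl ((Nat.prime_dvd_prime_iff_eq Nat.prime_two hp).mp h).symm
        · exact Or.inr ((Nat.prime_dvd_prime_iff_eq Nat.prime_two hq).mp h).symm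
      rcases h' with rfl | rfl
      · have : k = q := by omega
        exact ⟨this ▸ hq.odd_of_ne_two hpq.symm, this ▸ hq.ne_one⟩
      · have : k = p := by omega
        exact ⟨this ▸ hp.odd_of_ne_two hpq, this ▸ hp.ne_one⟩
    have hne : x.right ≠ 1 := fun h => hkodd.2 (by rw [hk, h, orderOf_one])
    have hcomm : x * x ^ k = x ^ k * x := (Commute.self_pow x k).eq
    have hl := congrArg SemidirectProduct.left hcomm
    rw [SemidirectProduct.mul_left, SemidirectProduct.mul_left, hy, map_one] at hl
    have hm : φ x.right (x ^ k).left = (x ^ k).left := by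
      simp only [MulAut.one_apply] at hl
      rw [mul_comm (x ^ k).left x.left] at hl
      exact mul_left_cancel hl
    have hone : x ^ k = 1 := SemidirectProduct.ext (hfree _ hkodd.1 hne _ hm) hy
    have := orderOf_dvd_of_pow_eq_one hone
    rw [hx, hc] at this
    have := Nat.le_of_dvd (orderOf_pos _) this
    have := orderOf_pos x.right
    omega

/-- In characteristic 2, a 2×2 matrix of determinant 1 with a fixed nonzero vector squares to 1. -/
theorem sl_two_sq_eq_one_of_fixed {F : Type*} [Field F] [CharP F 2]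
    (A : Matrix (Fin 2) (Fin 2) F) (hd : A.det = 1) (v : Fin 2 → F) (hv : v ≠ 0)
    (hAv : A.mulVec v = v) : A * A = 1 := by
  have h2 : (2 : F) = 0 := CharTwo.two_eq_zero
  have hdet : (A - 1).det = 0 := Matrix.exists_mulVec_eq_zero_iff.mp
    ⟨v, hv, by rw [Matrix.sub_mulVec, hAv, Matrix.one_mulVec, sub_self]⟩
  rw [Matrix.det_fin_two] at hd hdet
  simp only [Matrix.sub_apply, Matrix.one_apply_eq, ne_eq, zero_ne_one, one_ne_zero,
    not_false_eq_true, Matrix.one_apply_ne, sub_zero] at hdet
  have ht : A 0 0 + A 1 1 = 0 := by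
    linear_combination hd - hdet + h2
  ext i j
  fin_cases i <;> fin_cases j <;>
    simp only [Matrix.mul_apply, Fin.sum_univ_two, Matrix.one_apply, Fin.zero_eta, Fin.mk_one,
      Fin.isValue, zero_ne_one, one_ne_zero, ↓reduceIte]
  · linear_combination A 0 0 * ht - hd
      - h2
  · linear_combination A 0 1 * ht
  · linear_combination A 1 0 * ht
  · linear_combination A 1 1 * ht - hd
      - h2

variable (F : Type*) [Field F]

/-- The coordinatewise linear action of `SL₂` on `N` copies of the natural module. -/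
def natModuleAut (N : ℕ) :
    Matrix.SpecialLinearGroup (Fin 2) F →* MulAut (Multiplicative (Fin N → Fin 2 → F)) where
  toFun g :=
    { toFun := fun x => .ofAdd fun i => (g : Matrix (Fin 2) (Fin 2) F).mulVec (x.toAdd i)
      invFun := fun x => .ofAdd fun i =>
        (↑(g⁻¹) : Matrix (Fin 2) (Fin 2) F).mulVec (x.toAdd i)
      left_inv := fun x => by
        apply Multiplicative.toAdd.injective
        funext i
        simp only [toAdd_ofAdd, Matrix.mulVec_mulVec, ← Matrix.SpecialLinearGroup.coe_mul,
          inv_mul_cancel, Matrix.SpecialLinearGroup.coe_one, Matrix.one_mulVec]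
      right_inv := fun x => by
        apply Multiplicative.toAdd.injective
        funext i
        simp only [toAdd_ofAdd, Matrix.mulVec_mulVec, ← Matrix.SpecialLinearGroup.coe_mul,
          mul_inv_cancel, Matrix.SpecialLinearGroup.coe_one, Matrix.one_mulVec]
      map_mul' := fun x y => by
        apply Multiplicative.toAdd.injective
        funext i
        simp only [toAdd_mul, toAdd_ofAdd, Pi.add_apply, Matrix.mulVec_add] }
  map_one' := by
    ext x
    simp
  map_mul' g h := by
    refine MulEquiv.ext fun x => ?_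
    apply Multiplicative.toAdd.injective
    funext i
    change (↑(g * h) : Matrix (Fin 2) (Fin 2) F).mulVec (x.toAdd i) =
      (g : Matrix (Fin 2) (Fin 2) F).mulVec ((h : Matrix (Fin 2) (Fin 2) F).mulVec (x.toAdd i))
    rw [Matrix.SpecialLinearGroup.coe_mul, Matrix.mulVec_mulVec]

/-- In characteristic 2, `SL₂(q)` has split extensions of unbounded order with the same prime graph. -/
theorem exists_big_samePrimeGraph_sl_two [Finite F] [CharP F 2] (N : ℕ) :
    ∃ (H : Type) (_ : Group H) (_ : Finite H), N < Nat.card H ∧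
      SamePrimeGraph (Matrix.SpecialLinearGroup (Fin 2) F) H := by
  classical
  let φ := natModuleAut F (N + 1)
  let X := Multiplicative (Fin (N + 1) → Fin 2 → F) ⋊[φ] Matrix.SpecialLinearGroup (Fin 2) F
  haveI : Fintype F := Fintype.ofFinite F
  haveI : Finite X := Finite.of_equiv _ SemidirectProduct.equivProd.symm
  let v : {x : Fin (Nat.card X) // True} ≃ X :=
    (Equiv.subtypeUnivEquiv fun _ => trivial).trans (Finite.equivFin X).symm
  letI : Group {x : Fin (Nat.card X) // True} := v.group
  let e : {x : Fin (Nat.card X) // True} ≃* X :=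
    { v with map_mul' := fun a b => v.apply_symm_apply _ }
  refine ⟨{x : Fin (Nat.card X) // True}, inferInstance, inferInstance, ?_, ?_⟩
  · rw [Nat.card_congr v, SemidirectProduct.card]
    have h1 : N < Nat.card (Multiplicative (Fin (N + 1) → Fin 2 → F)) := by
      rw [Nat.card_congr Multiplicative.toAdd, Nat.card_fun, Nat.card_fin]
      refine lt_of_lt_of_le (Nat.lt_succ_self N) (le_of_lt ?_)
      refine Nat.lt_pow_self ?_
      exact Finite.one_lt_card
    exact lt_of_lt_of_le h1 (Nat.le_mul_of_pos_right _ Nat.card_pos)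
  have hL2 : 2 ∣ Nat.card (Matrix.SpecialLinearGroup (Fin 2) F) := by
    let u : Matrix.SpecialLinearGroup (Fin 2) F :=
      ⟨!![1, 1; 0, 1], by simp [Matrix.det_fin_two]⟩
    have hu : u ^ 2 = 1 := by
      rw [pow_two]
      apply Subtype.ext
      rw [Matrix.SpecialLinearGroup.coe_mul, Matrix.SpecialLinearGroup.coe_one]
      ext i j
      fin_cases i <;> fin_cases j <;>
        simp [u, Matrix.mul_apply, Fin.sum_univ_two, CharTwo.add_self_eq_zero]
    have hu1 : u ≠ 1 := fun h => by
      have := congrFun (congrFun (congrArg Subtype.val h) 0) 1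
      simp [u] at this
    have := orderOf_dvd_natCard u
    rwa [orderOf_eq_prime hu hu1] at this
  have key := samePrimeGraph_semidirect φ (fun m => by
      apply Multiplicative.toAdd.injective
      funext i j
      simp [CharTwo.add_self_eq_zero]) hL2 (fun g hg hg1 m hm => by
      by_contra hm1
      obtain ⟨i, hi⟩ : ∃ i, m.toAdd i ≠ 0 := by
        by_contra hc
        exact hm1 (Multiplicative.toAdd.injective (funext fun i => not_not.mp (not_exists.mp hc i)))
      have hfix := congrFun (congrArg Multiplicative.toAdd hm) i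
      have hsq := sl_two_sq_eq_one_of_fixed g.1 g.2 (m.toAdd i) hi hfix
      have hg2 : g ^ 2 = 1 := Subtype.ext (by rw [pow_two]; exact hsq)
      rcases (Nat.dvd_prime Nat.prime_two).mp (orderOf_dvd_of_pow_eq_one hg2) with h | h
      · exact hg1 (orderOf_eq_one_iff.mp h)
      · rw [h] at hg; exact absurd hg (by decide))
  refine ⟨fun p hp => ?_, fun p q hp hq hpq => ?_⟩
  · rw [key.1 p hp, Nat.card_congr v]
  · rw [key.2 p q hp hq hpq]
    exact ⟨fun ⟨x, hx⟩ => ⟨e.symm x, (e.symm.orderOf_eq x).trans hx⟩,
      fun ⟨x, hx⟩ => ⟨e x, (e.orderOf_eq x).trans hx⟩⟩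

end Cfsg.Agent.H81
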