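import Mathlib

/-!
# Short presentations of `SL₂(q)`: words in the unipotent subgroup and the counting argument
-/

set_option autoImplicit false

namespace Cfsg.Agent.H81.SLPres

open Polynomial

section Words

variable {X : Type*} [Group X]

/-- The conjugate of `u` by the `i`-th power of `h`. -/
def cj (u h : X) (i : ℕ) : X := h ^ i * u * (h ^ i)⁻¹

theorem cj_zero (u h : X) : cj u h 0 = u := by simp [cj]

theorem cj_add (u h : X) (i l : ℕ) : cj u h (i + l) = h ^ i * cj u h l * (h ^ i)⁻¹ := by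
  simp only [cj, pow_add]; group

theorem cj_succ (u h : X) (i : ℕ) : cj u h (i + 1) = h * cj u h i * h⁻¹ := by
  rw [add_comm, cj_add, pow_one]

theorem map_cj {Y : Type*} [Group Y] (f : X →* Y) (u h : X) (i : ℕ) :
    f (cj u h i) = cj (f u) (f h) i := by
  simp [cj]

variable {p : ℕ}

/-- The word attached to a polynomial over `ZMod p`. -/
noncomputable def wd (u h : X) (P : (ZMod p)[X]) : X :=
  ((List.range (P.natDegree + 1)).map fun i => cj u h i ^ (P.coeff i).val).prod

theorem map_wd {Y : Type*} [Group Y] (f : X →* Y) (u h : X) (P : (ZMod p)[X]) :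
    f (wd u h P) = wd (f u) (f h) P := by
  simp [wd, map_list_prod, Function.comp_def, map_cj]

theorem prod_range_eq {V : Type*} [AddCommMonoid V] (e : V → X) (h0 : e 0 = 1)
    (hadd : ∀ x y, e (x + y) = e x * e y) (f : ℕ → V) (g : ℕ → X) (hfg : ∀ i, e (f i) = g i) (n : ℕ) :
    e (∑ i ∈ Finset.range n, f i) = ((List.range n).map g).prod := by
  induction n with
  | zero => simpa using h0
  | succ n ih => rw [Finset.sum_range_succ, hadd, ih, List.range_succ, List.map_append, List.prod_append, hfg]; simp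

/-- A subgroup generated by commuting elements is commutative. -/
theorem closure_comm {s : Set X} (hs : ∀ x ∈ s, ∀ y ∈ s, x * y = y * x) :
    ∀ x ∈ Subgroup.closure s, ∀ y ∈ Subgroup.closure s, x * y = y * x := by
  have h1 : Subgroup.closure s ≤ Subgroup.centralizer s := by
    rw [Subgroup.closure_le]
    intro x hx
    exact Subgroup.mem_centralizer_iff.2 fun y hy => hs y hy x hx
  have h2 : Subgroup.closure s ≤ Subgroup.centralizer (Subgroup.closure s : Set X) := by
    rw [Subgroup.closure_le]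
    intro x hx
    exact Subgroup.mem_centralizer_iff.2 fun y hy => (Subgroup.mem_centralizer_iff.1 (h1 hy) x hx).symm
  intro x hx y hy
  exact (Subgroup.mem_centralizer_iff.1 (h2 hx) y hy).symm

/-- A subgroup generated by commuting elements of exponent `n` has exponent `n`. -/
theorem closure_pow_eq_one {s : Set X} (hs : ∀ x ∈ s, ∀ y ∈ s, x * y = y * x) {n : ℕ}
    (hn : ∀ x ∈ s, x ^ n = 1) : ∀ x ∈ Subgroup.closure s, x ^ n = 1 := by
  intro x hx
  induction hx using Subgroup.closure_induction with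
  | mem x hx => exact hn x hx
  | one => exact one_pow n
  | mul x y hx hy ihx ihy => rw [Commute.mul_pow (closure_comm hs x hx y hy), ihx, ihy, one_mul]
  | inv x hx ih => rw [inv_pow, ih, inv_one]

/-- A subgroup generated by a set is mapped into `U` by a conjugation as soon as the set is. -/
theorem closure_conj_mem {s : Set X} {U : Subgroup X} (h : X) (hs : ∀ x ∈ s, h * x * h⁻¹ ∈ U) :
    ∀ x ∈ Subgroup.closure s, h * x * h⁻¹ ∈ U := fun x hx =>
  (Subgroup.closure_le (U.comap (MulAut.conj h).toMonoidHom)).2 (fun y hy => hs y hy) hx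

theorem wd_props_aux [Fact p.Prime] (u h : X) {V : Type*} [AddCommGroup V] [Module (ZMod p) V]
    (e : V → X) (hadd : ∀ x y, e (x + y) = e x * e y) (he : Function.Injective e)
    (T : Module.End (ZMod p) V) (hT : ∀ x, e (T x) = h * e x * h⁻¹) (v : V) (hv : e v = u) :
    (∀ P Q : (ZMod p)[X], wd u h (P + Q) = wd u h P * wd u h Q) ∧
    (∀ i : ℕ, wd u h ((Polynomial.X : (ZMod p)[X]) ^ i) = cj u h i) ∧
    (∀ P Q : (ZMod p)[X], wd u h P = 1 → wd u h (Q * P) = 1) ∧
    (∀ P : (ZMod p)[X], h * wd u h P * h⁻¹ = wd u h (Polynomial.X * P)) := by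
  have e0 : e 0 = 1 := by simpa using hadd 0 0
  have hTi : ∀ i : ℕ, e ((T ^ i) v) = cj u h i := by
    intro i
    induction i with
    | zero => rw [cj_zero, pow_zero]; exact hv
    | succ i ih => rw [pow_succ', Module.End.mul_apply, hT, ih, cj_succ]
  have hnat : ∀ (n : ℕ) (x : V), e (n • x) = e x ^ n := by
    intro n x
    induction n with
    | zero => simp [e0]
    | succ n ih => rw [succ_nsmul, hadd, ih, pow_succ]
  have hsmul : ∀ (c : ZMod p) (x : V), e (c • x) = e x ^ c.val := fun c x => by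
    rw [← hnat, ← Nat.cast_smul_eq_nsmul (ZMod p), ZMod.natCast_zmod_val]
  have key : ∀ P : (ZMod p)[X], e (Polynomial.aeval T P v) = wd u h P := by
    intro P
    rw [Polynomial.aeval_eq_sum_range, LinearMap.sum_apply]
    exact prod_range_eq e e0 hadd _ _ (fun i => by rw [LinearMap.smul_apply, hsmul, hTi]) _
  refine ⟨fun P Q => ?_, fun i => ?_, fun P Q hP => ?_, fun P => ?_⟩
  · rw [← key, ← key, ← key, map_add, LinearMap.add_apply, hadd]
  · rw [← key, map_pow, Polynomial.aeval_X, hTi]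
  · rw [← key, map_mul, Module.End.mul_apply,
      show Polynomial.aeval T P v = 0 from he (by rw [key, hP, e0]), map_zero, e0]
  · rw [← key, ← key, map_mul, Polynomial.aeval_X, Module.End.mul_apply, hT]

/-- Behaviour of words inside an abelian subgroup of exponent `p` stable under `h`. -/
theorem wd_props [Fact p.Prime] (u h : X) (U : Subgroup X) (hc : ∀ x ∈ U, ∀ y ∈ U, x * y = y * x)
    (hp : ∀ x ∈ U, x ^ p = 1) (hu : u ∈ U) (hh : ∀ x ∈ U, h * x * h⁻¹ ∈ U) :
    (∀ P Q : (ZMod p)[X], wd u h (P + Q) = wd u h P * wd u h Q) ∧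
    (∀ i : ℕ, wd u h ((Polynomial.X : (ZMod p)[X]) ^ i) = cj u h i) ∧
    (∀ P Q : (ZMod p)[X], wd u h P = 1 → wd u h (Q * P) = 1) ∧
    (∀ P : (ZMod p)[X], h * wd u h P * h⁻¹ = wd u h (Polynomial.X * P)) := by
  letI : CommGroup U := { (inferInstance : Group U) with mul_comm := fun x y => Subtype.ext (hc x x.2 y y.2) }
  letI : Module (ZMod p) (Additive U) := AddCommGroup.zmodModule fun x => by
    apply Additive.toMul.injective
    show (Additive.toMul x) ^ p = 1
    exact Subtype.ext (by simpa using hp _ (Additive.toMul x).2)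
  let T0 : Additive U →+ Additive U := MonoidHom.toAdditive
    { toFun := fun x => ⟨h * x * h⁻¹, hh x x.2⟩
      map_one' := Subtype.ext (by simp)
      map_mul' := fun x y => Subtype.ext (by push_cast; group) }
  exact wd_props_aux u h (fun x : Additive U => ((Additive.toMul x : U) : X)) (fun x y => rfl)
    (fun x y hxy => Additive.toMul.injective (Subtype.ext hxy)) (T0.toZModLinearMap p)
    (fun x => rfl) (Additive.ofMul ⟨u, hu⟩) rfl

end Words

section Field

variable {X : Type*} [Group X] {F : Type*} [Field F]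

/-- A parametrisation of the unipotent subgroup. -/
structure IsPhi (b : F) (u h : X) (φ : F → X) : Prop where
  add : ∀ c d, φ (c + d) = φ c * φ d
  one : φ 1 = u
  conj : ∀ c, h * φ c * h⁻¹ = φ (b * c)

namespace IsPhi

variable {b : F} {u h : X} {φ : F → X} (H : IsPhi b u h φ)

include H

theorem zero : φ 0 = 1 := by
  have := H.add 0 0
  rw [add_zero] at this
  simpa using this

theorem neg (c : F) : φ (-c) = (φ c)⁻¹ := by
  rw [← mul_eq_one_iff_eq_inv, ← H.add, neg_add_cancel, H.zero]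

theorem conj_pow (i : ℕ) (c : F) : h ^ i * φ c * (h ^ i)⁻¹ = φ (b ^ i * c) := by
  induction i with
  | zero => simp
  | succ i ih =>
    rw [show b ^ (i + 1) * c = b * (b ^ i * c) by ring, ← H.conj, ← ih, pow_succ']
    group

theorem conj_zpow (hb : b ≠ 0) (i : ℤ) (c : F) : h ^ i * φ c * (h ^ i)⁻¹ = φ (b ^ i * c) := by
  obtain ⟨n, rfl | rfl⟩ := Int.eq_nat_or_neg i
  · simpa using H.conj_pow n c
  · have e := H.conj_pow n ((b ^ n)⁻¹ * c)
    rw [← mul_assoc, mul_inv_cancel₀ (pow_ne_zero _ hb), one_mul] at e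
    rw [zpow_neg, zpow_neg, zpow_natCast, zpow_natCast, ← e]
    group

theorem push (hb : b ≠ 0) (i : ℤ) (c : F) : h ^ i * φ c = φ (b ^ i * c) * h ^ i := by
  rw [← H.conj_zpow hb, inv_mul_cancel_right]

theorem push' (hb : b ≠ 0) (i : ℤ) (c : F) : φ c * h ^ i = h ^ i * φ (b ^ (-i) * c) := by
  rw [H.push hb, ← mul_assoc, ← zpow_add₀ hb, add_neg_cancel, zpow_zero, one_mul]

theorem cj_eq (i : ℕ) : cj u h i = φ (b ^ i) := by
  rw [cj, ← H.one, H.conj_pow, mul_one]

theorem wd_eq {p : ℕ} [Fact p.Prime] [Algebra (ZMod p) F] (P : (ZMod p)[X]) :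
    wd u h P = φ (Polynomial.aeval b P) := by
  have hnat : ∀ (n : ℕ) (c : F), φ (n • c) = φ c ^ n := by
    intro n c
    induction n with
    | zero => simp [H.zero]
    | succ n ih => rw [succ_nsmul, H.add, ih, pow_succ]
  rw [Polynomial.aeval_eq_sum_range]
  refine (prod_range_eq φ H.zero H.add _ _ (fun i => ?_) _).symm
  rw [H.cj_eq, ← hnat]
  congr 1
  rw [Algebra.smul_def, nsmul_eq_mul, ← map_natCast (algebraMap (ZMod p) F), ZMod.natCast_zmod_val]

end IsPhi

/-- The unipotent parametrisation exists as soon as the minimal polynomial relation holds. -/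
theorem exists_isPhi {p : ℕ} [Fact p.Prime] [Algebra (ZMod p) F] (b : F)
    (hb : Function.Surjective (Polynomial.aeval (R := ZMod p) b))
    (u h : X) (U : Subgroup X) (hc : ∀ x ∈ U, ∀ y ∈ U, x * y = y * x)
    (hp : ∀ x ∈ U, x ^ p = 1) (hu : u ∈ U) (hh : ∀ x ∈ U, h * x * h⁻¹ ∈ U)
    (hm : wd u h (minpoly (ZMod p) b) = 1) : ∃ φ : F → X, IsPhi b u h φ := by
  obtain ⟨hadd, hX, hmul, hcon⟩ := wd_props (p := p) u h U hc hp hu hh
  have well : ∀ P Q : (ZMod p)[X], Polynomial.aeval b P = Polynomial.aeval b Q → wd u h P = wd u h Q := by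
    intro P Q he
    obtain ⟨R, hR⟩ := minpoly.dvd (ZMod p) b (p := P - Q) (by rw [map_sub, he, sub_self])
    have : P = Q + R * minpoly (ZMod p) b := by rw [mul_comm, ← hR]; ring
    rw [this, hadd, hmul _ _ hm, mul_one]
  let s := Function.surjInv hb
  have hs : ∀ c, Polynomial.aeval b (s c) = c := Function.surjInv_eq hb
  refine ⟨fun c => wd u h (s c), fun c d => ?_, ?_, fun c => ?_⟩
  · show wd u h (s (c + d)) = _
    rw [← hadd]; exact well _ _ (by simp [hs])
  · show wd u h (s 1) = _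
    rw [well (s 1) (Polynomial.X ^ 0) (by simp [hs]), hX, cj_zero]
  · show h * wd u h (s c) * h⁻¹ = _
    rw [hcon]; exact well _ _ (by simp [hs])

/-- `t φ(c) t` lies in the big cell. -/
def Good (φ : F → X) (h t : X) (c : F) : Prop :=
  ∃ (d₁ d₂ : F) (i : ℤ), t * φ c * t = φ d₁ * h ^ i * t * φ d₂

theorem t_zpow {h t : X} (hth : t * h * t⁻¹ = h⁻¹) (i : ℤ) : t * h ^ i = h ^ (-i) * t := by
  rw [← mul_inv_eq_iff_eq_mul, zpow_neg, ← inv_zpow, ← hth, conj_zpow]

theorem zpow_t {h t : X} (hth : t * h * t⁻¹ = h⁻¹) (i : ℤ) : h ^ i * t = t * h ^ (-i) := by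
  rw [t_zpow hth, neg_neg]

variable {b : F} {u h t : X} {φ : F → X}

theorem Good.mul_pow (H : IsPhi b u h φ) (hb : b ≠ 0) (hth : t * h * t⁻¹ = h⁻¹) {c : F}
    (hG : Good φ h t c) (l : ℕ) : Good φ h t (b ^ l * c) := by
  obtain ⟨d₁, d₂, i, e⟩ := hG
  refine ⟨b ^ (-(l : ℤ)) * d₁, b ^ (-(l : ℤ)) * d₂, i - 2 * l, ?_⟩
  rw [show b ^ l * c = b ^ (l : ℤ) * c by rw [zpow_natCast], ← H.conj_zpow hb, ← zpow_neg]
  calc t * (h ^ (l : ℤ) * φ c * h ^ (-(l : ℤ))) * t
      = (t * h ^ (l : ℤ)) * φ c * (h ^ (-(l : ℤ)) * t) := by group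
    _ = (h ^ (-(l : ℤ)) * t) * φ c * (t * h ^ (l : ℤ)) := by
        rw [t_zpow hth (l : ℤ)]
    _ = h ^ (-(l : ℤ)) * (t * φ c * t) * h ^ (l : ℤ) := by group
    _ = (h ^ (-(l : ℤ)) * φ d₁) * h ^ i * t * (φ d₂ * h ^ (l : ℤ)) := by rw [e]; group
    _ = (h ^ (-(l : ℤ)) * φ d₁) * h ^ i * t * (h ^ (l : ℤ) * φ (b ^ (-(l : ℤ)) * d₂)) := by
        rw [H.push' hb]
    _ = (φ (b ^ (-(l : ℤ)) * d₁) * h ^ (-(l : ℤ))) * h ^ i * t * (h ^ (l : ℤ) * φ (b ^ (-(l : ℤ)) * d₂)) := by
        rw [← H.push hb]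
    _ = φ (b ^ (-(l : ℤ)) * d₁) * h ^ (-(l : ℤ)) * h ^ i * (t * h ^ (l : ℤ)) * φ (b ^ (-(l : ℤ)) * d₂) := by
        group
    _ = _ := by rw [t_zpow hth]; group

theorem Good.neg (H : IsPhi b u h φ) (hb : b ≠ 0) (hth : t * h * t⁻¹ = h⁻¹) {e : ℕ}
    (ht : t * t = h ^ e) (hbe : b ^ e = 1) {c : F} (hG : Good φ h t c) : Good φ h t (-c) := by
  obtain ⟨d₁, d₂, i, he⟩ := hG
  refine ⟨-d₂, -d₁, i - e, ?_⟩
  have hz : ∀ x, h ^ (e : ℤ) * φ x = φ x * h ^ (e : ℤ) := fun x => by
    rw [H.push hb, zpow_natCast b, hbe, one_mul]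
  have ht' : t * t = h ^ (e : ℤ) := by rw [zpow_natCast]; exact ht
  rw [H.neg c]
  calc t * (φ c)⁻¹ * t = (t * t) * (t * φ c * t)⁻¹ * (t * t) := by group
    _ = h ^ (e : ℤ) * ((φ d₂)⁻¹ * t⁻¹ * h ^ (-i) * (φ d₁)⁻¹) * h ^ (e : ℤ) := by
        rw [he, ht']; group
    _ = (h ^ (e : ℤ) * φ (-d₂)) * t⁻¹ * h ^ (-i) * (φ (-d₁) * h ^ (e : ℤ)) := by
        rw [H.neg, H.neg]; group
    _ = φ (-d₂) * (h ^ (e : ℤ) * t⁻¹) * (h ^ (-i) * h ^ (e : ℤ)) * φ (-d₁) := by
        rw [hz, ← hz (-d₁)]; group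
    _ = φ (-d₂) * (t * h ^ (-i + (e : ℤ))) * φ (-d₁) := by
        rw [zpow_add]
        conv_lhs => arg 1; arg 1; arg 2; arg 1; rw [← ht']
        group
    _ = _ := by rw [t_zpow hth]; group

/-- The counting argument. -/
theorem card_le [Fintype F] (H : IsPhi b u h φ) (hb : b ≠ 0)
    (hgen : Subgroup.closure ({u, h, t} : Set X) = ⊤) {N : ℕ} (hN : 0 < N) (hhN : h ^ N = 1)
    (hth : t * h * t⁻¹ = h⁻¹) {e : ℕ} (ht : t * t = h ^ e)
    (hgood : ∀ c : F, c ≠ 0 → Good φ h t c) :
    Finite X ∧ Nat.card X ≤ Fintype.card F * N * (Fintype.card F + 1) := by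
  classical
  let tail : Option F → X := fun o => o.elim 1 fun d => t * φ d
  let Φ : (F × Fin N) × Option F → X := fun z => φ z.1.1 * h ^ (z.1.2 : ℕ) * tail z.2
  have hS : ∀ c (i : ℤ) o, φ c * h ^ i * tail o ∈ Set.range Φ := by
    intro c i o
    have hN' : (N : ℤ) ≠ 0 := by omega
    refine ⟨((c, ⟨(i % N).toNat, ?_⟩), o), ?_⟩
    · have := Int.emod_lt_of_pos i (show (0 : ℤ) < N by omega)
      omega
    · show φ c * h ^ (i % N).toNat * tail o = _
      congr 2
      rw [← zpow_natCast, Int.toNat_of_nonneg (Int.emod_nonneg _ hN')]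
      conv_rhs => rw [← Int.emod_add_mul_ediv i N, zpow_add, zpow_mul, zpow_natCast, hhN, one_zpow, mul_one]
  let g : ∀ x ∈ ({u, h, t} : Set X), ∀ s ∈ Set.range Φ, s * x ∈ Set.range Φ := by
    rintro x hx _ ⟨⟨⟨c, i⟩, o⟩, rfl⟩
    have hi : h ^ (i : ℕ) = h ^ ((i : ℕ) : ℤ) := (zpow_natCast _ _).symm
    simp only [Set.mem_insert_iff, Set.mem_singleton_iff] at hx
    cases o with
    | none =>
      show φ c * h ^ (i : ℕ) * 1 * x ∈ _
      rcases hx with hx | hx | hx <;> rw [hx]
      · rw [mul_one, ← H.one, hi, mul_assoc, H.push hb, ← mul_assoc, ← H.add]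
        simpa [tail] using hS (c + b ^ ((i : ℕ) : ℤ) * 1) (i : ℕ) none
      · rw [mul_one, hi, mul_assoc, ← zpow_add_one]
        simpa [tail] using hS c ((i : ℕ) + 1) none
      · rw [mul_one, hi]
        simpa [tail, H.zero] using hS c (i : ℕ) (some 0)
    | some d =>
      show φ c * h ^ (i : ℕ) * (t * φ d) * x ∈ _
      rcases hx with hx | hx | hx <;> rw [hx]
      · convert hS c (i : ℕ) (some (d + 1)) using 1
        simp only [tail, Option.elim, H.add, H.one, hi]; group
      · convert hS c ((i : ℕ) + -1) (some (b ^ (-1 : ℤ) * d)) using 1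
        calc φ c * h ^ (i : ℕ) * (t * φ d) * h
            = φ c * h ^ ((i : ℕ) : ℤ) * (t * (φ d * h ^ (1 : ℤ))) := by rw [hi]; group
          _ = φ c * h ^ ((i : ℕ) : ℤ) * ((t * h ^ (1 : ℤ)) * φ (b ^ (-1 : ℤ) * d)) := by
              rw [H.push' hb 1 d]; group
          _ = _ := by
              rw [t_zpow hth, zpow_add]; simp only [tail, Option.elim]; group
      · rcases eq_or_ne d 0 with rfl | hd
        · convert hS c (((i : ℕ) : ℤ) + (e : ℕ)) none using 1
          simp only [tail, Option.elim, H.zero, mul_one, zpow_add, zpow_natCast]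
          rw [mul_assoc, ht, mul_assoc]
        · obtain ⟨d₁, d₂, l, hl⟩ := hgood d hd
          convert hS (c + b ^ ((i : ℕ) : ℤ) * d₁) (((i : ℕ) : ℤ) + l) (some d₂) using 1
          calc φ c * h ^ (i : ℕ) * (t * φ d) * t = φ c * (h ^ ((i : ℕ) : ℤ)) * (t * φ d * t) := by
                rw [hi]; group
            _ = φ c * (h ^ ((i : ℕ) : ℤ) * φ d₁) * h ^ l * t * φ d₂ := by rw [hl]; group
            _ = _ := by
              rw [H.push hb, zpow_add, H.add]; simp only [tail, Option.elim]; group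
  have huniv : ∀ x : X, ∀ s ∈ Set.range Φ, s * x ∈ Set.range Φ ∧ s * x⁻¹ ∈ Set.range Φ := by
    intro x
    have hx : x ∈ Subgroup.closure ({u, h, t} : Set X) := by rw [hgen]; trivial
    induction hx using Subgroup.closure_induction with
    | mem y hy =>
      intro s hs
      refine ⟨g y hy s hs, ?_⟩
      obtain ⟨r, hr, he⟩ := (((Set.finite_range Φ).injOn_iff_bijOn_of_mapsTo (f := fun z : X => z * y)
        (fun z hz => g y hy z hz)).1 (mul_left_injective y).injOn).surjOn hs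
      rw [← he]
      simpa using hr
    | one => intro s hs; simp [hs]
    | mul y z _ _ ihy ihz =>
      intro s hs
      refine ⟨?_, ?_⟩
      · rw [← mul_assoc]; exact (ihz _ (ihy s hs).1).1
      · rw [mul_inv_rev, ← mul_assoc]; exact (ihy _ (ihz s hs).2).2
    | inv y _ ih =>
      intro s hs
      rw [inv_inv]; exact (ih s hs).symm
  have h1 : (1 : X) ∈ Set.range Φ := by simpa [tail, H.zero] using hS 0 0 none
  have hsurj : Function.Surjective Φ := fun x => by simpa using (huniv x 1 h1).1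
  refine ⟨Finite.of_surjective Φ hsurj, ?_⟩
  refine le_trans (Nat.card_le_card_of_surjective Φ hsurj) ?_
  simp [Nat.card_prod]

end Field

end Cfsg.Agent.H81.SLPres
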