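import Cfsg.Agent.H81.SLPresBasic
import Cfsg.Agent.H6.Basic
import Cfsg.Agent.H92.SL2Mat

/-!
# Short presentations of `SL₂(q)`: the field arguments and the images in the matrix groups
-/

set_option autoImplicit false

namespace Cfsg.Agent.H81.SLPres

open Polynomial Matrix
open scoped MatrixGroups

variable {F : Type*} [Field F]

/-- The diagonal torus element. -/
def hm (a : F) (ha : a ≠ 0) : SL(2, F) := ⟨!![a, 0; 0, a⁻¹], by simp [Matrix.det_fin_two_of, ha]⟩

@[simp] lemma hm_00 (a : F) (ha : a ≠ 0) : hm a ha 0 0 = a := rfl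
@[simp] lemma hm_01 (a : F) (ha : a ≠ 0) : hm a ha 0 1 = 0 := rfl
@[simp] lemma hm_10 (a : F) (ha : a ≠ 0) : hm a ha 1 0 = 0 := rfl
@[simp] lemma hm_11 (a : F) (ha : a ≠ 0) : hm a ha 1 1 = a⁻¹ := rfl

lemma hm_pow (a : F) (ha : a ≠ 0) (n : ℕ) : hm a ha ^ n = hm (a ^ n) (pow_ne_zero _ ha) := by
  induction n with
  | zero => apply H92.sl2_ext <;> simp
  | succ n ih => rw [pow_succ, ih]; apply H92.sl2_ext <;> simp [H92.sl2_mul_apply, pow_succ, mul_comm]

lemma img_phi (a : F) (ha : a ≠ 0) : IsPhi (a ^ 2) (H92.sx (1 : F)) (hm a ha) H92.sx := by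
  refine ⟨H92.sx_add, rfl, fun c => ?_⟩
  rw [mul_inv_eq_iff_eq_mul]
  apply H92.sl2_ext <;> simp [H92.sl2_mul_apply] <;> field_simp <;> ring

lemma img_tht (a : F) (ha : a ≠ 0) :
    (H92.sw : SL(2, F)) * hm a ha * (H92.sw : SL(2, F))⁻¹ = (hm a ha)⁻¹ := by
  rw [mul_inv_eq_iff_eq_mul, eq_inv_mul_iff_mul_eq]
  apply H92.sl2_ext <;> simp [H92.sl2_mul_apply] <;> field_simp

lemma img_tu : ((H92.sw : SL(2, F)) * H92.sx 1) ^ 3 = 1 := by
  rw [pow_succ, pow_two]
  apply H92.sl2_ext <;> simp [H92.sl2_mul_apply]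

lemma img_tt : (H92.sw : SL(2, F)) * H92.sw = hm (-1) (neg_ne_zero.2 one_ne_zero) := by
  apply H92.sl2_ext <;> simp [H92.sl2_mul_apply]

lemma img_word (a : F) (ha : a ≠ 0) : hm a ha * H92.sw =
    H92.sx (-a) * H92.sw * H92.sx (-a⁻¹) * H92.sw * H92.sx (-a) := by
  apply H92.sl2_ext <;> simp [H92.sl2_mul_apply] <;> field_simp <;> first | simp | ring

variable {p : ℕ} [Fact p.Prime] [Algebra (ZMod p) F]

lemma img_wd (a : F) (ha : a ≠ 0) (P : (ZMod p)[X]) :
    wd (H92.sx (1 : F)) (hm a ha) P = H92.sx (Polynomial.aeval (a ^ 2) P) := (img_phi a ha).wd_eq P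

lemma img_closure (a : F) (ha : a ≠ 0)
    (hb : Function.Surjective (Polynomial.aeval (R := ZMod p) (a ^ 2))) :
    Subgroup.closure ({H92.sx 1, hm a ha, H92.sw} : Set SL(2, F)) = ⊤ := by
  rw [eq_top_iff, ← H92.sl2_closure_sx_sy, Subgroup.closure_le]
  have hx : ∀ c : F, H92.sx c ∈ Subgroup.closure ({H92.sx 1, hm a ha, H92.sw} : Set SL(2, F)) := by
    intro c
    obtain ⟨P, rfl⟩ := hb c
    rw [← img_wd a ha]
    refine Subgroup.list_prod_mem _ ?_
    intro z hz
    obtain ⟨i, _, rfl⟩ := List.mem_map.1 hz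
    have hu : H92.sx (1 : F) ∈ Subgroup.closure ({H92.sx 1, hm a ha, H92.sw} : Set SL(2, F)) :=
      Subgroup.subset_closure (by simp)
    have hh : hm a ha ∈ Subgroup.closure ({H92.sx 1, hm a ha, H92.sw} : Set SL(2, F)) :=
      Subgroup.subset_closure (by simp)
    exact pow_mem (mul_mem (mul_mem (pow_mem hh _) hu) (inv_mem (pow_mem hh _))) _
  have hw : (H92.sw : SL(2, F)) ∈ Subgroup.closure ({H92.sx 1, hm a ha, H92.sw} : Set SL(2, F)) :=
    Subgroup.subset_closure (by simp)
  rintro _ (⟨c, rfl⟩ | ⟨c, rfl⟩)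
  · exact hx c
  · rw [H92.sy_eq]; exact mul_mem (mul_mem hw (hx c)) (mul_mem (mul_mem hw hw) hw)

variable [Fintype F]

/-- Either an element generates the field, or it lies in a small subfield. -/
lemma gen_or_small (x : F) : Function.Surjective (Polynomial.aeval (R := ZMod p) x) ∨
    ∃ d : ℕ, 2 ≤ p ^ d ∧ p ^ d * p ^ d ≤ Fintype.card F ∧ x ^ p ^ d = x := by
  classical
  let K : IntermediateField (ZMod p) F := IntermediateField.adjoin (ZMod p) {x}
  have halg : IsAlgebraic (ZMod p) x := (IsIntegral.of_finite (ZMod p) x).isAlgebraic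
  by_cases hK : K = ⊤
  · left
    have h1 : Algebra.adjoin (ZMod p) {x} = ⊤ := by
      rw [← IntermediateField.adjoin_simple_toSubalgebra_of_isAlgebraic halg]
      show K.toSubalgebra = ⊤
      rw [hK, IntermediateField.top_toSubalgebra]
    rw [Algebra.adjoin_singleton_eq_range_aeval] at h1
    exact (AlgHom.range_eq_top _).1 h1
  · right
    have : Module.Finite (ZMod p) F := Module.Finite.of_finite
    refine ⟨Module.finrank (ZMod p) K, le_trans (Fact.out : p.Prime).two_le
      (Nat.le_self_pow (Module.finrank_pos (R := ZMod p) (M := K)).ne' p), ?_, ?_⟩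
    · have hq : Fintype.card F = p ^ Module.finrank (ZMod p) F := by
        rw [Module.card_eq_pow_finrank (K := ZMod p), ZMod.card]
      have hmul := Module.finrank_mul_finrank (ZMod p) K F
      have hne : Module.finrank K F ≠ 1 := fun h =>
        hK (IntermediateField.eq_of_le_of_finrank_eq le_top (by
          rw [IntermediateField.finrank_top', ← hmul, h, mul_one]))
      have hpos : 0 < Module.finrank K F := Module.finrank_pos
      rw [hq, ← pow_add]
      refine Nat.pow_le_pow_right (Fact.out : p.Prime).pos ?_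
      rw [← hmul, ← mul_two]
      exact Nat.mul_le_mul_left _ (by omega)
    · have hxK : x ∈ K := IntermediateField.mem_adjoin_simple_self _ x
      haveI : Fintype K := Fintype.ofFinite K
      have := FiniteField.pow_card (⟨x, hxK⟩ : K)
      rw [Module.card_eq_pow_finrank (K := ZMod p), ZMod.card] at this
      exact congrArg Subtype.val this

/-- A generator of the multiplicative group. -/
lemma exists_gen : ∃ a : F, a ≠ 0 ∧ (∀ c : F, c ≠ 0 → ∃ l : ℕ, c = a ^ l) ∧
    orderOf a = Fintype.card F - 1 := by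
  classical
  obtain ⟨g, hg⟩ := IsCyclic.exists_generator (α := Fˣ)
  refine ⟨g, g.ne_zero, fun c hc => ?_, ?_⟩
  · obtain ⟨l, hl⟩ := (mem_powers_iff_mem_zpowers).2 (hg (Units.mk0 c hc))
    exact ⟨l, by simpa using (congrArg Units.val hl).symm⟩
  · rw [orderOf_units, orderOf_eq_card_of_forall_mem_zpowers hg, Nat.card_units,
      Nat.card_eq_fintype_card]

/-- The square of a generator generates the field. -/
lemma gen_sq (a : F) (ha : orderOf a = Fintype.card F - 1) :
    Function.Surjective (Polynomial.aeval (R := ZMod p) (a ^ 2)) := by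
  rcases gen_or_small (p := p) (a ^ 2) with h | ⟨d, hQ2, hd, hx⟩
  · exact h
  · exfalso
    have hQ : 1 ≤ p ^ d := Nat.one_le_pow _ _ (Fact.out : p.Prime).pos
    have hq : 2 ≤ Fintype.card F := Fintype.one_lt_card
    have ha0 : a ≠ 0 := by
      rintro rfl
      rw [orderOf_zero] at ha
      omega
    have h1 : (a ^ 2) ^ (p ^ d - 1) = 1 := by
      have e : (a ^ 2) ^ (p ^ d - 1) * a ^ 2 = 1 * a ^ 2 := by
        rw [← pow_succ, Nat.sub_add_cancel hQ, hx, one_mul]
      exact mul_right_cancel₀ (pow_ne_zero _ ha0) e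
    rw [← pow_mul] at h1
    have h2 := orderOf_dvd_of_pow_eq_one h1
    rw [ha] at h2
    have h3 := Nat.le_of_dvd (by omega) h2
    have : p ^ d * 2 ≤ p ^ d * p ^ d := Nat.mul_le_mul_left _ hQ2
    generalize p ^ d = Q at *
    rcases eq_or_lt_of_le hQ2 with h | h
    · subst h; omega
    · have : 3 * Q ≤ Q * Q := Nat.mul_le_mul_right _ h
      omega

end Cfsg.Agent.H81.SLPres
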