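import Cfsg.Agent.H81.SLPresField

/-!
# Short presentations of `SL₂(q)`, `q` even
-/

set_option autoImplicit false

namespace Cfsg.Agent.H81.SLPres

open Polynomial

/-- The five relations in even characteristic suffice. -/
theorem two_rels {F : Type*} [Field F] [Algebra (ZMod 2) F] [Fact (Nat.Prime 2)] (b : F)
    (hb : Function.Surjective (Polynomial.aeval (R := ZMod 2) b)) (i j : ℕ) (hi : 0 < i)
    {X : Type*} [Group X] (u h t : X) (hu : u * u = 1) (hj : cj u h j = u * cj u h 1) (ht : t * t = 1)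
    (htu : (t * u) ^ 3 = 1)
    (hw : h * t = (cj u h i * wd u h (minpoly (ZMod 2) b)) * t * ((h ^ i)⁻¹ * u * h ^ i) * t *
      (cj u h i * wd u h (minpoly (ZMod 2) b))) :
    ∃ φ : F → X, IsPhi b u h φ ∧ t * h * t⁻¹ = h⁻¹ ∧ h ^ (2 * i - 1) = 1 ∧
      t * u * t = u * t * u := by
  have hu' : u⁻¹ = u := inv_eq_of_mul_eq_one_right hu
  have ht' : t⁻¹ = t := inv_eq_of_mul_eq_one_right ht
  have tut : t * u * t = u * t * u := by
    rw [pow_succ, pow_two] at htu
    calc t * u * t = (t * u * (t * u) * (t * u)) * (u⁻¹ * t⁻¹ * u⁻¹) := by group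
      _ = _ := by rw [htu, hu', ht', one_mul]
  have hinv : ∀ n, cj u h n * cj u h n = 1 := fun n => by
    calc cj u h n * cj u h n = h ^ n * (u * u) * (h ^ n)⁻¹ := by simp only [cj]; group
      _ = 1 := by rw [hu]; group
  have c01 : u * cj u h 1 = cj u h 1 * u := by
    have e := hinv j
    rw [hj] at e
    calc u * cj u h 1 = (u * cj u h 1)⁻¹ := (inv_eq_of_mul_eq_one_right e).symm
      _ = _ := by rw [mul_inv_rev, hu', inv_eq_of_mul_eq_one_right (hinv 1)]
  have shift : ∀ k d : ℕ, u * cj u h d = cj u h d * u →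
      cj u h k * cj u h (k + d) = cj u h (k + d) * cj u h k := by
    intro k d hd
    calc cj u h k * cj u h (k + d) = h ^ k * (u * cj u h d) * (h ^ k)⁻¹ := by
          rw [cj_add]; simp only [cj]; group
      _ = h ^ k * (cj u h d * u) * (h ^ k)⁻¹ := by rw [hd]
      _ = _ := by rw [cj_add]; simp only [cj]; group
  have comm : ∀ n : ℕ, u * cj u h n = cj u h n * u := by
    intro n
    induction n using Nat.strong_induction_on with
    | _ n ih =>
      rcases n with _ | _ | n
      · simp [cj_zero]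
      · exact c01
      · have e := shift j (n + 1) (ih _ (by omega))
        have ha : cj u h ((n + 1) + j) = cj u h (n + 1) * cj u h (n + 2) := by
          rw [cj_add, hj, show n + 2 = (n + 1) + 1 from rfl, cj_add u h (n + 1) 1]
          simp only [cj]; group
        rw [add_comm j, ha, hj] at e
        have c2 : Commute u (cj u h (n + 1)) := ih _ (by omega)
        have c3 : Commute (cj u h 1) (cj u h (n + 1)) := by
          have := shift 1 n (ih _ (by omega))
          rwa [show 1 + n = n + 1 by omega] at this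
        have c4 : Commute (cj u h 1) (cj u h (n + 2)) := by
          have := shift 1 (n + 1) (ih _ (by omega))
          rwa [show 1 + (n + 1) = n + 2 by omega] at this
        have c5 : Commute (cj u h (n + 1)) (cj u h (n + 2)) := shift (n + 1) 1 c01
        show Commute u (cj u h (n + 2))
        generalize cj u h (n + 1) = w at *
        generalize cj u h (n + 2) = y at *
        generalize cj u h 1 = v at *
        have e1 : u * v * (w * y) = u * y * (v * w) := by
          calc u * v * (w * y) = u * ((v * w) * y) := by group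
            _ = u * (y * (v * w)) := by rw [(c4.mul_left c5).eq]
            _ = _ := by group
        have e2 : w * y * (u * v) = y * u * (v * w) := by
          calc w * y * (u * v) = y * (w * u) * v := by rw [c5.eq]; group
            _ = y * u * (w * v) := by rw [c2.symm.eq]; group
            _ = _ := by rw [c3.eq]
        rw [e1, e2] at e
        exact mul_right_cancel e
  let z : ℤ → X := fun n => h ^ n * u * (h ^ n)⁻¹
  let S : Set X := Set.range z
  have hz : ∀ n : ℕ, z n = cj u h n := fun n => by simp [z, cj]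
  have hzz : ∀ m n : ℤ, z (m + n) = h ^ m * z n * (h ^ m)⁻¹ := fun m n => by
    simp only [z, zpow_add]; group
  have hle : ∀ m n : ℤ, m ≤ n → z m * z n = z n * z m := by
    intro m n hmn
    obtain ⟨d, rfl⟩ := Int.le.dest hmn
    calc z m * z (m + d) = h ^ m * (u * cj u h d) * (h ^ m)⁻¹ := by
          rw [hzz, hz]; simp only [z, cj]; group
      _ = h ^ m * (cj u h d * u) * (h ^ m)⁻¹ := by rw [comm d]
      _ = _ := by rw [hzz, hz]; simp only [z, cj]; group
  have hS : ∀ x ∈ S, ∀ y ∈ S, x * y = y * x := by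
    rintro _ ⟨m, rfl⟩ _ ⟨n, rfl⟩
    rcases le_total m n with hmn | hmn
    · exact hle m n hmn
    · exact (hle n m hmn).symm
  have hpS : ∀ x ∈ S, x ^ 2 = 1 := by
    rintro _ ⟨m, rfl⟩
    simp [z, conj_pow, pow_two, hu]
  let U : Subgroup X := Subgroup.closure S
  have hC := closure_comm hS
  have hsq : ∀ x ∈ U, x * x = 1 := fun x hx => by rw [← pow_two]; exact closure_pow_eq_one hS hpS x hx
  have hinv' : ∀ x ∈ U, x⁻¹ = x := fun x hx => inv_eq_of_mul_eq_one_right (hsq x hx)
  have hzmem : ∀ n, z n ∈ U := fun n => Subgroup.subset_closure ⟨n, rfl⟩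
  have hcmem : ∀ n : ℕ, cj u h n ∈ U := fun n => hz n ▸ hzmem n
  have hu0 : u ∈ U := by simpa [cj_zero] using hcmem 0
  have hconjz : ∀ m : ℤ, ∀ x ∈ U, h ^ m * x * (h ^ m)⁻¹ ∈ U := fun m =>
    closure_conj_mem (h ^ m) (by rintro _ ⟨n, rfl⟩; rw [← hzz]; exact hzmem _)
  have hh : ∀ x ∈ U, h * x * h⁻¹ ∈ U := fun x hx => by simpa using hconjz 1 x hx
  -- the linear relation satisfied by conjugation
  have hfj : ∀ x ∈ U, h ^ j * x * (h ^ j)⁻¹ = x * (h * x * h⁻¹) := by
    intro x hx
    induction hx using Subgroup.closure_induction with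
    | mem y hy =>
      obtain ⟨n, rfl⟩ := hy
      calc h ^ j * z n * (h ^ j)⁻¹ = h ^ n * cj u h j * (h ^ n)⁻¹ := by simp only [z, cj]; group
        _ = _ := by rw [hj]; simp only [z, cj]; group
    | one => simp
    | mul x y hx hy ihx ihy =>
      calc h ^ j * (x * y) * (h ^ j)⁻¹ = (h ^ j * x * (h ^ j)⁻¹) * (h ^ j * y * (h ^ j)⁻¹) := by group
        _ = x * ((h * x * h⁻¹) * y) * (h * y * h⁻¹) := by rw [ihx, ihy]; group
        _ = _ := by rw [hC _ (hh x hx) y hy]; group
    | inv x hx ih =>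
      rw [hinv' x hx]; exact ih
  have hA : cj u h i * wd u h (minpoly (ZMod 2) b) ∈ U := by
    refine mul_mem (hcmem i) (Subgroup.list_prod_mem _ fun w hw' => ?_)
    obtain ⟨l, _, rfl⟩ := List.mem_map.1 hw'
    exact pow_mem (hcmem l) _
  have hδ : wd u h (minpoly (ZMod 2) b) ∈ U := by
    refine Subgroup.list_prod_mem _ fun w hw' => ?_
    obtain ⟨l, _, rfl⟩ := List.mem_map.1 hw'
    exact pow_mem (hcmem l) _
  generalize hd : wd u h (minpoly (ZMod 2) b) = δ at *
  have hA2 := hsq _ hA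
  have hht : h * t * (h * t) = 1 := by
    have hw2 : ((h ^ i)⁻¹ * u * h ^ i) * ((h ^ i)⁻¹ * u * h ^ i) = 1 := by
      calc _ = (h ^ i)⁻¹ * (u * u) * h ^ i := by group
        _ = 1 := by rw [hu]; group
    rw [hw]
    calc _ = (cj u h i * δ) * t * ((h ^ i)⁻¹ * u * h ^ i) * t * ((cj u h i * δ) * (cj u h i * δ)) * t *
          ((h ^ i)⁻¹ * u * h ^ i) * t * (cj u h i * δ) := by group
      _ = (cj u h i * δ) * t * ((h ^ i)⁻¹ * u * h ^ i) * (t * t) *
          ((h ^ i)⁻¹ * u * h ^ i) * t * (cj u h i * δ) := by rw [hA2]; group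
      _ = (cj u h i * δ) * t * (((h ^ i)⁻¹ * u * h ^ i) *
          ((h ^ i)⁻¹ * u * h ^ i)) * t * (cj u h i * δ) := by rw [ht]; group
      _ = (cj u h i * δ) * (t * t) * (cj u h i * δ) := by rw [hw2]; group
      _ = 1 := by rw [ht, mul_one, hA2]
  have hth : t * h * t⁻¹ = h⁻¹ := by
    rw [ht']
    calc t * h * t = h⁻¹ * (h * t * (h * t)) := by group
      _ = h⁻¹ := by rw [hht, mul_one]
  have hu1 : t * ((h ^ i)⁻¹ * u * h ^ i) * t = cj u h i * h ^ (2 * (i : ℤ)) * t * cj u h i := by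
    have a1 := t_zpow hth (i : ℤ)
    have a2 := t_zpow hth (-(i : ℤ))
    rw [neg_neg] at a2
    calc t * ((h ^ i)⁻¹ * u * h ^ i) * t = (t * h ^ (-(i : ℤ))) * u * (h ^ (i : ℤ) * t) := by group
      _ = h ^ (i : ℤ) * (t * u * t) * h ^ (-(i : ℤ)) := by rw [zpow_t hth (i : ℤ)]; nth_rw 1 [a2]; group
      _ = h ^ (i : ℤ) * u * (t * h ^ (-(i : ℤ))) * (h ^ (i : ℤ) * u * h ^ (-(i : ℤ))) := by rw [tut]; group
      _ = _ := by rw [a2]; simp only [cj]; group
  have hkey : t * δ * t = (h ^ (-2 * (i : ℤ)) * δ * (h ^ (-2 * (i : ℤ)))⁻¹) * h ^ (1 - 2 * (i : ℤ)) := by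
    have e : h * t = δ * h ^ (2 * (i : ℤ)) * t * δ := by
      rw [hw]
      calc _ = (cj u h i * δ) * (t * ((h ^ i)⁻¹ * u * h ^ i) * t) * (cj u h i * δ) := by group
        _ = ((cj u h i * δ) * cj u h i) * h ^ (2 * (i : ℤ)) * t * (cj u h i * cj u h i) * δ := by
            rw [hu1]; group
        _ = _ := by rw [hC _ (hcmem i) _ hδ, mul_assoc δ, hinv]; group
    calc t * δ * t = (δ * h ^ (2 * (i : ℤ)))⁻¹ * (δ * h ^ (2 * (i : ℤ)) * t * δ) * t := by group
      _ = h ^ (-2 * (i : ℤ)) * δ⁻¹ * h * (t * t) := by rw [← e]; group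
      _ = _ := by rw [hinv' δ hδ, ht]; group
  have hδ' : h ^ (-2 * (i : ℤ)) * δ * (h ^ (-2 * (i : ℤ)))⁻¹ ∈ U := hconjz _ δ hδ
  generalize hE : (1 : ℤ) - 2 * (i : ℤ) = E at hkey
  generalize hD : h ^ (-2 * (i : ℤ)) * δ * (h ^ (-2 * (i : ℤ)))⁻¹ = D at hkey hδ'
  have hkey2 : t * δ * t = h ^ (-E) * D := by
    calc t * δ * t = (t⁻¹ * δ⁻¹ * t⁻¹) := by rw [ht', hinv' δ hδ]
      _ = (t * δ * t)⁻¹ := by group
      _ = _ := by rw [hkey, mul_inv_rev, hinv' D hδ', zpow_neg]
  -- transport by `t`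
  have fixd : ∀ c ∈ U, t * c * t ∈ U → t * c * t = c := by
    intro c hc hd'
    have e : Commute c (u * t * u) := by
      rw [← tut]
      show c * (t * u * t) = t * u * t * c
      have a1 : (t * c * t) * u = u * (t * c * t) := hC _ hd' _ hu0
      calc c * (t * u * t) = (t * t) * c * (t * u * t) := by rw [ht, one_mul]
        _ = t * ((t * c * t) * u) * t := by group
        _ = t * (u * (t * c * t)) * t := by rw [a1]
        _ = t * u * t * c * (t * t) := by group
        _ = _ := by rw [ht, mul_one]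
    have cu : Commute c u := hC c hc u hu0
    have ct : Commute c t := by
      have := (cu.inv_right.mul_right e).mul_right cu.inv_right
      simpa [mul_assoc] using this
    calc t * c * t = c * (t * t) := by rw [← ct.eq]; group
      _ = c := by rw [ht, mul_one]
  have hm1 : ∀ x ∈ U, h⁻¹ * x * h ∈ U := fun x hx => by simpa using hconjz (-1) x hx
  have htt : ∀ x, t * (h⁻¹ * x * h) * t = h * (t * x * t) * h⁻¹ := by
    intro x
    have a1 := t_zpow hth (-1)
    have a2 := zpow_t hth 1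
    simp only [zpow_neg, zpow_one, inv_inv] at a1 a2
    calc t * (h⁻¹ * x * h) * t = (t * h⁻¹) * x * (h * t) := by group
      _ = (h * t) * x * (t * h⁻¹) := by rw [a1, a2]
      _ = _ := by group
  let c := h⁻¹ * δ * h * δ
  have hcU : c ∈ U := mul_mem (hm1 δ hδ) hδ
  have hctc : t * c * t = c := by
    refine fixd c hcU ?_
    have e : t * c * t = (t * (h⁻¹ * δ * h) * t) * (t * δ * t) := by
      calc t * c * t = t * (h⁻¹ * δ * h) * 1 * δ * t := by simp only [c]; group
        _ = _ := by rw [← ht]; group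
    rw [e, htt]
    nth_rw 1 [hkey]
    rw [hkey2]
    have : h * (D * h ^ E) * h⁻¹ * (h ^ (-E) * D) = (h * D * h⁻¹) * D := by group
    rw [this]
    exact mul_mem (hh D hδ') hδ'
  have hTc : h⁻¹ * c * h = h * c * h⁻¹ := by
    have e : t * (h⁻¹ * c * h) * t = h * c * h⁻¹ := by rw [htt, hctc]
    exact (fixd _ (hm1 c hcU) (e ▸ hh c hcU)).symm.trans e
  have hT2 : h * (h * c * h⁻¹) * h⁻¹ = c := by rw [← hTc]; group
  have fixpow : ∀ (x : X), h * x * h⁻¹ = x → h ^ j * x * (h ^ j)⁻¹ = x := fun x hx => by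
    have : Commute h x := mul_inv_eq_iff_eq_mul.1 hx
    rw [(this.pow_left j).eq, mul_inv_cancel_right]
  have hw1 : c * (h * c * h⁻¹) = 1 := by
    have hwU : c * (h * c * h⁻¹) ∈ U := mul_mem hcU (hh c hcU)
    have hwT : h * (c * (h * c * h⁻¹)) * h⁻¹ = c * (h * c * h⁻¹) := by
      calc h * (c * (h * c * h⁻¹)) * h⁻¹ = (h * c * h⁻¹) * (h * (h * c * h⁻¹) * h⁻¹) := by group
        _ = _ := by rw [hT2, hC _ (hh c hcU) c hcU]
    have := hfj _ hwU
    rw [fixpow _ hwT, hwT, hsq _ hwU] at this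
    exact this
  have hc1 : c = 1 := by
    have hcT : h * c * h⁻¹ = c := by rw [eq_inv_of_mul_eq_one_right hw1, hinv' c hcU]
    have := hfj _ hcU
    rw [fixpow _ hcT, hcT, hsq _ hcU] at this
    exact this
  have hδ1 : δ = 1 := by
    have hδT : h * δ * h⁻¹ = δ := by
      have : h⁻¹ * δ * h = δ := by
        rw [eq_inv_of_mul_eq_one_left (show h⁻¹ * δ * h * δ = 1 from hc1), hinv' δ hδ]
      nth_rw 1 [← this]; group
    have := hfj _ hδ
    rw [fixpow _ hδT, hδT, hsq _ hδ] at this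
    exact this
  obtain ⟨φ, hφ⟩ := exists_isPhi b hb u h U hC (closure_pow_eq_one hS hpS) hu0 hh (by rw [hd]; exact hδ1)
  refine ⟨φ, hφ, hth, ?_, tut⟩
  have hE1 : h ^ E = 1 := by
    rw [hδ1, mul_one, ht] at hkey
    have hD1 : D = 1 := by rw [← hD, hδ1]; group
    rw [hD1, one_mul] at hkey
    exact hkey.symm
  rw [← zpow_natCast, show ((2 * i - 1 : ℕ) : ℤ) = -E by omega, zpow_neg, hE1, inv_one]

end Cfsg.Agent.H81.SLPres
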