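import Cfsg.Agent.H81.SLPresOdd
import Cfsg.Agent.H81.SLPresTwo

/-!
# Short presentations of `SL₂(q)` and `PSL₂(q)`
-/

set_option autoImplicit false

namespace Cfsg.Agent.H81.SLPres

open Polynomial Matrix
open scoped MatrixGroups

/-- Symbols of the free group. -/
def gu : FreeGroup (Fin 3) := FreeGroup.of 0
/-- Symbols of the free group. -/
def gh : FreeGroup (Fin 3) := FreeGroup.of 1
/-- Symbols of the free group. -/
def gt : FreeGroup (Fin 3) := FreeGroup.of 2

/-- A presentation with given images of the generators follows from the order bound. -/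
theorem pres_gens {G : Type*} [Group G] [Finite G] (f : Fin 3 → G)
    (hgen : Subgroup.closure ({f 0, f 1, f 2} : Set G) = ⊤) (L : List (FreeGroup (Fin 3))) (n : ℕ)
    (hL : L.length ≤ n) (hf : ∀ r ∈ L, FreeGroup.lift f r = 1)
    (hcard : ∀ (X : Type) [Group X] (g : Fin 3 → X), Subgroup.closure ({g 0, g 1, g 2} : Set X) = ⊤ →
      (∀ r ∈ L, FreeGroup.lift g r = 1) → Finite X ∧ Nat.card X ≤ Nat.card G) :
    ∃ rels : Finset (FreeGroup (Fin 3)), rels.card ≤ n ∧
      ∃ e : PresentedGroup (↑rels : Set (FreeGroup (Fin 3))) ≃* G, ∀ i, e (PresentedGroup.of i) = f i := by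
  classical
  refine ⟨L.toFinset, le_trans (List.toFinset_card_le L) hL, ?_⟩
  have hker : ∀ r ∈ (↑L.toFinset : Set (FreeGroup (Fin 3))), FreeGroup.lift f r = 1 :=
    fun r hr => hf r (List.mem_toFinset.1 hr)
  let Φ : PresentedGroup (↑L.toFinset : Set (FreeGroup (Fin 3))) →* G := PresentedGroup.toGroup hker
  let g : Fin 3 → PresentedGroup (↑L.toFinset : Set (FreeGroup (Fin 3))) := PresentedGroup.of
  have hΦ : ∀ i, Φ (g i) = f i := fun i => PresentedGroup.toGroup.of (h := hker)
  have hsurj : Function.Surjective Φ := by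
    rw [← MonoidHom.range_eq_top, eq_top_iff, ← hgen, Subgroup.closure_le]
    simp only [Set.insert_subset_iff, Set.singleton_subset_iff, SetLike.mem_coe, MonoidHom.mem_range]
    exact ⟨⟨_, hΦ 0⟩, ⟨_, hΦ 1⟩, ⟨_, hΦ 2⟩⟩
  have hgg : Subgroup.closure ({g 0, g 1, g 2} : Set _) = ⊤ := by
    rw [eq_top_iff, ← PresentedGroup.closure_range_of, Subgroup.closure_le]
    rintro _ ⟨i, rfl⟩
    refine Subgroup.subset_closure ?_
    fin_cases i <;> simp [g]
  have hl : ∀ r, FreeGroup.lift g r = PresentedGroup.mk _ r := by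
    intro r
    exact DFunLike.congr_fun (FreeGroup.ext_hom (FreeGroup.lift g) (PresentedGroup.mk _) fun i => by
      rw [FreeGroup.lift_apply_of]; rfl) r
  obtain ⟨hfin, hle⟩ := hcard _ g hgg fun r hr => by
    rw [hl]; exact PresentedGroup.one_of_mem (List.mem_toFinset.2 hr)
  haveI := hfin
  exact ⟨MulEquiv.ofBijective Φ (hsurj.bijective_of_nat_card_le hle), fun i => hΦ i⟩

/-- A presentation follows from the order bound. -/
theorem pres_of {G : Type*} [Group G] [Finite G] (f : Fin 3 → G)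
    (hgen : Subgroup.closure ({f 0, f 1, f 2} : Set G) = ⊤) (L : List (FreeGroup (Fin 3))) (n : ℕ)
    (hL : L.length ≤ n) (hf : ∀ r ∈ L, FreeGroup.lift f r = 1)
    (hcard : ∀ (X : Type) [Group X] (g : Fin 3 → X), Subgroup.closure ({g 0, g 1, g 2} : Set X) = ⊤ →
      (∀ r ∈ L, FreeGroup.lift g r = 1) → Finite X ∧ Nat.card X ≤ Nat.card G) :
    ∃ rels : Finset (FreeGroup (Fin 3)), rels.card ≤ n ∧
      Nonempty (PresentedGroup (↑rels : Set (FreeGroup (Fin 3))) ≃* G) :=
  let ⟨rels, h, e, _⟩ := pres_gens f hgen L n hL hf hcard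
  ⟨rels, h, ⟨e⟩⟩

variable {F : Type*} [Field F] [Fintype F]

/-- Relations making the unipotent subgroup abelian. -/
theorem exists_extra {p : ℕ} [Fact p.Prime] [Algebra (ZMod p) F] [CharP F p] (hp : p ≠ 2)
    (a : F) (ha : a ≠ 0) (hgen : ∀ c : F, c ≠ 0 → ∃ l : ℕ, c = a ^ l)
    (hord : orderOf a = Fintype.card F - 1) :
    ∃ E : List (FreeGroup (Fin 3)), E.length ≤ 3 ∧
      (∀ r ∈ E, FreeGroup.lift (![H92.sx (1 : F), hm a ha, H92.sw] : Fin 3 → SL(2, F)) r = 1) ∧
      ∀ (X : Type) [Group X] (g : Fin 3 → X), g 0 ^ p = 1 → g 1 ^ (Fintype.card F - 1) = 1 →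
        (∀ r ∈ E, FreeGroup.lift g r = 1) → ∃ φ : F → X, IsPhi (a ^ 2) (g 0) (g 1) φ := by
  have hb := gen_sq (p := p) a hord
  have hP := img_phi a ha
  rcases Nat.lt_or_ge 2 (minpoly (ZMod p) (a ^ 2)).natDegree with hdeg | hdeg
  · -- a large field
    have : Module.Finite (ZMod p) F := Module.Finite.of_finite
    have hn : 3 ≤ Module.finrank (ZMod p) F :=
      le_trans hdeg (minpoly.natDegree_le (A := ZMod p) (a ^ 2))
    have hq : Fintype.card F = p ^ Module.finrank (ZMod p) F := by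
      rw [Module.card_eq_pow_finrank (K := ZMod p), ZMod.card]
    have hp3 : 3 ≤ p := by
      have := (Fact.out : p.Prime).two_le
      omega
    have h27 : 27 ≤ Fintype.card F := by
      rw [hq]
      exact le_trans (Nat.pow_le_pow_left hp3 3) (Nat.pow_le_pow_right (by omega) hn)
    have hne : ∀ e : ℕ, e ≠ 0 → e ≤ 4 → a ^ e ≠ 1 := by
      intro e he he4 h
      have := orderOf_le_of_pow_eq_one (Nat.pos_of_ne_zero he) h
      rw [hord] at this
      omega
    have h2 : (2 : F) ≠ 0 := by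
      intro h
      have := (CharP.cast_eq_zero_iff F p 2).1 (by exact_mod_cast h)
      exact hp ((Nat.prime_dvd_prime_iff_eq Fact.out Nat.prime_two).1 this)
    obtain ⟨k0, hk0⟩ := hgen ((a - a⁻¹) / 2) (div_ne_zero (fun h => hne 2 (by omega) (by omega) (by
      rw [sub_eq_zero] at h
      rw [pow_two]; conv_lhs => arg 2; rw [h]
      exact mul_inv_cancel₀ ha)) h2)
    obtain ⟨j, hj⟩ := hgen ((a + a⁻¹) / 2) (div_ne_zero (fun h => hne 4 (by omega) (by omega) (by
      have e : a * a = -1 := by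
        have := congrArg (· * a) h
        simp [add_mul, ha] at this
        exact eq_neg_of_add_eq_zero_left this
      calc a ^ 4 = (a * a) * (a * a) := by ring
        _ = 1 := by rw [e]; ring)) h2)
    have hN1 : a ^ (Fintype.card F - 1) = 1 := hord ▸ pow_orderOf_eq_one a
    let k := k0 + (Fintype.card F - 1)
    have hk : (a ^ 2) ^ k = ((a - a⁻¹) / 2) ^ 2 := by
      rw [← pow_mul, mul_comm, pow_mul, pow_add, hN1, mul_one, ← hk0]
    have hjk : (a ^ 2) ^ j = 1 + (a ^ 2) ^ k := by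
      rw [hk, ← pow_mul, mul_comm, pow_mul, ← hj]
      field_simp
      ring
    have hxs : Function.Surjective (Polynomial.aeval (R := ZMod p) ((a ^ 2) ^ k)) := by
      rcases gen_or_small (p := p) ((a ^ 2) ^ k) with h | ⟨d, hQ2, hd, hx⟩
      · exact h
      · exfalso
        let σ : F →+* F := iterateFrobenius F p d
        have hσ : ∀ z : F, σ z = z ^ p ^ d := fun z => by simp [σ, iterateFrobenius_def]
        have hs : a ^ 2 + (a ^ 2)⁻¹ = 4 * (a ^ 2) ^ k + 2 := by
          rw [hk]; field_simp; ring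
        have e : σ (a ^ 2) + (σ (a ^ 2))⁻¹ = a ^ 2 + (a ^ 2)⁻¹ := by
          rw [← map_inv₀, ← map_add, hs, map_add, map_mul, map_ofNat, map_ofNat, hσ ((a ^ 2) ^ k), hx]
        rw [hσ] at e
        generalize hy : (a ^ 2) ^ p ^ d = y at e
        have hb0 : a ^ 2 ≠ 0 := pow_ne_zero _ ha
        have hy0 : y ≠ 0 := hy ▸ pow_ne_zero _ hb0
        have e2 : (y - a ^ 2) * (y * a ^ 2 - 1) = 0 := by
          have := congrArg (fun z => z * (y * a ^ 2)) e
          field_simp at this
          linear_combination this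
        have hle : Fintype.card F - 1 ≤ 2 * (p ^ d + 1) := by
          rw [← hord]
          rcases mul_eq_zero.1 e2 with h | h
          · refine le_trans (orderOf_le_of_pow_eq_one (n := 2 * (p ^ d - 1)) (by omega) ?_) (by omega)
            rw [pow_mul]
            refine mul_right_cancel₀ hb0 ?_
            rw [← pow_succ, Nat.sub_add_cancel (by omega), one_mul, hy]
            exact sub_eq_zero.1 h
          · refine orderOf_le_of_pow_eq_one (by omega) ?_
            rw [pow_mul, pow_succ, hy]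
            exact sub_eq_zero.1 h
        rcases Nat.lt_or_ge (p ^ d) 5 with h5 | h5
        · omega
        · have : 5 * p ^ d ≤ p ^ d * p ^ d := Nat.mul_le_mul_right _ h5
          omega
    have hN0 : ((Fintype.card F - 1 : ℕ) : F) ≠ 0 := by
      rw [Nat.cast_sub (by omega), FiniteField.cast_card_eq_zero]
      simp
    have hk' : 0 < k := by show 0 < k0 + _; omega
    obtain ⟨P, hPx, hX⟩ := big_phi (a ^ 2) ((a ^ 2) ^ k) k j (Fintype.card F - 1) hk' hN0
      (by rw [← pow_mul, ← pow_mul, show 2 * (k * (Fintype.card F - 1)) = (Fintype.card F - 1) * (2 * k) by ring,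
        pow_mul, hN1, one_pow]) hb hxs
    refine ⟨[gu * cj gu gh k * gu⁻¹ * (cj gu gh k)⁻¹, cj gu gh j * (gu * cj gu gh k)⁻¹,
      cj gu gh 1 * (wd gu gh (Polynomial.expand (ZMod p) k P))⁻¹], le_refl _, ?_, ?_⟩
    · simp only [List.mem_cons, List.not_mem_nil, or_false, forall_eq_or_imp, forall_eq]
      simp only [map_mul, map_inv, map_cj, map_wd, gu, gh, FreeGroup.lift_apply_of, Matrix.cons_val_zero,
        Matrix.cons_val_one]
      simp only [hP.cj_eq, hP.wd_eq, Polynomial.expand_aeval, hPx, pow_one]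
      refine ⟨?_, ?_, ?_⟩
      · simp only [← H92.sx_add, H92.sx_inv]; rw [← H92.sx_zero]; congr 1; ring
      · rw [mul_inv_eq_one, hjk, H92.sx_add]
      · exact mul_inv_cancel _
    · intro X _ g hu hh hE
      simp only [List.mem_cons, List.not_mem_nil, or_false, forall_eq_or_imp, forall_eq] at hE
      simp only [map_mul, map_inv, map_cj, map_wd, gu, gh, FreeGroup.lift_apply_of] at hE
      obtain ⟨e1, e2, e3⟩ := hE
      rw [mul_inv_eq_one] at e1 e2 e3
      rw [mul_inv_eq_iff_eq_mul] at e1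
      exact hX X (g 0) (g 1) hu hh e1 e2 e3
  · refine ⟨[gu * cj gu gh 1 * gu⁻¹ * (cj gu gh 1)⁻¹, wd gu gh (minpoly (ZMod p) (a ^ 2))], by simp, ?_, ?_⟩
    · simp only [List.mem_cons, List.not_mem_nil, or_false, forall_eq_or_imp, forall_eq]
      simp only [map_mul, map_inv, map_cj, map_wd, gu, gh, FreeGroup.lift_apply_of, Matrix.cons_val_zero,
        Matrix.cons_val_one]
      simp only [hP.cj_eq, hP.wd_eq, minpoly.aeval, pow_one, H92.sx_zero, and_true]
      simp only [← H92.sx_add, H92.sx_inv]; rw [← H92.sx_zero]; congr 1; ring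
    · intro X _ g hu hh hE
      simp only [List.mem_cons, List.not_mem_nil, or_false, forall_eq_or_imp, forall_eq] at hE
      simp only [map_mul, map_inv, map_cj, map_wd, gu, gh, FreeGroup.lift_apply_of] at hE
      exact small_phi (a ^ 2) hb hdeg (g 0) (g 1) hu hE.1 hE.2

/-- Presentations in odd characteristic with known generators. -/
theorem odd_gens {p : ℕ} [Fact p.Prime] [Algebra (ZMod p) F] [CharP F p] (hp : p ≠ 2) :
    ∃ (a : F) (ha : a ≠ 0), orderOf a = Fintype.card F - 1 ∧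
      ∃ rels : Finset (FreeGroup (Fin 3)), rels.card ≤ 8 ∧
        ∃ e : PresentedGroup (↑rels : Set (FreeGroup (Fin 3))) ≃* SL(2, F),
          ∀ i, e (PresentedGroup.of i) = (![H92.sx (1 : F), hm a ha, H92.sw] : Fin 3 → SL(2, F)) i := by
  classical
  obtain ⟨a, ha, hgen, hord⟩ := exists_gen (F := F)
  obtain ⟨E, hE3, hEimg, hEphi⟩ := exists_extra (p := p) hp a ha hgen hord
  have hb := gen_sq (p := p) a hord
  obtain ⟨Pa, hPa⟩ := hb (-a)
  obtain ⟨Pi, hPi⟩ := hb (-a⁻¹)
  have hodd : Fintype.card F % 2 = 1 := FiniteField.odd_card_of_char_ne_two (by rwa [ringChar.eq F p])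
  have hq2 : 2 ≤ Fintype.card F := Fintype.one_lt_card
  have hord0 := hord
  generalize hqe : Fintype.card F = q at hodd hq2 hord
  obtain ⟨m, rfl⟩ : ∃ m, q = 2 * m + 1 := ⟨q / 2, by omega⟩
  have hm0 : 0 < m := by omega
  have ham : a ^ m = -1 := by
    have h1 : (a ^ m) ^ 2 = 1 := by
      rw [← pow_mul, mul_comm, show 2 * m = orderOf a by omega, pow_orderOf_eq_one]
    rcases sq_eq_one_iff.1 h1 with h | h
    · have := orderOf_le_of_pow_eq_one hm0 h
      omega
    · exact h
  let L : List (FreeGroup (Fin 3)) := gu ^ p :: (gt * gu) ^ 3 :: (gt * gt * (gh ^ m)⁻¹) :: (gt * gh * gt⁻¹ * gh) ::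
    (gh * gt * (wd gu gh Pa * gt * wd gu gh Pi * gt * wd gu gh Pa)⁻¹) :: E
  let f : Fin 3 → SL(2, F) := ![H92.sx (1 : F), hm a ha, H92.sw]
  have hf : ∀ r ∈ L, FreeGroup.lift f r = 1 := by
    simp only [L, List.mem_cons, forall_eq_or_imp]
    refine ⟨?_, ?_, ?_, ?_, ?_, hEimg⟩
    all_goals simp only [map_mul, map_pow, map_inv, map_wd, gu, gh, gt, f, FreeGroup.lift_apply_of,
      Matrix.cons_val_zero, Matrix.cons_val_one, Matrix.cons_val_two, Matrix.head_cons, Matrix.tail_cons]
    · have hn : ∀ n : ℕ, H92.sx (1 : F) ^ n = H92.sx (n : F) := by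
        intro n
        induction n with
        | zero => simp
        | succ n ih => rw [pow_succ, ih, ← H92.sx_add, Nat.cast_succ]
      rw [hn, CharP.cast_eq_zero, H92.sx_zero]
    · exact img_tu
    · rw [mul_inv_eq_one, img_tt, hm_pow]
      simp only [ham]
    · rw [img_tht, inv_mul_cancel]
    · rw [mul_inv_eq_one, img_word a ha, img_wd, img_wd, hPa, hPi]
  have hcl : Subgroup.closure ({f 0, f 1, f 2} : Set SL(2, F)) = ⊤ := img_closure a ha hb
  have main : ∀ (X : Type) [Group X] (g : Fin 3 → X), Subgroup.closure ({g 0, g 1, g 2} : Set X) = ⊤ →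
      (∀ r ∈ L, FreeGroup.lift g r = 1) → ∀ N, 0 < N → g 1 ^ N = 1 → Finite X ∧
        Nat.card X ≤ Fintype.card F * N * (Fintype.card F + 1) := by
    intro X _ g hg hr N hN hNh
    simp only [L, List.mem_cons, forall_eq_or_imp] at hr
    obtain ⟨r1, r2, r3, r4, r5, rE⟩ := hr
    simp only [map_mul, map_pow, map_inv, map_wd, gu, gh, gt, FreeGroup.lift_apply_of] at r1 r2 r3 r4 r5
    rw [mul_inv_eq_one] at r3 r5
    have hth : g 2 * g 1 * (g 2)⁻¹ = (g 1)⁻¹ := eq_inv_of_mul_eq_one_left r4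
    have h2m : g 1 ^ (2 * m) = 1 := by
      have e : g 2 * g 1 ^ m * (g 2)⁻¹ = g 1 ^ m := by rw [← r3]; group
      rw [← conj_pow, hth, inv_pow, inv_eq_iff_mul_eq_one, ← pow_add, ← two_mul] at e
      exact e
    obtain ⟨φ, H⟩ := hEphi X g r1 (by rw [hqe, show 2 * m + 1 - 1 = 2 * m by omega]; exact h2m) rE
    rw [H.wd_eq, H.wd_eq, hPa, hPi] at r5
    exact card_le H (pow_ne_zero _ ha) hg hN hNh hth r3 (odd_good a ha hgen H hth r3 ham r2 r5)
  refine ⟨a, ha, hqe ▸ hord0, ?_⟩
  refine pres_gens f hcl L 8 (by simp [L]; omega) hf fun X _ g hg hr => ?_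
  have hr' := hr
  simp only [L, List.mem_cons, forall_eq_or_imp] at hr'
  obtain ⟨-, -, r3, r4, -, -⟩ := hr'
  simp only [map_mul, map_pow, map_inv, gh, gt, FreeGroup.lift_apply_of] at r3 r4
  rw [mul_inv_eq_one] at r3
  have hth : g 2 * g 1 * (g 2)⁻¹ = (g 1)⁻¹ := eq_inv_of_mul_eq_one_left r4
  have h2m : g 1 ^ (2 * m) = 1 := by
    have e : g 2 * g 1 ^ m * (g 2)⁻¹ = g 1 ^ m := by rw [← r3]; group
    rw [← conj_pow, hth, inv_pow, inv_eq_iff_mul_eq_one, ← pow_add, ← two_mul] at e
    exact e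
  obtain ⟨hfin, hle⟩ := main X g hg hr (2 * m) (by omega) h2m
  refine ⟨hfin, le_trans hle (le_of_eq ?_)⟩
  rw [H6.card_sl2 hqe, hqe, show (2 * m + 1) ^ 2 - 1 = 2 * m * (2 * m + 1 + 1) by
    rw [Nat.sub_eq_iff_eq_add (Nat.one_le_pow _ _ (by omega))]; ring]
  ring

/-- Presentations in odd characteristic. -/
theorem odd_pres {p : ℕ} [Fact p.Prime] [Algebra (ZMod p) F] [CharP F p] (hp : p ≠ 2) :
    (∃ rels : Finset (FreeGroup (Fin 3)), rels.card ≤ 8 ∧
      Nonempty (PresentedGroup (↑rels : Set (FreeGroup (Fin 3))) ≃* SL(2, F))) ∧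
    ∃ rels : Finset (FreeGroup (Fin 3)), rels.card ≤ 9 ∧
      Nonempty (PresentedGroup (↑rels : Set (FreeGroup (Fin 3))) ≃* PSL(2, F)) := by
  classical
  obtain ⟨a, ha, hgen, hord⟩ := exists_gen (F := F)
  obtain ⟨E, hE3, hEimg, hEphi⟩ := exists_extra (p := p) hp a ha hgen hord
  have hb := gen_sq (p := p) a hord
  obtain ⟨Pa, hPa⟩ := hb (-a)
  obtain ⟨Pi, hPi⟩ := hb (-a⁻¹)
  have hodd : Fintype.card F % 2 = 1 := FiniteField.odd_card_of_char_ne_two (by rwa [ringChar.eq F p])
  have hq2 : 2 ≤ Fintype.card F := Fintype.one_lt_card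
  generalize hqe : Fintype.card F = q at hodd hq2 hord
  obtain ⟨m, rfl⟩ : ∃ m, q = 2 * m + 1 := ⟨q / 2, by omega⟩
  have hm0 : 0 < m := by omega
  have ham : a ^ m = -1 := by
    have h1 : (a ^ m) ^ 2 = 1 := by
      rw [← pow_mul, mul_comm, show 2 * m = orderOf a by omega, pow_orderOf_eq_one]
    rcases sq_eq_one_iff.1 h1 with h | h
    · have := orderOf_le_of_pow_eq_one hm0 h
      omega
    · exact h
  let L : List (FreeGroup (Fin 3)) := gu ^ p :: (gt * gu) ^ 3 :: (gt * gt * (gh ^ m)⁻¹) :: (gt * gh * gt⁻¹ * gh) ::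
    (gh * gt * (wd gu gh Pa * gt * wd gu gh Pi * gt * wd gu gh Pa)⁻¹) :: E
  let f : Fin 3 → SL(2, F) := ![H92.sx (1 : F), hm a ha, H92.sw]
  have hf : ∀ r ∈ L, FreeGroup.lift f r = 1 := by
    simp only [L, List.mem_cons, forall_eq_or_imp]
    refine ⟨?_, ?_, ?_, ?_, ?_, hEimg⟩
    all_goals simp only [map_mul, map_pow, map_inv, map_wd, gu, gh, gt, f, FreeGroup.lift_apply_of,
      Matrix.cons_val_zero, Matrix.cons_val_one, Matrix.cons_val_two, Matrix.head_cons, Matrix.tail_cons]
    · have hn : ∀ n : ℕ, H92.sx (1 : F) ^ n = H92.sx (n : F) := by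
        intro n
        induction n with
        | zero => simp
        | succ n ih => rw [pow_succ, ih, ← H92.sx_add, Nat.cast_succ]
      rw [hn, CharP.cast_eq_zero, H92.sx_zero]
    · exact img_tu
    · rw [mul_inv_eq_one, img_tt, hm_pow]
      simp only [ham]
    · rw [img_tht, inv_mul_cancel]
    · rw [mul_inv_eq_one, img_word a ha, img_wd, img_wd, hPa, hPi]
  have hcl : Subgroup.closure ({f 0, f 1, f 2} : Set SL(2, F)) = ⊤ := img_closure a ha hb
  have main : ∀ (X : Type) [Group X] (g : Fin 3 → X), Subgroup.closure ({g 0, g 1, g 2} : Set X) = ⊤ →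
      (∀ r ∈ L, FreeGroup.lift g r = 1) → ∀ N, 0 < N → g 1 ^ N = 1 → Finite X ∧
        Nat.card X ≤ Fintype.card F * N * (Fintype.card F + 1) := by
    intro X _ g hg hr N hN hNh
    simp only [L, List.mem_cons, forall_eq_or_imp] at hr
    obtain ⟨r1, r2, r3, r4, r5, rE⟩ := hr
    simp only [map_mul, map_pow, map_inv, map_wd, gu, gh, gt, FreeGroup.lift_apply_of] at r1 r2 r3 r4 r5
    rw [mul_inv_eq_one] at r3 r5
    have hth : g 2 * g 1 * (g 2)⁻¹ = (g 1)⁻¹ := eq_inv_of_mul_eq_one_left r4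
    have h2m : g 1 ^ (2 * m) = 1 := by
      have e : g 2 * g 1 ^ m * (g 2)⁻¹ = g 1 ^ m := by rw [← r3]; group
      rw [← conj_pow, hth, inv_pow, inv_eq_iff_mul_eq_one, ← pow_add, ← two_mul] at e
      exact e
    obtain ⟨φ, H⟩ := hEphi X g r1 (by rw [hqe, show 2 * m + 1 - 1 = 2 * m by omega]; exact h2m) rE
    rw [H.wd_eq, H.wd_eq, hPa, hPi] at r5
    exact card_le H (pow_ne_zero _ ha) hg hN hNh hth r3 (odd_good a ha hgen H hth r3 ham r2 r5)
  constructor
  · obtain ⟨_, _, _, rels, h, e, _⟩ := odd_gens (F := F) hp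
    exact ⟨rels, h, ⟨e⟩⟩
  · haveI : Finite PSL(2, F) := H6.finite_psl2
    let f' : Fin 3 → PSL(2, F) := fun i => H6.π (f i)
    have hlift : ∀ r, FreeGroup.lift f' r = H6.π (FreeGroup.lift f r) := fun r =>
      DFunLike.congr_fun (FreeGroup.ext_hom (FreeGroup.lift f') (H6.π.comp (FreeGroup.lift f)) fun i => by
        simp [f']) r
    have hcl' : Subgroup.closure ({f' 0, f' 1, f' 2} : Set PSL(2, F)) = ⊤ := by
      have := congrArg (Subgroup.map H6.π) hcl
      rwa [MonoidHom.map_closure, Subgroup.map_top_of_surjective _ H6.π_surjective, Set.image_insert_eq,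
        Set.image_insert_eq, Set.image_singleton] at this
    refine pres_of f' hcl' (gh ^ m :: L) 9 (by simp [L]; omega) ?_ fun X _ g hg hr => ?_
    · simp only [List.mem_cons, forall_eq_or_imp]
      refine ⟨?_, fun r hr => by rw [hlift, hf r hr, map_one]⟩
      rw [hlift, map_pow (FreeGroup.lift f)]
      simp only [gh, f, FreeGroup.lift_apply_of, Matrix.cons_val_one, Matrix.cons_val_zero]
      rw [hm_pow]
      have : hm (a ^ m) (pow_ne_zero _ ha) = -1 := by
        apply H92.sl2_ext <;> simp [ham]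
      rw [this, H6.π_neg, map_one]
    · simp only [List.mem_cons, forall_eq_or_imp] at hr
      obtain ⟨r0, hr⟩ := hr
      obtain ⟨hfin, hle⟩ := main X g hg hr m hm0 (by simpa [gh] using r0)
      refine ⟨hfin, le_trans hle (le_of_eq ?_)⟩
      rw [H6.card_psl2 hqe, hqe, show 2 * m + 1 - 1 = 2 * m by omega, Nat.gcd_mul_right_right,
        show (2 * m + 1) ^ 2 - 1 = 2 * (m * (2 * m + 1 + 1)) by
          rw [Nat.sub_eq_iff_eq_add (Nat.one_le_pow _ _ (by omega))]; ring,
        mul_left_comm, Nat.mul_div_cancel_left _ two_pos]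
      ring

/-- Presentations in characteristic two with known generators. -/
theorem two_gens [CharP F 2] :
    ∃ (a : F) (ha : a ≠ 0), orderOf a = Fintype.card F - 1 ∧
      ∃ rels : Finset (FreeGroup (Fin 3)), rels.card ≤ 5 ∧
        ∃ e : PresentedGroup (↑rels : Set (FreeGroup (Fin 3))) ≃* SL(2, F),
          ∀ i, e (PresentedGroup.of i) = (![H92.sx (1 : F), hm a ha, H92.sw] : Fin 3 → SL(2, F)) i := by
  classical
  haveI : Fact (Nat.Prime 2) := ⟨Nat.prime_two⟩
  letI : Algebra (ZMod 2) F := ZMod.algebra F 2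
  obtain ⟨a, ha, hgen, hord⟩ := exists_gen (F := F)
  have hb := gen_sq (p := 2) a hord
  have hq2 : 2 ≤ Fintype.card F := Fintype.one_lt_card
  have heven : Fintype.card F % 2 = 0 := FiniteField.even_card_iff_char_two.1 (ringChar.eq F 2)
  have hN1 : a ^ (Fintype.card F - 1) = 1 := hord ▸ pow_orderOf_eq_one a
  have hb0 : a ^ 2 ≠ 0 := pow_ne_zero _ ha
  have haq : (a ^ 2) ^ (Fintype.card F / 2) = a := by
    rw [← pow_mul, show 2 * (Fintype.card F / 2) = Fintype.card F by omega, FiniteField.pow_card]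
  -- all non-zero elements are powers of the square
  have hgen2 : ∀ c : F, c ≠ 0 → ∃ l : ℕ, c = (a ^ 2) ^ l := fun c hc => by
    obtain ⟨l, rfl⟩ := hgen c hc
    exact ⟨Fintype.card F / 2 * l, by rw [pow_mul, haq]⟩
  refine ⟨a, ha, hord, ?_⟩
  let f : Fin 3 → SL(2, F) := ![H92.sx (1 : F), hm a ha, H92.sw]
  have hcl : Subgroup.closure ({f 0, f 1, f 2} : Set SL(2, F)) = ⊤ := img_closure a ha hb
  have hP := img_phi a ha
  have hneg : ∀ x : F, -x = x := CharTwo.neg_eq
  have htt : (H92.sw : SL(2, F)) * H92.sw = 1 := by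
    rw [img_tt]; apply H92.sl2_ext <;> simp [hneg]
  have huu : H92.sx (1 : F) * H92.sx 1 = 1 := by
    rw [← H92.sx_add, CharTwo.add_self_eq_zero, H92.sx_zero]
  rcases eq_or_lt_of_le hq2 with hq | hq
  · -- the field with two elements
    have ha1 : a = 1 := by rwa [← hq, show 2 - 1 = 1 from rfl, pow_one] at hN1
    refine pres_gens f hcl [gh, gu * gu, gt * gt, (gt * gu) ^ 3] 5 (by simp) ?_ fun X _ g hg hr => ?_
    · simp only [List.mem_cons, List.not_mem_nil, or_false, forall_eq_or_imp, forall_eq]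
      simp only [map_mul, map_pow, gu, gh, gt, f, FreeGroup.lift_apply_of, Matrix.cons_val_zero,
        Matrix.cons_val_one, Matrix.cons_val_two, Matrix.head_cons, Matrix.tail_cons]
      refine ⟨?_, huu, htt, img_tu⟩
      subst ha1
      apply H92.sl2_ext <;> simp
    · simp only [List.mem_cons, List.not_mem_nil, or_false, forall_eq_or_imp, forall_eq] at hr
      simp only [map_mul, map_pow, gu, gh, gt, FreeGroup.lift_apply_of] at hr
      obtain ⟨r1, r2, r3, r4⟩ := hr
      have hF : ∀ c : F, c = 0 ∨ c = 1 := fun c => by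
        rcases eq_or_ne c 0 with h | h
        · exact Or.inl h
        · obtain ⟨l, rfl⟩ := hgen c h
          right; rw [ha1, one_pow]
      let φ : F → X := fun c => if c = 0 then 1 else g 0
      have H : IsPhi (a ^ 2) (g 0) (g 1) φ := by
        refine ⟨fun c d => ?_, by simp [φ], fun c => ?_⟩
        · rcases hF c with rfl | rfl <;> rcases hF d with rfl | rfl <;>
            simp [φ, CharTwo.add_self_eq_zero, r2]
        · rw [r1, ha1]; simp
      have hut : g 2 * g 0 * g 2 = g 0 * g 2 * g 0 := by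
        rw [pow_succ, pow_two] at r4
        calc g 2 * g 0 * g 2 = (g 2 * g 0 * (g 2 * g 0) * (g 2 * g 0)) *
              ((g 0)⁻¹ * (g 2)⁻¹ * (g 0)⁻¹) := by group
          _ = _ := by rw [r4, inv_eq_of_mul_eq_one_right r2, inv_eq_of_mul_eq_one_right r3, one_mul]
      obtain ⟨hfin, hle⟩ := card_le (N := 1) H hb0 hg one_pos (by rw [r1, one_pow])
        (show g 2 * g 1 * (g 2)⁻¹ = (g 1)⁻¹ by rw [r1]; simp) (e := 0) (by rw [pow_zero]; exact r3)
        fun c hc => by
          rcases hF c with rfl | rfl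
          · exact absurd rfl hc
          · exact ⟨1, 1, 0, by rw [H.one, zpow_zero, mul_one]; exact hut⟩
      refine ⟨hfin, le_trans hle (le_of_eq ?_)⟩
      rw [H6.card_sl2 rfl, ← hq]
      norm_num
  · have hb1 : 1 + a ^ 2 ≠ 0 := fun h => by
      have h1 : a ^ 2 = 1 := by rw [← hneg (a ^ 2)]; exact (eq_neg_of_add_eq_zero_left h).symm
      have := orderOf_le_of_pow_eq_one two_pos h1
      omega
    obtain ⟨j, hj⟩ := hgen2 _ hb1
    let i := Fintype.card F / 2
    let A : FreeGroup (Fin 3) := cj gu gh i * wd gu gh (minpoly (ZMod 2) (a ^ 2))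
    refine pres_gens f hcl [gu * gu, cj gu gh j * (gu * cj gu gh 1)⁻¹, gt * gt, (gt * gu) ^ 3,
      gh * gt * (A * gt * ((gh ^ i)⁻¹ * gu * gh ^ i) * gt * A)⁻¹] 5 (by simp) ?_ fun X _ g hg hr => ?_
    · simp only [List.mem_cons, List.not_mem_nil, or_false, forall_eq_or_imp, forall_eq]
      simp only [map_mul, map_pow, map_inv, map_cj, map_wd, A, gu, gh, gt, f, FreeGroup.lift_apply_of,
        Matrix.cons_val_zero, Matrix.cons_val_one, Matrix.cons_val_two, Matrix.head_cons, Matrix.tail_cons]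
      simp only [hP.cj_eq, hP.wd_eq, minpoly.aeval, H92.sx_zero, mul_one, pow_one]
      refine ⟨huu, ?_, htt, img_tu, ?_⟩
      · rw [mul_inv_eq_one, ← hj, H92.sx_add]
      · rw [mul_inv_eq_one, img_word a ha, hneg, hneg, haq]
        congr 3
        have := hP.conj_pow i a⁻¹
        rw [haq, mul_inv_cancel₀ ha] at this
        rw [← this]; group
    · simp only [List.mem_cons, List.not_mem_nil, or_false, forall_eq_or_imp, forall_eq] at hr
      simp only [map_mul, map_pow, map_inv, map_cj, map_wd, A, gu, gh, gt, FreeGroup.lift_apply_of] at hr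
      obtain ⟨r1, r2, r3, r4, r5⟩ := hr
      rw [mul_inv_eq_one] at r2 r5
      obtain ⟨φ, H, hth, hN, tut⟩ := two_rels (a ^ 2) hb i j (by show 0 < Fintype.card F / 2; omega)
        (g 0) (g 1) (g 2) r1 r2 r3 r4 r5
      obtain ⟨hfin, hle⟩ := card_le (N := Fintype.card F - 1) H hb0 hg (by omega)
        (by rwa [show Fintype.card F - 1 = 2 * i - 1 by show _ = 2 * (Fintype.card F / 2) - 1; omega])
        hth (e := 0) (by rw [pow_zero]; exact r3) fun c hc => by
          obtain ⟨l, rfl⟩ := hgen2 c hc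
          have g1 : Good φ (g 1) (g 2) 1 := ⟨1, 1, 0, by rw [H.one, zpow_zero, mul_one]; exact tut⟩
          simpa using g1.mul_pow H hb0 hth l
      refine ⟨hfin, le_trans hle (le_of_eq ?_)⟩
      rw [H6.card_sl2 rfl]
      generalize Fintype.card F = q at hq
      obtain ⟨r, rfl⟩ : ∃ r, q = r + 1 := ⟨q - 1, by omega⟩
      rw [Nat.add_sub_cancel, show (r + 1) ^ 2 - 1 = r * (r + 1 + 1) by
        rw [Nat.sub_eq_iff_eq_add (Nat.one_le_pow _ _ (by omega))]; ring]
      ring

/-- Presentations in characteristic two. -/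
theorem two_pres [CharP F 2] :
    (∃ rels : Finset (FreeGroup (Fin 3)), rels.card ≤ 5 ∧
      Nonempty (PresentedGroup (↑rels : Set (FreeGroup (Fin 3))) ≃* SL(2, F))) ∧
    ∃ rels : Finset (FreeGroup (Fin 3)), rels.card ≤ 5 ∧
      Nonempty (PresentedGroup (↑rels : Set (FreeGroup (Fin 3))) ≃* PSL(2, F)) := by
  classical
  haveI : Fact (Nat.Prime 2) := ⟨Nat.prime_two⟩
  letI : Algebra (ZMod 2) F := ZMod.algebra F 2
  have key : ∃ rels : Finset (FreeGroup (Fin 3)), rels.card ≤ 5 ∧
      Nonempty (PresentedGroup (↑rels : Set (FreeGroup (Fin 3))) ≃* SL(2, F)) :=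
    let ⟨_, _, _, rels, h, e, _⟩ := two_gens (F := F)
    ⟨rels, h, ⟨e⟩⟩
  refine ⟨key, ?_⟩
  obtain ⟨rels, hc, ⟨e⟩⟩ := key
  haveI : Finite SL(2, F) := inferInstance
  have hbij : Function.Bijective (H6.π : SL(2, F) → PSL(2, F)) := by
    haveI : Finite PSL(2, F) := H6.finite_psl2
    refine H6.π_surjective.bijective_of_nat_card_le (le_of_eq ?_)
    have heven : Fintype.card F % 2 = 0 := FiniteField.even_card_iff_char_two.1 (ringChar.eq F 2)
    have hq2 : 2 ≤ Fintype.card F := Fintype.one_lt_card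
    rw [H6.card_sl2 rfl, H6.card_psl2 rfl, Nat.Coprime.gcd_eq_one
      ((Nat.prime_two.coprime_iff_not_dvd).2 (by omega)), Nat.div_one]
  exact ⟨rels, hc, ⟨e.trans (MulEquiv.ofBijective H6.π hbij)⟩⟩

end Cfsg.Agent.H81.SLPres
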