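import Cfsg.Agent.H81.SLPresField

/-!
# Short presentations of `SL₂(q)`, `q` odd
-/

set_option autoImplicit false

namespace Cfsg.Agent.H81.SLPres

open Polynomial Matrix
open scoped MatrixGroups

/-- The conjugation invariant subgroup in the case of a small field. -/
theorem small_phi {F : Type*} [Field F] {p : ℕ} [Fact p.Prime] [Algebra (ZMod p) F] [Fintype F]
    (b : F) (hb : Function.Surjective (Polynomial.aeval (R := ZMod p) b))
    (hdeg : (minpoly (ZMod p) b).natDegree ≤ 2) {X : Type*} [Group X] (u h : X)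
    (hu : u ^ p = 1) (hc : u * cj u h 1 * u⁻¹ * (cj u h 1)⁻¹ = 1)
    (hm : wd u h (minpoly (ZMod p) b) = 1) : ∃ φ : F → X, IsPhi b u h φ := by
  have hint : IsIntegral (ZMod p) b := IsIntegral.of_finite (ZMod p) b
  have hc' : u * cj u h 1 = cj u h 1 * u := by
    rw [mul_inv_eq_one, mul_inv_eq_iff_eq_mul] at hc; exact hc
  let U : Subgroup X := Subgroup.closure {u, cj u h 1}
  have hcomm : ∀ x ∈ ({u, cj u h 1} : Set X), ∀ y ∈ ({u, cj u h 1} : Set X), x * y = y * x := by
    simp only [Set.mem_insert_iff, Set.mem_singleton_iff]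
    rintro x (rfl | rfl) y (rfl | rfl)
    · rfl
    · exact hc'
    · exact hc'.symm
    · rfl
  have hp1 : (cj u h 1) ^ p = 1 := by simp [cj, conj_pow, hu]
  have hu0 : u ∈ U := Subgroup.subset_closure (by simp)
  have h1U : cj u h 1 ∈ U := Subgroup.subset_closure (by simp)
  have h2U : cj u h 2 ∈ U := by
    have hlead : (minpoly (ZMod p) b).coeff (minpoly (ZMod p) b).natDegree = 1 :=
      (minpoly.monic hint).coeff_natDegree
    have hpos := minpoly.natDegree_pos hint
    have hm' := hm
    rw [wd] at hm'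
    rcases Nat.lt_or_ge (minpoly (ZMod p) b).natDegree 2 with hd | hd
    · have hd1 : (minpoly (ZMod p) b).natDegree = 1 := by omega
      rw [hd1] at hm' hlead
      simp [List.range_succ, hlead, ZMod.val_one, cj_zero] at hm'
      have e : cj u h 1 = (u ^ ((minpoly (ZMod p) b).coeff 0).val)⁻¹ := eq_inv_of_mul_eq_one_right hm'
      rw [show cj u h 2 = h * cj u h 1 * h⁻¹ from cj_succ u h 1, e]
      have : h * (u ^ ((minpoly (ZMod p) b).coeff 0).val)⁻¹ * h⁻¹ =
          ((cj u h 1) ^ ((minpoly (ZMod p) b).coeff 0).val)⁻¹ := by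
        simp only [cj, pow_one, conj_pow]; group
      rw [this]
      exact inv_mem (pow_mem h1U _)
    · have hd1 : (minpoly (ZMod p) b).natDegree = 2 := by omega
      rw [hd1] at hm' hlead
      simp [List.range_succ, hlead, ZMod.val_one, cj_zero] at hm'
      rw [← mul_assoc] at hm'
      rw [eq_inv_of_mul_eq_one_right hm']
      exact inv_mem (mul_mem (pow_mem hu0 _) (pow_mem h1U _))
  refine exists_isPhi b hb u h U (closure_comm hcomm) (closure_pow_eq_one hcomm ?_) hu0
    (closure_conj_mem h ?_) hm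
  · rintro x (rfl | rfl)
    · exact hu
    · exact hp1
  · rintro x (rfl | rfl)
    · rw [← show cj x h 1 = h * x * h⁻¹ by simp [cj]]; exact h1U
    · rw [← cj_succ]; exact h2U

/-- The conjugation invariant subgroup in the case of a large field. -/
theorem big_phi {F : Type*} [Field F] {p : ℕ} [Fact p.Prime] [Algebra (ZMod p) F]
    (b x : F) (k j N : ℕ) (hk : 0 < k) (hN : (N : F) ≠ 0) (hx : x ^ N = 1)
    (hb : Function.Surjective (Polynomial.aeval (R := ZMod p) b))
    (hxs : Function.Surjective (Polynomial.aeval (R := ZMod p) x)) :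
    ∃ P : (ZMod p)[X], Polynomial.aeval x P = b ∧
      ∀ (X : Type) [Group X] (u h : X), u ^ p = 1 → h ^ N = 1 → u * cj u h k = cj u h k * u →
        cj u h j = u * cj u h k → cj u h 1 = wd u h (Polynomial.expand (ZMod p) k P) →
        ∃ φ : F → X, IsPhi b u h φ := by
  classical
  obtain ⟨L, hL⟩ := minpoly.dvd (ZMod p) x (p := (Polynomial.X : (ZMod p)[X]) ^ N - 1) (by simp [hx])
  have hLx : Polynomial.aeval x L ≠ 0 := by
    intro h0
    have hd := congrArg (fun f => Polynomial.aeval x (Polynomial.derivative f)) hL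
    simp only [Polynomial.derivative_mul, Polynomial.derivative_sub, Polynomial.derivative_one, sub_zero,
      Polynomial.derivative_X_pow, map_mul, map_add, map_pow, map_natCast, Polynomial.aeval_X, h0, minpoly.aeval,
      mul_zero, zero_mul, add_zero] at hd
    have hN0 : N ≠ 0 := fun h => hN (by simp [h])
    have : x ^ (N - 1) ≠ 0 := by
      apply pow_ne_zero
      rintro rfl
      rw [zero_pow hN0] at hx
      exact zero_ne_one hx
    exact mul_ne_zero hN this hd
  obtain ⟨P1, hP1⟩ := hxs (b / Polynomial.aeval x L)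
  refine ⟨P1 * L, by rw [map_mul, hP1, div_mul_cancel₀ _ hLx], ?_⟩
  intro X _ u h hu hh hck hj h1
  let P := P1 * L
  have shift : ∀ i d : ℕ, u * cj u h d = cj u h d * u →
      cj u h i * cj u h (i + d) = cj u h (i + d) * cj u h i := by
    intro i d hd
    calc cj u h i * cj u h (i + d) = h ^ i * (u * cj u h d) * (h ^ i)⁻¹ := by
          rw [cj_add]; simp only [cj]; group
      _ = h ^ i * (cj u h d * u) * (h ^ i)⁻¹ := by rw [hd]
      _ = _ := by rw [cj_add]; simp only [cj]; group
  have comm : ∀ n : ℕ, u * cj u h (n * k) = cj u h (n * k) * u := by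
    intro n
    induction n using Nat.strong_induction_on with
    | _ n ih =>
      rcases n with _ | _ | n
      · simp [cj_zero]
      · simpa using hck
      · have e := shift j ((n + 1) * k) (ih _ (by omega))
        have ha : cj u h ((n + 1) * k + j) = cj u h ((n + 1) * k) * cj u h ((n + 2) * k) := by
          rw [cj_add, hj, show (n + 2) * k = (n + 1) * k + k by ring, cj_add u h _ k]
          simp only [cj]; group
        rw [add_comm j, ha, hj] at e
        have c1 : Commute u (cj u h k) := hck
        have c2 : Commute u (cj u h ((n + 1) * k)) := ih _ (by omega)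
        have c3 : Commute (cj u h k) (cj u h ((n + 1) * k)) := by
          have := shift k (n * k) (ih _ (by omega))
          rwa [show k + n * k = (n + 1) * k by ring] at this
        have c4 : Commute (cj u h k) (cj u h ((n + 2) * k)) := by
          have := shift k ((n + 1) * k) (ih _ (by omega))
          rwa [show k + (n + 1) * k = (n + 2) * k by ring] at this
        have c5 : Commute (cj u h ((n + 1) * k)) (cj u h ((n + 2) * k)) := by
          have := shift ((n + 1) * k) k hck
          rwa [show (n + 1) * k + k = (n + 2) * k by ring] at this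
        show Commute u (cj u h ((n + 2) * k))
        generalize cj u h ((n + 1) * k) = w at *
        generalize cj u h ((n + 2) * k) = y at *
        generalize cj u h k = v at *
        have e1 : u * v * (w * y) = u * y * (v * w) := by
          calc u * v * (w * y) = u * ((v * w) * y) := by group
            _ = u * (y * (v * w)) := by rw [(c4.mul_left c5).eq]
            _ = _ := by group
        have e2 : w * y * (u * v) = y * u * (v * w) := by
          calc w * y * (u * v) = y * (w * u) * v := by rw [c5.eq]; group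
            _ = y * u * (w * v) := by rw [c2.symm.eq]; group
            _ = _ := by rw [c3.eq]
        rw [e1, e2] at e
        exact mul_right_cancel e
  let S : Set X := Set.range fun i : ℕ => cj u h (i * k)
  have hS : ∀ x ∈ S, ∀ y ∈ S, x * y = y * x := by
    rintro _ ⟨i, rfl⟩ _ ⟨l, rfl⟩
    rcases Nat.le_total i l with hle | hle <;> obtain ⟨d, rfl⟩ := Nat.exists_eq_add_of_le hle
    · show cj u h (i * k) * cj u h ((i + d) * k) = cj u h ((i + d) * k) * cj u h (i * k)
      rw [add_mul]; exact shift _ _ (comm d)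
    · show cj u h ((l + d) * k) * cj u h (l * k) = cj u h (l * k) * cj u h ((l + d) * k)
      rw [add_mul]; exact (shift _ _ (comm d)).symm
  have hpS : ∀ x ∈ S, x ^ p = 1 := by
    rintro _ ⟨i, rfl⟩
    simp [cj, conj_pow, hu]
  have hu0 : u ∈ Subgroup.closure S := Subgroup.subset_closure ⟨0, by simp [cj_zero]⟩
  have hsh : ∀ y ∈ Subgroup.closure S, h * y * h⁻¹ ∈ Subgroup.closure S := by
    refine closure_conj_mem h ?_
    rintro _ ⟨i, rfl⟩
    rw [← cj_succ, cj_add, h1, wd]
    rw [show h ^ (i * k) * _ * (h ^ (i * k))⁻¹ = MulAut.conj (h ^ (i * k)) _ from rfl, map_list_prod]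
    refine Subgroup.list_prod_mem _ ?_
    intro z hz
    obtain ⟨w, hw, rfl⟩ := List.mem_map.1 hz
    obtain ⟨l, _, rfl⟩ := List.mem_map.1 hw
    rw [Polynomial.coeff_expand hk]
    split_ifs with hkl
    · rw [map_pow]
      refine pow_mem (Subgroup.subset_closure (show _ ∈ S from ⟨i + l / k, ?_⟩)) _
      show cj u h ((i + l / k) * k) = MulAut.conj (h ^ (i * k)) (cj u h l)
      rw [add_mul, Nat.div_mul_cancel hkl, cj_add]
      rfl
    · simp
  obtain ⟨hadd, hX, hmul, -⟩ := wd_props (p := p) u h _ (closure_comm hS) (closure_pow_eq_one hS hpS) hu0 hsh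
  have h0 : wd u h (0 : (ZMod p)[X]) = 1 := by
    have := hadd 0 0
    simpa using this
  let J : Ideal (ZMod p)[X] :=
    { carrier := {f | wd u h f = 1}
      zero_mem' := h0
      add_mem' := fun {f g} hf hg => by
        show wd u h (f + g) = 1
        rw [hadd, show wd u h f = 1 from hf, show wd u h g = 1 from hg, one_mul]
      smul_mem' := fun c f hf => hmul f c hf }
  have hJ : ∀ f, f ∈ J ↔ wd u h f = 1 := fun f => Iff.rfl
  have g1 : (Polynomial.X : (ZMod p)[X]) ^ N - 1 ∈ J := by
    rw [hJ]
    have e := hadd (Polynomial.X ^ N - 1) (Polynomial.X ^ 0)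
    rw [pow_zero, sub_add_cancel, hX, ← pow_zero (Polynomial.X : (ZMod p)[X]), hX] at e
    have hNu : cj u h N = cj u h 0 := by simp [cj, hh]
    rw [hNu] at e
    simpa using e
  have g2 : (Polynomial.X : (ZMod p)[X]) - Polynomial.expand (ZMod p) k P ∈ J := by
    rw [hJ]
    have e := hadd (Polynomial.X - Polynomial.expand (ZMod p) k P) (Polynomial.expand (ZMod p) k P)
    have hX1 := hX 1
    rw [pow_one] at hX1
    rw [sub_add_cancel, hX1, h1] at e
    exact mul_eq_right.1 e.symm
  have key : minpoly (ZMod p) b ∈ J := by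
    let R := (ZMod p)[X] ⧸ J
    let r : R := Ideal.Quotient.mk J Polynomial.X
    have hae : ∀ f : (ZMod p)[X], Polynomial.aeval r f = Ideal.Quotient.mk J f := by
      intro f
      show Polynomial.aeval (Ideal.Quotient.mkₐ (ZMod p) J Polynomial.X) f = _
      rw [Polynomial.aeval_algHom_apply, Polynomial.aeval_X_left_apply]
      rfl
    have hN0 : N ≠ 0 := fun h => hN (by simp [h])
    have hrN : r ^ N = 1 := by
      have := Ideal.Quotient.eq_zero_iff_mem.2 g1
      rwa [map_sub, map_pow, map_one, sub_eq_zero] at this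
    have hru : IsUnit r := IsUnit.of_mul_eq_one (r ^ (N - 1)) (by
      rw [← pow_succ', Nat.sub_add_cancel (Nat.one_le_iff_ne_zero.2 hN0)]; exact hrN)
    have hr : r = Polynomial.aeval (r ^ k) P := by
      have := Ideal.Quotient.eq_zero_iff_mem.2 g2
      rw [map_sub, sub_eq_zero, ← hae (Polynomial.expand (ZMod p) k P), Polynomial.expand_aeval] at this
      exact this
    have hm0 : Polynomial.aeval (r ^ k) (minpoly (ZMod p) x) = 0 := by
      have e := congrArg (Polynomial.aeval (r ^ k)) hL
      rw [map_mul, map_sub, map_pow, Polynomial.aeval_X, map_one, ← pow_mul, mul_comm k, pow_mul,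
        hrN, one_pow, sub_self] at e
      have hLu : IsUnit (Polynomial.aeval (r ^ k) L) := by
        rw [hr, map_mul] at hru
        exact isUnit_of_mul_isUnit_right hru
      exact hLu.mul_left_eq_zero.1 e.symm
    obtain ⟨Z, hZ⟩ := minpoly.dvd (ZMod p) x (p := (minpoly (ZMod p) b).comp P) (by
      rw [Polynomial.aeval_comp, map_mul, hP1, div_mul_cancel₀ _ hLx, minpoly.aeval])
    rw [← Ideal.Quotient.eq_zero_iff_mem, ← hae, hr, ← Polynomial.aeval_comp, hZ, map_mul, hm0,
      zero_mul]
  exact exists_isPhi b hb u h _ (closure_comm hS) (closure_pow_eq_one hS hpS) hu0 hsh key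

/-- The three kinds of non-zero field elements give all the big cell conditions. -/
theorem odd_good {F : Type*} [Field F] (a : F) (ha : a ≠ 0)
    (hgen : ∀ c : F, c ≠ 0 → ∃ l : ℕ, c = a ^ l) {X : Type*} [Group X] {u h t : X} {φ : F → X}
    (H : IsPhi (a ^ 2) u h φ) (hth : t * h * t⁻¹ = h⁻¹) {m : ℕ} (ht : t * t = h ^ m)
    (ham : a ^ m = -1) (htu : (t * u) ^ 3 = 1)
    (hw : h * t = φ (-a) * t * φ (-a⁻¹) * t * φ (-a)) :
    ∀ c : F, c ≠ 0 → Good φ h t c := by
  have hb : a ^ 2 ≠ 0 := pow_ne_zero _ ha
  have hbm : (a ^ 2) ^ m = 1 := by rw [← pow_mul, mul_comm, pow_mul, ham]; simp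
  have g1 : Good φ h t 1 := by
    refine ⟨-1, -1, -(m : ℤ), ?_⟩
    rw [H.one, H.neg, H.one, _root_.zpow_neg, zpow_natCast, ← ht]
    rw [pow_succ, pow_two] at htu
    calc t * u * t = t * u * t * u * t * u * (u⁻¹ * t⁻¹ * u⁻¹) := by group
      _ = (t * u * (t * u) * (t * u)) * (u⁻¹ * t⁻¹ * u⁻¹) := by group
      _ = _ := by rw [htu]; group
  have g2 : Good φ h t (-a⁻¹) := by
    refine ⟨a, a, 1, ?_⟩
    calc t * φ (-a⁻¹) * t = (φ (-a))⁻¹ * (φ (-a) * t * φ (-a⁻¹) * t * φ (-a)) * (φ (-a))⁻¹ := by group
      _ = _ := by rw [← hw, ← H.neg, neg_neg, zpow_one]; group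
  intro c hc
  obtain ⟨l, rfl⟩ := hgen c hc
  rcases Nat.even_or_odd l with ⟨i, rfl⟩ | ⟨i, rfl⟩
  · have := g1.mul_pow H hb hth i
    rwa [mul_one, ← pow_mul, two_mul] at this
  · rcases Nat.even_or_odd m with ⟨s, rfl⟩ | ⟨s, rfl⟩
    · have := g2.mul_pow H hb hth (i + 1 + s)
      have e : (a ^ 2) ^ (i + 1 + s) * -a⁻¹ = a ^ (2 * i + 1) := by
        rw [← pow_mul, show 2 * (i + 1 + s) = (2 * i + 1) + 1 + (s + s) by ring, pow_add, ham,
          pow_succ a (2 * i + 1)]
        field_simp
      rwa [e] at this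
    · have := (g1.mul_pow H hb hth (i + s + 1)).neg H hb hth ht hbm
      rwa [mul_one, ← pow_mul, show 2 * (i + s + 1) = (2 * i + 1) + (2 * s + 1) by ring, pow_add, ham,
        mul_neg, mul_one, neg_neg] at this

end Cfsg.Agent.H81.SLPres
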