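import Mathlib
import Cfsg.Agent.S0713

/-! Two elements of prime orders `p < q`, `2p ≥` degree, generate an alternating group on the
union of their supports. -/

set_option autoImplicit false

namespace Cfsg.Agent.H81.TPG

open Equiv Equiv.Perm

variable {α : Type*} [Fintype α] [DecidableEq α]

theorem isCycle_of_big {y : Perm α} {q : ℕ} (hq : q.Prime) (hy : orderOf y = q)
    (h : y.support.card < 2 * q) : y.IsCycle ∧ y.support.card = q := by
  have hc := isCycle_of_prime_order (σ := y) (hy ▸ hq) (hy ▸ h)
  exact ⟨hc, by rw [← hc.orderOf, hy]⟩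

theorem cycleOf_support_card {x : Perm α} {p : ℕ} (hp : p.Prime) (hx : orderOf x = p) {a : α}
    (ha : x a ≠ a) : (x.cycleOf a).support.card = p := by
  obtain ⟨n, hn⟩ := cycleType_prime_order (σ := x) (hx ▸ hp)
  have h1 : (x.cycleOf a).support.card ∈ x.cycleType := by
    rw [cycleType_def, Multiset.mem_map]
    exact ⟨x.cycleOf a, cycleOf_mem_cycleFactorsFinset_iff.2 (mem_support.2 ha), rfl⟩
  rw [hn] at h1
  rw [Multiset.eq_of_mem_replicate h1, hx]

theorem closure_isPretransitive {x y : Perm α} {p q : ℕ} (hp : p.Prime) (hq : q.Prime)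
    (hx : orderOf x = p) (hy : orderOf y = q) (hD : ∀ a, x a ≠ a ∨ y a ≠ a)
    (hlt : Fintype.card α < p + q) (hyc : y.IsCycle) (hys : y.support.card = q) :
    MulAction.IsPretransitive (Subgroup.closure {x, y}) α := by
  obtain ⟨b, hb, -⟩ := id hyc
  have hym : ∀ i : ℤ, y ^ i ∈ Subgroup.closure ({x, y} : Set (Perm α)) :=
    fun i => zpow_mem (Subgroup.subset_closure (by simp)) i
  have hxm : ∀ i : ℤ, x ^ i ∈ Subgroup.closure ({x, y} : Set (Perm α)) :=
    fun i => zpow_mem (Subgroup.subset_closure (by simp)) i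
  rw [MulAction.isPretransitive_iff_orbit_eq_univ b, Set.eq_univ_iff_forall]
  intro a
  by_cases ha : y a = a
  · have hxa : x a ≠ a := (hD a).resolve_right (by simpa using ha)
    obtain ⟨c, hc1, hc2⟩ : ∃ c, c ∈ (x.cycleOf a).support ∧ c ∈ y.support := by
      by_contra h
      push Not at h
      have hdis : Disjoint (x.cycleOf a).support y.support := Finset.disjoint_left.2 h
      have := Finset.card_le_univ ((x.cycleOf a).support ∪ y.support)
      rw [Finset.card_union_of_disjoint hdis, cycleOf_support_card hp hx hxa, hys] at this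
      omega
    obtain ⟨i, hi⟩ := hyc.sameCycle hb (mem_support.1 hc2)
    obtain ⟨j, hj⟩ := (mem_support_cycleOf_iff.1 hc1).1.symm
    refine ⟨⟨x ^ j * y ^ i, mul_mem (hxm j) (hym i)⟩, ?_⟩
    show (x ^ j * y ^ i) b = a
    rw [Equiv.Perm.mul_apply, hi, hj]
  · obtain ⟨i, hi⟩ := hyc.sameCycle hb ha
    exact ⟨⟨y ^ i, hym i⟩, hi⟩

/-- The set moved by `y`, acted on by the powers of `y`. -/
def suppAction (y : Perm α) : SubMulAction (Subgroup.zpowers y) α where
  carrier := {a | y a ≠ a}
  smul_mem' g a ha := by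
    obtain ⟨i, hi⟩ := Subgroup.mem_zpowers_iff.1 g.2
    show y ((g : Perm α) a) ≠ (g : Perm α) a
    rw [← hi, ← mem_support, zpow_apply_mem_support, mem_support]
    exact ha

theorem closure_isPreprimitive {x y : Perm α} {q : ℕ} (hq : q.Prime)
    (htr : MulAction.IsPretransitive (Subgroup.closure {x, y}) α)
    (hlt : Fintype.card α < 2 * q) (hyc : y.IsCycle) (hys : y.support.card = q) :
    MulAction.IsPreprimitive (Subgroup.closure {x, y}) α := by
  have hcard : Nat.card (suppAction y) = q := by
    rw [← hys, ← Nat.card_eq_finsetCard y.support]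
    exact Nat.card_congr (Equiv.subtypeEquivRight fun a => (mem_support (f := y) (x := a)).symm)
  haveI : MulAction.IsPretransitive (Subgroup.zpowers y) (suppAction y) := ⟨fun a b => by
    obtain ⟨i, hi⟩ := hyc.sameCycle a.2 b.2
    exact ⟨⟨y ^ i, Subgroup.zpow_mem_zpowers y i⟩, Subtype.ext hi⟩⟩
  haveI : MulAction.IsPreprimitive (Subgroup.zpowers y) (suppAction y) :=
    MulAction.IsPreprimitive.of_prime_card (by rw [hcard]; exact hq)
  let φ : Subgroup.zpowers y → Subgroup.closure ({x, y} : Set (Perm α)) :=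
    fun g => ⟨g.1, Subgroup.zpowers_le.2 (Subgroup.subset_closure (by simp)) g.2⟩
  let f : suppAction y →ₑ[φ] α := { toFun := Subtype.val, map_smul' := fun _ _ => rfl }
  refine MulAction.IsPreprimitive.of_card_lt (f := f) ?_
  rw [Nat.card_eq_fintype_card]
  have : Set.range f = Set.range (Subtype.val : suppAction y → α) := rfl
  rw [this, Set.ncard_range_of_injective Subtype.val_injective, hcard]
  exact hlt

/-- A faithful transitive group of order `q(q+1)` on `q+1` points has no two elements of different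
orders prime to `q`: such elements are derangements, and there are only `q` of those. -/
theorem no_two_derangement_orders {H β : Type*} [Group H] [Finite H] [Fintype β]
    [MulAction H β] [FaithfulSMul H β] [MulAction.IsPretransitive H β] {q : ℕ} (hq : q.Prime)
    (hβ : Fintype.card β = q + 1) (hH : Nat.card H = q * (q + 1)) {t u : H}
    (ht : orderOf t ≠ 1) (ht' : orderOf t ≠ q) (hu : orderOf u ≠ 1) (hu' : orderOf u ≠ q)
    (htu : orderOf t ≠ orderOf u) : False := by
  classical
  haveI := Fintype.ofFinite H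
  have hstab : ∀ z : β, Nat.card (MulAction.stabilizer H z) = q := by
    intro z
    have h := (MulAction.stabilizer H z).index_mul_card
    rw [MulAction.index_stabilizer_of_transitive H z, Nat.card_eq_fintype_card (α := β), hβ, hH,
      mul_comm q] at h
    exact Nat.eq_of_mul_eq_mul_left (Nat.succ_pos q) h
  have hord : ∀ (g : H) (z : β), g • z = z → g ≠ 1 → orderOf g = q := by
    intro g z hz hg
    have h : orderOf g ∣ q := hstab z ▸ Subgroup.orderOf_dvd_natCard _ (MulAction.mem_stabilizer_iff.2 hz)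
    exact (hq.eq_one_or_self_of_dvd _ h).resolve_left (fun h1 => hg (orderOf_eq_one_iff.1 h1))
  have huniq : ∀ (g : H) (z w : β), g • z = z → g • w = w → g ≠ 1 → z = w := by
    intro g z w hz hw hg
    by_contra hzw
    let π : Perm β := MulAction.toPerm g
    have hπ : orderOf π = q := by
      rw [← hord g z hz hg]
      exact orderOf_injective (MulAction.toPermHom H β) MulAction.toPerm_injective g
    have hsub : π.support ⊆ ({z, w} : Finset β)ᶜ := by
      intro v hv
      simp only [Finset.mem_compl, Finset.mem_insert, Finset.mem_singleton, not_or]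
      exact ⟨fun e => mem_support.1 hv (e ▸ hz), fun e => mem_support.1 hv (e ▸ hw)⟩
    have h1 := Finset.card_le_card hsub
    rw [Finset.card_compl, Finset.card_pair hzw, hβ] at h1
    have := hq.two_le
    obtain ⟨-, h2⟩ := isCycle_of_big hq hπ (by omega)
    omega
  obtain ⟨y, hy⟩ : ∃ y : H, orderOf y = q :=
    haveI := Fact.mk hq
    exists_prime_orderOf_dvd_card' q (hH ▸ dvd_mul_right q _)
  obtain ⟨z0, hz0⟩ : ∃ z0 : β, y • z0 = z0 := by
    by_contra h
    push Not at h
    let π : Perm β := MulAction.toPerm y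
    have hπ : orderOf π = q := by
      rw [← hy]
      exact orderOf_injective (MulAction.toPermHom H β) MulAction.toPerm_injective y
    have hsupp : π.support = Finset.univ := Finset.eq_univ_iff_forall.2 fun z => mem_support.2 (h z)
    have := hq.two_le
    obtain ⟨-, h2⟩ := isCycle_of_big hq hπ (by rw [hsupp, Finset.card_univ, hβ]; omega)
    rw [hsupp, Finset.card_univ, hβ] at h2
    omega
  let U : Finset H := Finset.univ.biUnion fun z : β =>
    (Finset.univ.filter fun g : H => g • z = z).erase 1
  have hU : U.card = (q + 1) * (q - 1) := by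
    rw [Finset.card_biUnion]
    · rw [Finset.sum_congr rfl (g := fun _ => q - 1) fun z _ => ?_, Finset.sum_const,
        Finset.card_univ, hβ, smul_eq_mul]
      rw [Finset.card_erase_of_mem (by simp), ← hstab z, Nat.card_eq_fintype_card]
      congr 1
      exact (Fintype.card_of_subtype _ (by simp)).symm
    · intro z _ w _ hzw
      simp only [Function.onFun, Finset.disjoint_left, Finset.mem_erase, Finset.mem_filter,
        Finset.mem_univ, true_and]
      exact fun g hg hg' => hzw (huniq g z w hg.2 hg'.2 hg.1)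
  have hfree : ∀ (g : H), orderOf g ≠ 1 → orderOf g ≠ q → ∀ z : β, g • z ≠ z := fun g h1 h2 z hz =>
    h2 (hord g z hz fun e => h1 (orderOf_eq_one_iff.2 e))
  have hconj : ∀ (g : H), orderOf g ≠ 1 → orderOf g ≠ q →
      ((Finset.range q).image fun i => y ^ i * g * (y ^ i)⁻¹).card = q := by
    intro g h1 h2
    rw [Finset.card_image_of_injOn, Finset.card_range]
    intro i hi j hj hij
    simp only [Finset.coe_range, Set.mem_Iio] at hi hj
    by_contra hne
    set k : ℤ := (i : ℤ) - j
    have hcomm : y ^ k * g = g * y ^ k := by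
      simp only at hij
      calc y ^ k * g = (y ^ j)⁻¹ * (y ^ i * g * (y ^ i)⁻¹) * y ^ i := by
            simp only [k, zpow_sub, zpow_natCast]
            have : y ^ i * (y ^ j)⁻¹ = (y ^ j)⁻¹ * y ^ i :=
              ((Commute.pow_pow_self y i j).inv_right).eq
            rw [this]; group
        _ = g * y ^ k := by
            rw [hij]; simp only [k, zpow_sub, zpow_natCast]
            have : y ^ i * (y ^ j)⁻¹ = (y ^ j)⁻¹ * y ^ i :=
              ((Commute.pow_pow_self y i j).inv_right).eq
            rw [this]; group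
    have hk : y ^ k ≠ 1 := by
      intro e
      have := Int.natAbs_dvd_natAbs.2 (orderOf_dvd_iff_zpow_eq_one.2 e)
      rw [Int.natAbs_natCast, hy] at this
      have h3 := Nat.le_of_dvd (by omega) this
      omega
    have hz0' : y ^ k • z0 = z0 := by
      have : y ^ k ∈ MulAction.stabilizer H z0 := zpow_mem (MulAction.mem_stabilizer_iff.2 hz0) k
      exact this
    refine hfree g h1 h2 z0 (huniq (y ^ k) (g • z0) z0 ?_ hz0' hk)
    rw [← mul_smul, hcomm, mul_smul, hz0']
  let T : H → Finset H := fun g => (Finset.range q).image fun i => y ^ i * g * (y ^ i)⁻¹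
  have hTord : ∀ g h : H, h ∈ T g → orderOf h = orderOf g := by
    intro g h hh
    obtain ⟨i, -, rfl⟩ := Finset.mem_image.1 hh
    rw [← MulAut.conj_apply, MulEquiv.orderOf_eq]
  have hTU : ∀ g : H, orderOf g ≠ 1 → orderOf g ≠ q → Disjoint (T g) (insert 1 U) := by
    intro g h1 h2
    rw [Finset.disjoint_left]
    intro h hh hh'
    have ho := hTord g h hh
    rcases Finset.mem_insert.1 hh' with rfl | hh'
    · exact h1 (by rw [← ho, orderOf_one])
    · simp only [U, Finset.mem_biUnion, Finset.mem_erase, Finset.mem_filter] at hh'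
      obtain ⟨z, -, hne, -, hz⟩ := hh'
      exact hfree h (ho ▸ h1) (ho ▸ h2) z hz
  have h1U : (1 : H) ∉ U := by simp [U]
  have hdis : Disjoint (T t) (T u) := Finset.disjoint_left.2 fun h hh hh' =>
    htu ((hTord t h hh).symm.trans (hTord u h hh'))
  have hle := Finset.card_le_univ (T t ∪ T u ∪ insert 1 U)
  rw [Finset.card_union_of_disjoint (Finset.disjoint_union_left.2 ⟨hTU t ht ht', hTU u hu hu'⟩),
    Finset.card_union_of_disjoint hdis, hconj t ht ht', hconj u hu hu', Finset.card_insert_of_notMem h1U,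
    hU, ← Nat.card_eq_fintype_card, hH] at hle
  obtain ⟨r, rfl⟩ : ∃ r, q = r + 1 := ⟨q - 1, by have := hq.pos; omega⟩
  simp only [Nat.add_sub_cancel] at hle
  nlinarith

/-- A primitive group of degree `p + 2` containing a `p`-cycle is triply transitive. -/
theorem three_transitive {G : Subgroup (Perm α)} (hG : MulAction.IsPreprimitive G α) {p : ℕ}
    (hp : p.Prime) (hn : Fintype.card α = p + 2) {g : Perm α} (hgc : g.IsCycle)
    (hgp : g.support.card = p) (hg : g ∈ G) : MulAction.IsMultiplyPretransitive G α 3 := by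
  classical
  have hp2 := hp.two_le
  set s : Set α := (g.support : Set α)ᶜ with hs
  have hsc : s.ncard = 1 + 1 := by
    rw [hs, Set.ncard_compl, Nat.card_eq_fintype_card, Set.ncard_coe_finset, hgp]; omega
  have htr := Equiv.Perm.isPretransitive_of_isCycle_mem hgc hg
  have hprim : MulAction.IsPreprimitive (fixingSubgroup G s) (SubMulAction.ofFixingSubgroup G s) := by
    haveI := htr
    apply MulAction.IsPreprimitive.of_prime_card
    convert hp
    rw [Nat.card_eq_fintype_card, Fintype.card_subtype, ← hgp]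
    apply congr_arg
    ext x
    simp [SubMulAction.mem_ofFixingSubgroup_iff, hs]
  exact (hG.isMultiplyPreprimitive hsc (by rw [Nat.card_eq_fintype_card]; omega) hprim).isMultiplyPretransitive

theorem exists_map_triple {G : Subgroup (Perm α)} (h3 : MulAction.IsMultiplyPretransitive G α 3)
    {a b c a' b' c' : α} (h : a ≠ b ∧ a ≠ c ∧ b ≠ c) (h' : a' ≠ b' ∧ a' ≠ c' ∧ b' ≠ c') :
    ∃ σ ∈ G, σ a = a' ∧ σ b = b' ∧ σ c = c' := by
  haveI := h3
  have hinj : ∀ {u v w : α}, u ≠ v ∧ u ≠ w ∧ v ≠ w → Function.Injective ![u, v, w] := by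
    intro u v w hne i j hij
    fin_cases i <;> fin_cases j <;> simp_all [eq_comm]
  obtain ⟨σ, hσ⟩ := MulAction.exists_smul_eq G (⟨_, hinj h⟩ : Fin 3 ↪ α) ⟨_, hinj h'⟩
  exact ⟨σ, σ.2, by simpa using! DFunLike.congr_fun hσ 0, by simpa using! DFunLike.congr_fun hσ 1,
    by simpa using! DFunLike.congr_fun hσ 2⟩

/-- The subgroup of `G` fixing three points. -/
def fix3 (G : Subgroup (Perm α)) (a b c : α) : Subgroup (Perm α) :=
  G ⊓ (MulAction.stabilizer (Perm α) a ⊓ MulAction.stabilizer (Perm α) b ⊓
    MulAction.stabilizer (Perm α) c)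

theorem mem_fix3 {G : Subgroup (Perm α)} {a b c : α} {g : Perm α} :
    g ∈ fix3 G a b c ↔ g ∈ G ∧ g a = a ∧ g b = b ∧ g c = c := by
  simp [fix3, Subgroup.mem_inf, and_assoc]

theorem card_eq_mul_fix3 {G : Subgroup (Perm α)} (h3 : MulAction.IsMultiplyPretransitive G α 3)
    {a b c : α} (h : a ≠ b ∧ a ≠ c ∧ b ≠ c) :
    Nat.card G = Fintype.card α * (Fintype.card α - 1) * (Fintype.card α - 2) *
      Nat.card (fix3 G a b c) := by
  classical
  haveI := h3
  haveI : MulAction.IsPretransitive G (Fin 3 ↪ α) := h3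
  have hinj : Function.Injective ![a, b, c] := by
    intro i j hij
    fin_cases i <;> fin_cases j <;> simp_all [eq_comm]
  let e : Fin 3 ↪ α := ⟨_, hinj⟩
  have h1 := (MulAction.stabilizer G e).index_mul_card
  rw [@MulAction.index_stabilizer_of_transitive G (Fin 3 ↪ α) _ _ e h3, Nat.card_eq_fintype_card (α := Fin 3 ↪ α),
    Fintype.card_embedding_eq, Fintype.card_fin] at h1
  have h2 : (MulAction.stabilizer G e).map G.subtype = fix3 G a b c := by
    ext g
    rw [mem_fix3]
    constructor
    · rintro ⟨g, hg, rfl⟩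
      exact ⟨g.2, DFunLike.congr_fun hg 0, DFunLike.congr_fun hg 1, DFunLike.congr_fun hg 2⟩
    · rintro ⟨hg, ha, hb, hc⟩
      refine ⟨⟨g, hg⟩, ?_, rfl⟩
      show _ = e
      ext i
      fin_cases i
      · exact ha
      · exact hb
      · exact hc
  rw [← h2, ← Nat.card_congr ((MulAction.stabilizer G e).equivMapOfInjective _ G.subtype_injective).toEquiv]
  rw [← h1, Nat.descFactorial_succ, Nat.descFactorial_succ, Nat.descFactorial_succ, Nat.descFactorial_zero]
  rw [Nat.sub_zero]
  ring

/-- A triply transitive group of degree `p + 2` with trivial three-point stabilisers cannot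
contain a `p`-cycle if `3 ∣ p + 1` and `p ≥ 5`. -/
theorem not_sharply_three_transitive {G : Subgroup (Perm α)}
    (h3 : MulAction.IsMultiplyPretransitive G α 3) {p : ℕ} (hp : p.Prime) (hp5 : 5 ≤ p)
    (h3p : 3 ∣ p + 1) (hn : Fintype.card α = p + 2)
    (hcard : Nat.card G = (p + 2) * (p + 1) * p) : False := by
  classical
  haveI := h3
  obtain ⟨a⟩ : Nonempty α := Fintype.card_pos_iff.1 (by omega)
  haveI : MulAction.IsPretransitive G α := ⟨fun u v => by
    obtain ⟨w, hw1, hw2⟩ : ∃ w, w ∉ ({u, v} : Finset α) ∧ True := by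
      refine ⟨(Finset.exists_mem_notMem_of_card_lt_card (t := Finset.univ) (s := {u, v}) ?_).choose,
        (Finset.exists_mem_notMem_of_card_lt_card (t := Finset.univ) (s := {u, v}) ?_).choose_spec.2, trivial⟩
      all_goals
        refine lt_of_le_of_lt Finset.card_le_two ?_
        rw [Finset.card_univ]; omega
    obtain ⟨w', hw', -⟩ : ∃ w', w' ∉ ({u, v, w} : Finset α) ∧ True := by
      refine ⟨(Finset.exists_mem_notMem_of_card_lt_card (t := Finset.univ) (s := {u, v, w}) ?_).choose,
        (Finset.exists_mem_notMem_of_card_lt_card (t := Finset.univ) (s := {u, v, w}) ?_).choose_spec.2, trivial⟩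
      all_goals
        refine lt_of_le_of_lt Finset.card_le_three ?_
        rw [Finset.card_univ]; omega
    simp only [Finset.mem_insert, Finset.mem_singleton, not_or] at hw1 hw'
    obtain ⟨σ, hσ, h1, -, -⟩ := exists_map_triple h3
      (a := u) (b := w) (c := w') (a' := v) (b' := w) (c' := w')
      ⟨Ne.symm hw1.1, Ne.symm hw'.1, Ne.symm hw'.2.2⟩ ⟨Ne.symm hw1.2, Ne.symm hw'.2.1, Ne.symm hw'.2.2⟩
    exact ⟨⟨σ, hσ⟩, h1⟩⟩
  let H := MulAction.stabilizer G a
  have hH : Nat.card H = p * (p + 1) := by
    have h := H.index_mul_card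
    rw [MulAction.index_stabilizer_of_transitive G a, Nat.card_eq_fintype_card (α := α), hn, hcard,
      mul_assoc] at h
    rw [Nat.eq_of_mul_eq_mul_left (Nat.succ_pos _) h]
    ring
  let β := {z : α // z ≠ a}
  have hpres : ∀ (g : H) (z : α), z ≠ a → (g : G).1 z ≠ a := fun g z hz e => by
    have h := g.2
    apply hz
    exact (g : G).1.injective (e.trans h.symm)
  letI : MulAction H β :=
    { smul := fun g z => ⟨(g : G).1 z, hpres g z z.2⟩
      one_smul := fun z => rfl
      mul_smul := fun g h z => rfl }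
  haveI : FaithfulSMul H β := ⟨fun {g h} e => by
    apply Subtype.ext
    apply Subtype.ext
    ext z
    by_cases hz : z = a
    · subst hz
      exact g.2.trans h.2.symm
    · exact congrArg Subtype.val (e ⟨z, hz⟩)⟩
  haveI : MulAction.IsPretransitive H β := ⟨fun u v => by
    obtain ⟨w, -, hw⟩ := Finset.exists_mem_notMem_of_card_lt_card (t := Finset.univ)
      (s := ({a, u.1, v.1} : Finset α)) (lt_of_le_of_lt Finset.card_le_three (by rw [Finset.card_univ]; omega))
    simp only [Finset.mem_insert, Finset.mem_singleton, not_or] at hw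
    obtain ⟨σ, hσ, h1, h2, -⟩ := exists_map_triple h3 (a := a) (b := u.1) (c := w) (a' := a)
      (b' := v.1) (c' := w) ⟨Ne.symm u.2, Ne.symm hw.1, Ne.symm hw.2.1⟩
      ⟨Ne.symm v.2, Ne.symm hw.1, Ne.symm hw.2.2⟩
    exact ⟨⟨⟨σ, hσ⟩, h1⟩, Subtype.ext h2⟩⟩
  obtain ⟨t, ht⟩ : ∃ t : H, orderOf t = 2 :=
    haveI := Fact.mk Nat.prime_two
    exists_prime_orderOf_dvd_card' 2 (hH ▸ (Nat.even_mul_succ_self p).two_dvd)
  obtain ⟨u, hu⟩ : ∃ u : H, orderOf u = 3 :=
    haveI := Fact.mk Nat.prime_three
    exists_prime_orderOf_dvd_card' 3 (hH ▸ Dvd.dvd.mul_left h3p p)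
  exact no_two_derangement_orders (β := β) hp
    (by rw [Fintype.card_subtype_compl, Fintype.card_subtype_eq, hn]; omega) hH
    (t := t) (u := u) (by omega) (by omega) (by omega) (by omega) (by omega)

end Cfsg.Agent.H81.TPG
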