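import Mathlib
import Cfsg.Agent.S0713
import Cfsg.Agent.H81.TwoPrimeGen

/-! The degree `p + 2` cases `(5,7)` and `(11,13)`, and degree `6`. -/

set_option autoImplicit false

namespace Cfsg.Agent.H81.TPG

open Equiv Equiv.Perm

variable {α : Type*} [Fintype α] [DecidableEq α]

theorem zmod5_pow : ∀ r : ZMod 5, r ≠ 0 → r ^ 4 = 1 := by decide

theorem zmod11_pow : ∀ r : ZMod 11, r ≠ 0 → r ^ 10 = 1 := by decide

theorem card_dvd_factorial_index (hn : 5 ≤ Fintype.card α) (H : Subgroup (alternatingGroup α))
    (hH : H ≠ ⊤) : Function.Injective (MulAction.toPermHom (alternatingGroup α) (alternatingGroup α ⧸ H)) ∧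
      Nat.card (alternatingGroup α) ∣ H.index.factorial := by
  classical
  haveI : IsSimpleGroup (alternatingGroup α) :=
    alternatingGroup.isSimpleGroup (by rw [Nat.card_eq_fintype_card]; exact hn)
  have hker : (MulAction.toPermHom (alternatingGroup α) (alternatingGroup α ⧸ H)).ker = H.normalCore :=
    (Subgroup.normalCore_eq_ker H).symm
  have hinj : Function.Injective (MulAction.toPermHom (alternatingGroup α) (alternatingGroup α ⧸ H)) := by
    rw [← MonoidHom.ker_eq_bot_iff, hker]
    exact (Subgroup.Normal.eq_bot_or_eq_top inferInstance).resolve_right fun e =>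
      hH (top_le_iff.1 (e ▸ H.normalCore_le))
  refine ⟨hinj, ?_⟩
  have := Subgroup.card_dvd_of_injective _ hinj
  rwa [Nat.card_perm] at this

theorem index_data {G : Subgroup (Perm α)} (hG : G ≤ alternatingGroup α) [Nontrivial α] :
    (G.subgroupOf (alternatingGroup α)).index * Nat.card G * 2 = (Fintype.card α).factorial := by
  rw [← Nat.card_congr (Subgroup.subgroupOfEquivOfLe hG).toEquiv, Subgroup.index_mul_card,
    mul_comm, two_mul_nat_card_alternatingGroup, Nat.card_perm, Nat.card_eq_fintype_card]

theorem five_seven {G : Subgroup (Perm α)} (hGA : G ≤ alternatingGroup α)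
    (hG : MulAction.IsPreprimitive G α) (hn : Fintype.card α = 7) {x : Perm α} (hxc : x.IsCycle)
    (hxs : x.support.card = 5) (hx : x ∈ G) : G = alternatingGroup α := by
  classical
  haveI : Nontrivial α := Fintype.one_lt_card_iff_nontrivial.1 (by omega)
  have h3 := three_transitive hG Nat.prime_five (by omega) hxc hxs hx
  obtain ⟨a, -, b, -, c, -, hab, hac, hbc⟩ :=
    (Finset.two_lt_card (s := (Finset.univ : Finset α))).1 (by rw [Finset.card_univ]; omega)
  have hM := card_eq_mul_fix3 h3 (a := a) (b := b) (c := c) ⟨hab, hac, hbc⟩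
  rw [hn, show 7 * (7 - 1) * (7 - 2) = 210 from rfl] at hM
  have hidx := index_data hGA
  rw [hn, hM, show Nat.factorial 7 = 5040 from rfl] at hidx
  set k := (G.subgroupOf (alternatingGroup α)).index with hk
  by_cases htop : G.subgroupOf (alternatingGroup α) = ⊤
  · exact le_antisymm hGA (Subgroup.subgroupOf_eq_top.1 htop)
  exfalso
  obtain ⟨-, hdvd⟩ := card_dvd_factorial_index (by omega) _ htop
  have hA : Nat.card (alternatingGroup α) = 2520 := by
    rw [nat_card_alternatingGroup, Nat.card_eq_fintype_card, hn]; rfl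
  rw [hA, ← hk] at hdvd
  have hk12 : k ∣ 12 := ⟨Nat.card (fix3 G a b c), by
    set t := Nat.card (fix3 G a b c)
    have : k * (210 * t) * 2 = 420 * (k * t) := by ring
    omega⟩
  have hk' : k ≤ 12 := Nat.le_of_dvd (by norm_num) hk12
  by_cases hk6 : k ≤ 6
  · have := Nat.le_of_dvd (Nat.factorial_pos k) hdvd
    have := (Nat.factorial_le hk6).trans (le_of_eq (show Nat.factorial 6 = 720 from rfl))
    omega
  · have hk12' : k = 12 := by
      rcases hk12 with ⟨t, ht⟩
      rcases (show t = 0 ∨ t = 1 ∨ 2 ≤ t by omega) with rfl | rfl | ht2 <;> [omega; omega; skip]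
      have := Nat.mul_le_mul_left k ht2
      omega
    refine not_sharply_three_transitive h3 Nat.prime_five (by norm_num) (by norm_num) (by omega) ?_
    rw [hM]
    rw [hk12'] at hidx
    omega

theorem eleven_thirteen {G : Subgroup (Perm α)} (hGA : G ≤ alternatingGroup α)
    (hG : MulAction.IsPreprimitive G α) (hn : Fintype.card α = 13) {x : Perm α} (hxc : x.IsCycle)
    (hxs : x.support.card = 11) (hx : x ∈ G) : G = alternatingGroup α := by
  classical
  have h11 : Nat.Prime 11 := by norm_num
  have h3 := three_transitive hG h11 (by omega) hxc hxs hx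
  obtain ⟨a, b, hab, hs⟩ := Finset.card_eq_two.1
    (show x.supportᶜ.card = 2 by rw [Finset.card_compl, hn, hxs])
  have hfix : ∀ z, x z = z ↔ z = a ∨ z = b := fun z => by
    rw [← notMem_support, ← Finset.mem_compl, hs, Finset.mem_insert, Finset.mem_singleton]
  obtain ⟨c, hc, -⟩ := id hxc
  have hca : c ≠ a := fun e => hc ((hfix c).2 (Or.inl e))
  have hcb : c ≠ b := fun e => hc ((hfix c).2 (Or.inr e))
  have hxa : x a = a := (hfix a).2 (Or.inl rfl)
  have hxb : x b = b := (hfix b).2 (Or.inr rfl)
  set M := fix3 G a b c with hM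
  haveI h5F : Fact (Nat.Prime 5) := ⟨Nat.prime_five⟩
  have hfive : ∀ s ∈ G, orderOf s = 5 → s.support.card < 10 → G = alternatingGroup α := by
    intro s hs ho hcard
    obtain ⟨h1, h2⟩ := isCycle_of_big Nat.prime_five ho (by omega)
    exact le_antisymm hGA (Cfsg.Agent.S0713.result G hG Nat.prime_five (by omega) (by omega) h1 h2 hs)
  have hMle : ∀ s ∈ M, s.support ⊆ ({a, b, c} : Finset α)ᶜ := by
    intro s hs z hz
    obtain ⟨-, ha, hb, hc'⟩ := mem_fix3.1 hs
    simp only [Finset.mem_compl, Finset.mem_insert, Finset.mem_singleton]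
    rintro (rfl | rfl | rfl) <;> exact mem_support.1 hz ‹_›
  have habc : ({a, b, c} : Finset α)ᶜ.card = 10 := by
    rw [Finset.card_compl, hn, Finset.card_eq_three.2 ⟨a, b, c, hab, hca.symm, hcb.symm, rfl⟩]
  by_cases h5 : 5 ∣ Nat.card M
  · -- an element of order five in the stabiliser of three points
    obtain ⟨Q, -⟩ := IsPGroup.exists_le_sylow (IsPGroup.of_bot (p := 5) (G := M))
    by_cases h25 : 5 < Nat.card Q
    · -- a large Sylow subgroup contains a five-cycle
      obtain ⟨z, hz⟩ : (({a, b, c} : Finset α)ᶜ).Nonempty := Finset.card_pos.1 (by omega)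
      set S := MulAction.stabilizer (Q : Subgroup M) z
      have horb : (MulAction.orbit (Q : Subgroup M) z).ncard ≤ 10 := by
        rw [← habc, ← Set.ncard_coe_finset]
        refine Set.ncard_le_ncard ?_ (Set.toFinite _)
        rintro _ ⟨g, rfl⟩
        obtain ⟨-, ha, hb, hc'⟩ := mem_fix3.1 (g : M).2
        replace hz : ¬ (z = a ∨ z = b ∨ z = c) := by simpa using hz
        simp only [Finset.coe_compl, Set.mem_compl_iff, Finset.mem_coe, Finset.mem_insert,
          Finset.mem_singleton]
        have inj := ((g : M) : Perm α).injective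
        rintro (e | e | e)
        · exact hz (Or.inl (inj (e.trans ha.symm)))
        · exact hz (Or.inr (Or.inl (inj (e.trans hb.symm))))
        · exact hz (Or.inr (Or.inr (inj (e.trans hc'.symm))))
      obtain ⟨i, hi⟩ := IsPGroup.iff_card.1 Q.2
      have hidx := S.index_mul_card
      rw [MulAction.index_stabilizer, hi] at hidx
      obtain ⟨j, -, hj⟩ := (Nat.dvd_prime_pow Nat.prime_five).1 (Dvd.intro _ hidx)
      have hj5 : (MulAction.orbit (Q : Subgroup M) z).ncard ≤ 5 := by
        rcases (show j ≤ 1 ∨ 2 ≤ j by omega) with h | h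
        · rw [hj]; exact (Nat.pow_le_pow_right (by norm_num) h).trans (le_of_eq (pow_one 5))
        · have := Nat.pow_le_pow_right (show 0 < 5 by norm_num) h
          rw [← hj] at this
          omega
      have hS : 5 ∣ Nat.card S := by
        obtain ⟨l, -, hl⟩ := (Nat.dvd_prime_pow Nat.prime_five).1 (Dvd.intro_left _ hidx)
        rcases Nat.eq_zero_or_pos l with rfl | hl0
        · rw [pow_zero] at hl
          rw [hl, mul_one, ← hi] at hidx
          omega
        · exact hl ▸ dvd_pow_self 5 hl0.ne'
      obtain ⟨s, hs⟩ := exists_prime_orderOf_dvd_card' 5 hS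
      let s' : Perm α := (((s : (Q : Subgroup M)) : M) : Perm α)
      refine hfive s' (mem_fix3.1 ((s : (Q : Subgroup M)) : M).2).1 ?_ ?_
      · rw [← hs]
        simp [s', Subgroup.orderOf_coe]
      · have hsub : s'.support ⊆ ({a, b, c} : Finset α)ᶜ.erase z := by
          intro w hw
          refine Finset.mem_erase.2 ⟨fun e => mem_support.1 hw (e ▸ s.2), hMle _ ((s : (Q : Subgroup M)) : M).2 hw⟩
        have := Finset.card_le_card hsub
        rw [Finset.card_erase_of_mem hz, habc] at this
        omega
    · -- the Sylow subgroup has order five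
      have hQ5 : Nat.card Q = 5 := by
        have h : 5 ∣ Nat.card Q := Q.dvd_card_of_dvd_card h5
        have := Nat.le_of_dvd Nat.card_pos h
        omega
      obtain ⟨s, hs⟩ := exists_prime_orderOf_dvd_card' (G := (Q : Subgroup M)) 5 (dvd_of_eq hQ5.symm)
      set s' : Perm α := (((s : (Q : Subgroup M)) : M) : Perm α) with hs'
      have hso : orderOf s' = 5 := by rw [← hs]; simp [s', Subgroup.orderOf_coe]
      have hQz : ∀ g : (Q : Subgroup M), ((g : M) : Perm α) ∈ Subgroup.zpowers s' := by
        intro g
        haveI := Fintype.ofFinite (Q : Subgroup M)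
        have htop : Subgroup.zpowers s = ⊤ :=
          Subgroup.eq_top_of_card_eq _ (by rw [Nat.card_zpowers, hs]; exact hQ5.symm)
        obtain ⟨i, hi⟩ := Subgroup.mem_zpowers_iff.1 (htop ▸ Subgroup.mem_top g : g ∈ Subgroup.zpowers s)
        exact Subgroup.mem_zpowers_iff.2 ⟨i, by rw [hs', ← hi]; simp⟩
      have hsM : s' ∈ M := ((s : (Q : Subgroup M)) : M).2
      obtain ⟨hsG, hsa, hsb, hsc⟩ := mem_fix3.1 hsM
      by_cases h10 : s'.support.card < 10
      · exact hfive s' hsG hso h10
      have hsupp : s'.support = ({a, b, c} : Finset α)ᶜ :=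
        Finset.eq_of_subset_of_card_le (hMle _ hsM) (by omega)
      obtain ⟨h, hhG, ha', hb', hc'⟩ := exists_map_triple h3 (a := a) (b := b) (c := c) (a' := b)
        (b' := c) (c' := a) ⟨hab, hca.symm, hcb.symm⟩ ⟨hcb.symm, hab.symm, hca⟩
      have hconj : ∀ g ∈ M, h * g * h⁻¹ ∈ M := by
        intro g hg
        obtain ⟨hgG, hga, hgb, hgc⟩ := mem_fix3.1 hg
        have e : ∀ {u v}, h u = v → h⁻¹ v = u := fun {u v} e => by
          rw [← e, Equiv.Perm.inv_def, Equiv.symm_apply_apply]
        refine mem_fix3.2 ⟨mul_mem (mul_mem hhG hgG) (inv_mem hhG), ?_, ?_, ?_⟩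
        · rw [Perm.mul_apply, Perm.mul_apply, e hc', hgc, hc']
        · rw [Perm.mul_apply, Perm.mul_apply, e ha', hga, ha']
        · rw [Perm.mul_apply, Perm.mul_apply, e hb', hgb, hb']
      let t : M := ⟨h * s' * h⁻¹, hconj _ hsM⟩
      have hto : orderOf t = 5 := by
        rw [← hso, ← Subgroup.orderOf_coe]
        show orderOf (h * s' * h⁻¹) = _
        rw [← MulAut.conj_apply, MulEquiv.orderOf_eq]
      have hT : Nat.card (Subgroup.zpowers t) = Nat.card Q := by rw [Nat.card_zpowers, hto, hQ5]
      let T : Sylow 5 M := Sylow.ofCard (Subgroup.zpowers t)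
        (by rw [hT]; exact Q.card_eq_multiplicity)
      obtain ⟨m, hm⟩ := MulAction.exists_smul_eq M T Q
      have hmt : m * t * m⁻¹ ∈ (Q : Subgroup M) := by
        rw [← hm]
        exact ⟨t, Subgroup.mem_zpowers t, rfl⟩
      obtain ⟨i, hi⟩ := Subgroup.mem_zpowers_iff.1 (hQz ⟨_, hmt⟩)
      set g : Perm α := (m : Perm α) * h with hg
      obtain ⟨hmG, hma, hmb, hmc⟩ := mem_fix3.1 m.2
      have hgG : g ∈ G := mul_mem hmG hhG
      have hga : g a = b := by rw [hg, Perm.mul_apply, ha', hmb]
      have hgb : g b = c := by rw [hg, Perm.mul_apply, hb', hmc]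
      have hgc : g c = a := by rw [hg, Perm.mul_apply, hc', hma]
      have hgs : g * s' * g⁻¹ = s' ^ i := by
        rw [hi, hg]
        simp only [t, Subgroup.coe_mul, Subgroup.coe_inv]
        group
      have hgpow : ∀ n : ℕ, g ^ n * s' * (g ^ n)⁻¹ = s' ^ (i ^ n) := by
        intro n
        induction n with
        | zero => simp
        | succ n ih =>
          calc g ^ (n + 1) * s' * (g ^ (n + 1))⁻¹ = g * (g ^ n * s' * (g ^ n)⁻¹) * g⁻¹ := by
                rw [pow_succ']; group
            _ = (g * s' * g⁻¹) ^ (i ^ n) := by rw [ih, conj_zpow]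
            _ = s' ^ (i ^ (n + 1)) := by rw [hgs, ← zpow_mul, pow_succ']
      have hi5 : i % 5 ≠ 0 := by
        intro e
        have h1 : s' ^ i = 1 := by
          rw [← orderOf_dvd_iff_zpow_eq_one, hso]
          exact Int.dvd_of_emod_eq_zero e
        rw [h1, conj_eq_one_iff] at hgs
        rw [hgs, orderOf_one] at hso
        omega
      set c4 := g ^ 4 with hc4
      have hcs : c4 * s' = s' * c4 := by
        have h1 : s' ^ (i ^ 4) = s' := by
          conv_rhs => rw [← zpow_one s']
          rw [zpow_eq_zpow_iff_modEq, hso]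
          have h4 : ∀ r : ZMod 5, r ≠ 0 → r ^ 4 = 1 := zmod5_pow
          rw [← ZMod.intCast_eq_intCast_iff]
          push_cast
          refine h4 _ fun e => hi5 ?_
          exact Int.emod_eq_zero_of_dvd ((ZMod.intCast_zmod_eq_zero_iff_dvd i 5).1 e)
        have h2 := hgpow 4
        rw [h1] at h2
        exact mul_inv_eq_iff_eq_mul.1 h2
      have hc4a : c4 a = b ∧ c4 b = c ∧ c4 c = a := by
        simp [hc4, pow_succ, pow_zero, Perm.mul_apply, hga, hgb, hgc]
      have hsupp' : ∀ z, s' z ≠ z ↔ z ≠ a ∧ z ≠ b ∧ z ≠ c := fun z => by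
        rw [← mem_support, hsupp]; simp [not_or]
      have hcinv : ∀ z, s' z ≠ z → s' (c4 z) ≠ c4 z := by
        intro z hz e
        apply hz
        apply c4.injective
        rwa [← Perm.mul_apply, hcs, Perm.mul_apply]
      have hsame : ∀ z w, s'.SameCycle z w → s'.SameCycle (c4 z) (c4 w) := by
        rintro z w ⟨n, rfl⟩
        exact ⟨n, by rw [← Perm.mul_apply, ← ((show Commute c4 s' from hcs).zpow_right n).eq, Perm.mul_apply]⟩
      have hcyc : ∀ z, s' z ≠ z → s'.SameCycle z (c4 (c4 z)) := by
        intro z hz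
        by_cases h1 : s'.SameCycle z (c4 z)
        · exact h1.trans (hsame _ _ h1)
        · have hz1 := hcinv z hz
          have hz2 := hcinv _ hz1
          have hdis : Disjoint (s'.cycleOf z).support (s'.cycleOf (c4 z)).support :=
            Finset.disjoint_left.2 fun w hw hw' =>
              h1 ((mem_support_cycleOf_iff.1 hw).1.trans (mem_support_cycleOf_iff.1 hw').1.symm)
          have hun : (s'.cycleOf z).support ∪ (s'.cycleOf (c4 z)).support = s'.support := by
            apply Finset.eq_of_subset_of_card_le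
              (Finset.union_subset (support_cycleOf_le _ _) (support_cycleOf_le _ _))
            rw [Finset.card_union_of_disjoint hdis, cycleOf_support_card Nat.prime_five hso hz,
              cycleOf_support_card Nat.prime_five hso hz1, hsupp, habc]
          have hmem : c4 (c4 z) ∈ (s'.cycleOf z).support ∪ (s'.cycleOf (c4 z)).support := by
            rw [hun]; exact mem_support.2 hz2
          rcases Finset.mem_union.1 hmem with hm' | hm'
          · exact (mem_support_cycleOf_iff.1 hm').1
          · exfalso
            have h2 := (mem_support_cycleOf_iff.1 hm').1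
            obtain ⟨n, hn'⟩ := h2
            apply h1
            refine ⟨n, c4.injective ?_⟩
            rw [← hn', ← Perm.mul_apply, ((show Commute c4 s' from hcs).zpow_right n).eq, Perm.mul_apply]
      have hten : ∀ z, s' z ≠ z → (c4 ^ 10) z = z := by
        intro z hz
        obtain ⟨n, hn'⟩ := hcyc z hz
        have hall : ∀ k : ℕ, ((c4 * c4) ^ k) z = ((s' ^ n) ^ k) z := by
          intro k
          induction k with
          | zero => rfl
          | succ k ih =>
            have hcom' : Commute (c4 * c4) ((s' ^ n) ^ k) :=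
              (((show Commute c4 s' from hcs).mul_left hcs).zpow_right n).pow_right k
            rw [pow_succ' (c4 * c4), Perm.mul_apply, ih, ← Perm.mul_apply, hcom'.eq, Perm.mul_apply,
              show (c4 * c4) z = c4 (c4 z) from rfl, ← hn', pow_succ, Perm.mul_apply]
        have := hall 5
        rw [← zpow_natCast (s' ^ n), ← zpow_mul, mul_comm n, zpow_mul, zpow_natCast, ← hso,
          pow_orderOf_eq_one, one_zpow, hso] at this
        rwa [← pow_two, ← pow_mul] at this
      obtain ⟨h4a, h4b, h4c⟩ := hc4a
      have hA : (c4 ^ 10) a = b ∧ (c4 ^ 10) b = c ∧ (c4 ^ 10) c = a := by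
        simp [pow_succ, pow_zero, Perm.mul_apply, h4a, h4b, h4c]
      have hsup : (c4 ^ 10).support = {a, b, c} := by
        ext z
        simp only [mem_support, Finset.mem_insert, Finset.mem_singleton]
        constructor
        · intro hz
          by_contra hne
          exact hz (hten z ((hsupp' z).2 (by simpa [not_or] using hne)))
        · rintro (rfl | rfl | rfl)
          · rw [hA.1]; exact hab.symm
          · rw [hA.2.1]; exact hcb
          · rw [hA.2.2]; exact hca.symm
      exact le_antisymm hGA (Equiv.Perm.alternatingGroup_le_of_isPreprimitive_of_isThreeCycle_mem hG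
        (card_support_eq_three_iff.1 (hsup ▸ Finset.card_eq_three.2 ⟨a, b, c, hab, hca.symm, hcb.symm, rfl⟩))
        (pow_mem (pow_mem hgG 4) 10))
  · -- no element of order five: the group is sharply triply transitive
    exfalso
    let L : Subgroup (Perm α) :=
      G ⊓ (MulAction.stabilizer (Perm α) a ⊓ MulAction.stabilizer (Perm α) b)
    have hL : ∀ g, g ∈ L ↔ g ∈ G ∧ g a = a ∧ g b = b := fun g => by
      simp [L, Subgroup.mem_inf]
    have hxL : x ∈ L := (hL x).2 ⟨hx, hxa, hxb⟩
    have hxo : orderOf x = 11 := by rw [hxc.orderOf, hxs]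
    let x' : L := ⟨x, hxL⟩
    have hxo' : orderOf x' = 11 := by rw [← hxo]; exact (Subgroup.orderOf_coe x').symm
    haveI : Fact (Nat.Prime 11) := ⟨h11⟩
    have hfac : (Nat.card L).factorization 11 = 1 := by
      apply le_antisymm
      · by_contra h
        have h2 : 11 ^ 2 ∣ Nat.factorial 13 := by
          refine ((Nat.pow_dvd_pow 11 (show 2 ≤ (Nat.card L).factorization 11 by omega)).trans (Nat.ordProj_dvd _ 11)).trans ?_
          rw [← hn, ← Fintype.card_perm, ← Nat.card_eq_fintype_card]
          exact Subgroup.card_subgroup_dvd_card L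
        norm_num [Nat.factorial] at h2
      · exact h11.factorization_pos_of_dvd Nat.card_pos.ne' (hxo' ▸ orderOf_dvd_natCard x')
    let P : Sylow 11 L := Sylow.ofCard (Subgroup.zpowers x') (by rw [Nat.card_zpowers, hxo', hfac, pow_one])
    have hPmem : ∀ g : L, g ∈ (P : Subgroup L) ↔ ∃ i : ℕ, x' ^ i = g := fun g => by
      show g ∈ Subgroup.zpowers x' ↔ _
      rw [← mem_powers_iff_mem_zpowers]
      rfl
    have hdecomp : ∀ g : L, ∃ i : ℕ, ((x' ^ i)⁻¹ * g : L).1 ∈ M := by
      intro g
      obtain ⟨hgG, hga, hgb⟩ := (hL _).1 g.2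
      have hgc : x (g.1 c) ≠ g.1 c := fun e => by
        rcases (hfix _).1 e with e | e
        · exact hca (g.1.injective (e.trans hga.symm))
        · exact hcb (g.1.injective (e.trans hgb.symm))
      obtain ⟨i, hi⟩ := hxc.exists_pow_eq hc hgc
      refine ⟨i, mem_fix3.2 ?_⟩
      have hin : ((x ^ i)⁻¹ : Perm α) a = a ∧ ((x ^ i)⁻¹ : Perm α) b = b := by
        simp only [Equiv.Perm.inv_def, Equiv.symm_apply_eq]
        exact ⟨(pow_apply_eq_self_of_apply_eq_self hxa i).symm, (pow_apply_eq_self_of_apply_eq_self hxb i).symm⟩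
      simp only [Subgroup.coe_mul, Subgroup.coe_inv, SubmonoidClass.coe_pow, Perm.mul_apply, x']
      refine ⟨mul_mem (inv_mem (pow_mem hx i)) hgG, by rw [hga]; exact hin.1, by rw [hgb]; exact hin.2, ?_⟩
      rw [Equiv.Perm.inv_def, Equiv.symm_apply_eq, hi]
    have hnorm : Subgroup.normalizer ((P : Subgroup L) : Set L) ≤ Subgroup.centralizer (P : Set L) := by
      intro g hg
      obtain ⟨i, hi⟩ := hdecomp g
      set g' : L := (x' ^ i)⁻¹ * g with hg'
      have hPi : x' ^ i ∈ (P : Subgroup L) := (hPmem _).2 ⟨i, rfl⟩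
      have hg'n : g' ∈ Subgroup.normalizer ((P : Subgroup L) : Set L) :=
        mul_mem (inv_mem (Subgroup.le_normalizer hPi)) hg
      have hg'1 : g' = 1 := by
        obtain ⟨k, hk⟩ := (hPmem _).1
          ((Subgroup.mem_normalizer_iff.1 hg'n x').1 ((hPmem _).2 ⟨1, pow_one _⟩))
        set u : Perm α := g'.1 with hu
        have huk : u * x * u⁻¹ = x ^ k := by
          have := congrArg Subtype.val hk
          simpa [x', hu] using this.symm
        obtain ⟨huG, hua, hub, huc⟩ := mem_fix3.1 hi
        have hupow : ∀ n j : ℕ, (u ^ n) ((x ^ j) c) = (x ^ (k ^ n * j)) c := by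
          intro n
          induction n with
          | zero => simp
          | succ n ih =>
            intro j
            have hcj : u * x ^ (k ^ n * j) = x ^ (k * (k ^ n * j)) * u := by
              rw [pow_mul x k, ← huk, conj_pow, inv_mul_cancel_right]
            rw [pow_succ', Perm.mul_apply, ih, ← Perm.mul_apply, hcj, Perm.mul_apply, huc,
              pow_succ', mul_assoc]
        have huab : ∀ n : ℕ, (u ^ n) a = a ∧ (u ^ n) b = b := fun n =>
          ⟨pow_apply_eq_self_of_apply_eq_self hua n, pow_apply_eq_self_of_apply_eq_self hub n⟩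
        have hpts : ∀ z, z = a ∨ z = b ∨ ∃ j : ℕ, (x ^ j) c = z := fun z => by
          by_cases hz : x z = z
          · exact ((hfix z).1 hz).imp id Or.inl
          · exact Or.inr (Or.inr (hxc.exists_pow_eq hc hz))
        have hk0 : k % 11 ≠ 0 := by
          intro e
          have h1 : x ^ k = 1 := orderOf_dvd_iff_pow_eq_one.1 (hxo ▸ Nat.dvd_of_mod_eq_zero e)
          rw [h1, conj_eq_one_iff] at huk
          exact hc (by rw [huk]; rfl)
        have hu10 : u ^ 10 = 1 := by
          ext z
          rcases hpts z with rfl | rfl | ⟨j, rfl⟩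
          · exact (huab 10).1
          · exact (huab 10).2
          · rw [hupow, Perm.one_apply]
            congr 1
            rw [pow_eq_pow_iff_modEq, hxo, ← ZMod.natCast_eq_natCast_iff]
            push_cast
            have h10 : ∀ r : ZMod 11, r ≠ 0 → r ^ 10 = 1 := zmod11_pow
            rw [h10 _ fun e => hk0 (Nat.mod_eq_zero_of_dvd ((ZMod.natCast_eq_zero_iff k 11).1 e)), one_mul]
        have hu2 : u ^ 2 = 1 := by
          have h1 : orderOf u ∣ 10 := orderOf_dvd_of_pow_eq_one hu10
          have h2 : (orderOf u).Coprime 5 := by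
            rw [Nat.coprime_comm, Nat.prime_five.coprime_iff_not_dvd]
            exact fun h => h5 (h.trans (Subgroup.orderOf_dvd_natCard M hi))
          exact orderOf_dvd_iff_pow_eq_one.1 (h2.dvd_of_dvd_mul_right (k := orderOf u) (m := 2) h1)
        apply Subtype.ext
        show u = 1
        by_contra hu1
        have huo : orderOf u = 2 := orderOf_eq_prime hu2 hu1
        have hsupp : u.support = ({a, b, c} : Finset α)ᶜ := by
          refine Finset.Subset.antisymm (hMle _ hi) fun z hz => mem_support.2 fun e => hu1 ?_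
          simp only [Finset.mem_compl, Finset.mem_insert, Finset.mem_singleton, not_or] at hz
          obtain ⟨j, rfl⟩ := ((hpts z).resolve_left hz.1).resolve_left hz.2.1
          have hj0 : (j : ZMod 11) ≠ 0 := fun e => hz.2.2 (by
            rw [show x ^ j = 1 from orderOf_dvd_iff_pow_eq_one.1
              (hxo ▸ (ZMod.natCast_eq_zero_iff j 11).1 e)]; rfl)
          have h1 := hupow 1 j
          rw [pow_one, e, pow_one] at h1
          have h2 : x ^ j = x ^ (k * j) := hxc.pow_eq_pow_iff.2 ⟨c, hc, h1⟩
          rw [pow_eq_pow_iff_modEq, hxo, ← ZMod.natCast_eq_natCast_iff] at h2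
          push_cast at h2
          have hk1 : (k : ZMod 11) = 1 := by
            have := mul_right_cancel₀ hj0 (h2.symm.trans (one_mul _).symm)
            exact this
          ext w
          rcases hpts w with rfl | rfl | ⟨l, rfl⟩
          · exact hua
          · exact hub
          · rw [← pow_one u, hupow, Perm.one_apply]
            congr 1
            rw [pow_eq_pow_iff_modEq, hxo, ← ZMod.natCast_eq_natCast_iff]
            push_cast
            rw [hk1, one_pow, one_mul]
        obtain ⟨n, hn'⟩ := cycleType_prime_order (σ := u) (huo ▸ Nat.prime_two)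
        have hsum := u.sum_cycleType
        rw [hn', huo, Multiset.sum_replicate, smul_eq_mul, hsupp, habc] at hsum
        have hsign := mem_alternatingGroup.1 (hGA huG)
        rw [sign_of_cycleType, hn', huo, Multiset.sum_replicate, Multiset.card_replicate, smul_eq_mul,
          show n + 1 = 5 by omega] at hsign
        exact absurd hsign (by decide)
      have hgP : g ∈ (P : Subgroup L) := by
        rw [inv_mul_eq_one] at hg'1
        exact hg'1 ▸ hPi
      rw [Subgroup.mem_centralizer_iff]
      intro h hh
      obtain ⟨j, rfl⟩ := (hPmem h).1 hh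
      obtain ⟨l, rfl⟩ := (hPmem g).1 hgP
      exact (Commute.pow_pow_self x' j l).eq
    set K := (MonoidHom.transferSylow P hnorm).ker with hK
    have hMK : ∀ g : L, g.1 ∈ M → g ∈ K := by
      intro g hg
      rw [hK, MonoidHom.mem_ker]
      set f := MonoidHom.transferSylow P hnorm g
      have h1 : orderOf f ∣ orderOf g := orderOf_map_dvd _ g
      have h2 : orderOf f ∣ 11 := by
        have : orderOf f ∣ Nat.card P := orderOf_dvd_natCard f
        rwa [show Nat.card P = 11 from by
          show Nat.card (Subgroup.zpowers x') = 11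
          rw [Nat.card_zpowers, hxo']] at this
      rcases (Nat.dvd_prime h11).1 h2 with h | h
      · exact orderOf_eq_one_iff.1 h
      · exfalso
        rw [h, ← Subgroup.orderOf_coe g] at h1
        obtain ⟨r, hr⟩ := h1
        have hpow : g.1 ^ r ∈ M := pow_mem hg r
        have hord : orderOf (g.1 ^ r) = 11 := by
          have hr0 : r ≠ 0 := by rintro rfl; exact absurd hr (by simpa using (orderOf_pos g.1).ne')
          rw [orderOf_pow_of_dvd hr0 ⟨11, by rw [hr, mul_comm]⟩, hr, Nat.mul_div_cancel _ (by omega)]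
        have hle := Finset.card_le_card (hMle _ hpow)
        rw [habc] at hle
        obtain ⟨-, h'⟩ := isCycle_of_big h11 hord (by omega)
        omega
    have hKP := MonoidHom.ker_transferSylow_disjoint P hnorm P P.2
    have hKM : ∀ g ∈ K, g.1 ∈ M := by
      intro g hg
      obtain ⟨i, hi⟩ := hdecomp g
      have h1 : x' ^ i ∈ K := by
        have := mul_mem hg (inv_mem (hMK _ hi))
        simpa [mul_inv_rev] using this
      have h2 : x' ^ i = 1 := Subgroup.disjoint_def.1 hKP h1 ((hPmem _).2 ⟨i, rfl⟩)
      rw [h2, inv_one, one_mul] at hi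
      exact hi
    have hM1 : M = ⊥ := by
      rw [Subgroup.eq_bot_iff_forall]
      intro m hm
      obtain ⟨hmG, hma, hmb, hmc⟩ := mem_fix3.1 hm
      let m' : L := ⟨m, (hL m).2 ⟨hmG, hma, hmb⟩⟩
      ext z
      by_cases hz : x z = z
      · rcases (hfix z).1 hz with rfl | rfl
        · exact hma
        · exact hmb
      · obtain ⟨j, rfl⟩ := hxc.exists_pow_eq hc hz
        have h1 : (x' ^ j)⁻¹ * m' * x' ^ j ∈ K :=
          by simpa only [inv_inv] using (MonoidHom.normal_ker _).conj_mem m' (hMK m' hm) (x' ^ j)⁻¹
        have h2 := (mem_fix3.1 (hKM _ h1)).2.2.2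
        simp only [Subgroup.coe_mul, Subgroup.coe_inv, SubmonoidClass.coe_pow, Perm.mul_apply, x', m',
          Equiv.Perm.inv_def, Equiv.symm_apply_eq] at h2
        simpa using h2
    have hcard := card_eq_mul_fix3 h3 (a := a) (b := b) (c := c) ⟨hab, hca.symm, hcb.symm⟩
    rw [← hM, hM1, Subgroup.card_bot, hn] at hcard
    exact not_sharply_three_transitive h3 h11 (by norm_num) (by norm_num) (by omega) (by rw [hcard])

end Cfsg.Agent.H81.TPG
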